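import Mathlib

set_option autoImplicit false

/-! Symbolic engine for words in root elements. -/

namespace Cfsg.Agent.H1.CT

/-- sign change -/
def sK {α : Type*} [Neg α] (b : Bool) (t : α) : α := cond b (-t) t

@[simp] theorem sK_true {α : Type*} [Neg α] (t : α) : sK true t = -t := rfl
@[simp] theorem sK_false {α : Type*} [Neg α] (t : α) : sK false t = t := rfl

theorem sK_sK {α : Type*} [InvolutiveNeg α] (a b : Bool) (t : α) : sK a (sK b t) = sK (xor a b) t := by
  cases a <;> cases b <;> simp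

theorem sK_self {α : Type*} [InvolutiveNeg α] (a : Bool) (t : α) : sK a (sK a t) = t := by
  cases a <;> simp

theorem beq_t {a b : ℕ} : Nat.beq a b = true ↔ a = b := by rw [Nat.beq_eq]
theorem beq_f {a b : ℕ} : Nat.beq a b = false ↔ a ≠ b := by
  rw [ne_eq, ← beq_t, Bool.not_eq_true]
theorem blt_t {a b : ℕ} : Nat.blt a b = true ↔ a < b := by rw [Nat.blt_eq]
theorem ble_t {a b : ℕ} : Nat.ble a b = true ↔ a ≤ b := by rw [Nat.ble_eq]

abbrev Tm := ℕ × ℤ × ℕ × ℕ
abbrev Lt := ℕ × ℤ × ℕ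

/-- conjugation -/
def cj {G : Type*} [Group G] (g a : G) : G := g * a * g⁻¹

section cj
variable {G : Type*} [Group G]
theorem cj_mul (g a b : G) : cj g (a * b) = cj g a * cj g b := by simp [cj, mul_assoc]
@[simp] theorem cj_one (g : G) : cj g 1 = 1 := by simp [cj]
@[simp] theorem one_cj (g : G) : cj 1 g = g := by simp [cj]
theorem cj_inv (g a : G) : cj g a⁻¹ = (cj g a)⁻¹ := by simp [cj, mul_assoc]
theorem mul_cj (g h a : G) : cj (g * h) a = cj g (cj h a) := by simp [cj, mul_assoc]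
theorem cj_cj (g h a : G) : cj g (cj h a) = cj (cj g h) (cj g a) := by simp [cj, mul_assoc]
theorem inv_cj_cj (g a : G) : cj g⁻¹ (cj g a) = a := by simp [cj, mul_assoc]
theorem cj_inv_cj (g a : G) : cj g (cj g⁻¹ a) = a := by simp [cj, mul_assoc]
theorem cj_prod (g : G) (L : List G) : cj g L.prod = (L.map (cj g)).prod := by
  induction L with
  | nil => simp
  | cons a L ih => simp [cj_mul, ih]
end cj

section
variable {G : Type*} [Group G] {K : Type*} [Field K]

def wd (x : ℕ → K → G) (L : List Tm) (t u : K) : G :=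
  (L.map fun c => x c.1 ((c.2.1 : K) * t ^ c.2.2.1 * u ^ c.2.2.2)).prod

def R1 (x : ℕ → K → G) (r : ℕ) : Prop := ∀ t u : K, x r (t + u) = x r t * x r u

def R2 (x : ℕ → K → G) (ct : ℕ → ℕ → List Tm) (r s : ℕ) : Prop :=
  ∀ t u : K, cj (x r t) (x s u) = x s u * wd x (ct r s) t u

theorem R1.zero {x : ℕ → K → G} {r : ℕ} (h : R1 x r) : x r 0 = 1 := by
  have := h 0 0
  rw [add_zero] at this
  exact (mul_eq_left.mp this.symm)

theorem R1.neg {x : ℕ → K → G} {r : ℕ} (h : R1 x r) (t : K) : x r (-t) = (x r t)⁻¹ := by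
  have := h t (-t)
  rw [add_neg_cancel, h.zero] at this
  exact (eq_inv_of_mul_eq_one_right this.symm)

def nn (x : ℕ → K → G) (neg : ℕ → ℕ) (r : ℕ) (t : K) : G := x r t * x (neg r) (-t⁻¹) * x r t

theorem nn_neg {x : ℕ → K → G} {neg : ℕ → ℕ} {r : ℕ} (h : R1 x r) (h' : R1 x (neg r)) (t : K) :
    nn x neg r (-t) = (nn x neg r t)⁻¹ := by
  simp only [nn, inv_neg, h.neg, h'.neg, mul_inv_rev, mul_assoc]

def R3 (x : ℕ → K → G) (neg : ℕ → ℕ) (r : ℕ) : Prop :=
  ∀ t₁ t₂ : K, t₁ ≠ 0 → t₂ ≠ 0 →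
    (nn x neg r t₁ * nn x neg r (-1)) * (nn x neg r t₂ * nn x neg r (-1)) =
      nn x neg r (t₁ * t₂) * nn x neg r (-1)

def lv (x : ℕ → K → G) (u : K) (a : Lt) : G := x a.1 ((a.2.1 : K) * u ^ a.2.2)

def ev (x : ℕ → K → G) (u : K) (W : List Lt) : G := (W.map (lv x u)).prod

@[simp] theorem ev_nil (x : ℕ → K → G) (u : K) : ev x u [] = 1 := rfl
@[simp] theorem ev_cons (x : ℕ → K → G) (u : K) (a : Lt) (W : List Lt) :
    ev x u (a :: W) = lv x u a * ev x u W := by simp [ev]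
@[simp] theorem ev_append (x : ℕ → K → G) (u : K) (V W : List Lt) :
    ev x u (V ++ W) = ev x u V * ev x u W := by simp [ev]
end

/-- data of the engine -/
structure Eng where
  ct : ℕ → ℕ → List Tm
  neg : ℕ → ℕ
  S : ℕ → Bool

namespace Eng
variable (E : Eng)

def ok (a b : ℕ) : Bool := E.S a && E.S b && !(Nat.beq b a) && !(Nat.beq b (E.neg a))

def cjL (a b : Lt) : List Lt :=
  b :: (E.ct a.1 b.1).map fun c =>
    (c.1, c.2.1 * a.2.1 ^ c.2.2.1 * b.2.1 ^ c.2.2.2, a.2.2 * c.2.2.1 + b.2.2 * c.2.2.2)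

def rw1 : List Lt → Option (List Lt)
  | [] => none
  | a :: W =>
    bif decide (a.2.1 = 0) && E.S a.1 then some W else
    match W with
    | [] => none
    | b :: V =>
      bif Nat.beq a.1 b.1 && Nat.beq a.2.2 b.2.2 && E.S a.1 then some ((a.1, a.2.1 + b.2.1, a.2.2) :: V)
      else bif Nat.blt b.1 a.1 && E.ok a.1 b.1 then some (E.cjL a b ++ a :: V)
      else (rw1 (b :: V)).map (a :: ·)

def norm : ℕ → List Lt → List Lt
  | 0, W => W
  | f + 1, W => match E.rw1 W with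
    | none => W
    | some V => norm f V

def cjW (a : Lt) (W : List Lt) : List Lt := W.flatMap (E.cjL a)

def okW (a : ℕ) (W : List Lt) : Bool := W.all fun b => E.ok a b.1

def ltEq (W : List Lt) (r : ℕ) (c : ℤ) : Bool := decide (W = [(r, c, 1)])

def f1 (p r r' : ℕ) (e : Bool) : Bool :=
  let W0 : List Lt := [(r, 1, 1)]
  let W1 := E.norm 10 (E.cjW (p, 1, 0) W0)
  let W2 := E.norm 10 (E.cjW (E.neg p, -1, 0) W1)
  let W3 := E.norm 10 (E.cjW (p, 1, 0) W2)
  E.okW p W0 && E.okW (E.neg p) W1 && E.okW p W2 && ltEq W3 r' (sK e 1)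

variable {G : Type*} [Group G] {K : Type*} [Field K]

structure Good (x : ℕ → K → G) : Prop where
  r1 : ∀ r, E.S r = true → R1 x r
  r2 : ∀ r s, E.S r = true → E.S s = true → s ≠ r → s ≠ E.neg r → R2 x E.ct r s

variable {E}

theorem Good.cjL {x : ℕ → K → G} (h : E.Good x) (u : K) (a b : Lt) (hok : E.ok a.1 b.1 = true) :
    cj (lv x u a) (lv x u b) = ev x u (E.cjL a b) := by
  simp only [ok, Bool.and_eq_true, Bool.not_eq_true', beq_f] at hok
  obtain ⟨⟨⟨h1, h2⟩, h3⟩, h4⟩ := hok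
  have := h.r2 _ _ h1 h2 h3 h4 ((a.2.1 : K) * u ^ a.2.2) ((b.2.1 : K) * u ^ b.2.2)
  simp only [lv, this, Eng.cjL, ev_cons]
  congr 1
  simp only [wd, ev, List.map_map]
  congr 1
  apply List.map_congr_left
  intro c _
  simp only [Function.comp, lv]
  congr 1
  push_cast
  ring

theorem Good.rw1 {x : ℕ → K → G} (h : E.Good x) (u : K) :
    ∀ (W V : List Lt), E.rw1 W = some V → ev x u W = ev x u V
  | [], V, hV => by simp [Eng.rw1] at hV
  | [a], V, hV => by
    simp only [Eng.rw1, Bool.cond_eq_ite, Bool.and_eq_true, decide_eq_true_eq] at hV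
    split_ifs at hV with h1
    cases hV
    simp [lv, h1.1, (h.r1 _ h1.2).zero]
  | a :: b :: W, V, hV => by
    rw [Eng.rw1] at hV
    simp only [Bool.cond_eq_ite, Bool.and_eq_true, decide_eq_true_eq, beq_t] at hV
    split_ifs at hV with h1 h2 h3
    · cases hV
      simp [lv, h1.1, (h.r1 _ h1.2).zero]
    · cases hV
      obtain ⟨⟨h4, h5⟩, h6⟩ := h2
      simp only [ev_cons, ← mul_assoc]
      congr 1
      simp only [lv, ← h4, ← h5]
      rw [← h.r1 _ h6]
      congr 1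
      push_cast
      ring
    · cases hV
      rw [ev_append, ← h.cjL u a b h3.2]
      simp [cj, mul_assoc]
    · obtain ⟨V', hV', rfl⟩ := Option.map_eq_some_iff.mp hV
      rw [ev_cons, Good.rw1 h u _ _ hV', ev_cons]

theorem Good.norm {x : ℕ → K → G} (h : E.Good x) (u : K) :
    ∀ (f : ℕ) (W : List Lt), ev x u (E.norm f W) = ev x u W
  | 0, W => rfl
  | f + 1, W => by
    rw [Eng.norm]
    split
    · rfl
    · rename_i V hV
      rw [Good.norm h u f V, h.rw1 u _ _ hV]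

theorem Good.cjW {x : ℕ → K → G} (h : E.Good x) (u : K) (a : Lt) :
    ∀ (W : List Lt), E.okW a.1 W = true → cj (lv x u a) (ev x u W) = ev x u (E.cjW a W)
  | [], _ => by simp [Eng.cjW]
  | b :: W, hW => by
    simp only [okW, List.all_cons, Bool.and_eq_true] at hW
    have ih := Good.cjW h u a W hW.2
    simp only [Eng.cjW] at ih ⊢
    rw [List.flatMap_cons, ev_append, ev_cons, cj_mul, ih, h.cjL u a b hW.1]

theorem ev_of_ltEq {x : ℕ → K → G} (u : K) {W : List Lt} {r : ℕ} {e : Bool}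
    (h : ltEq W r (sK e 1) = true) : ev x u W = x r (sK e u) := by
  simp only [ltEq, decide_eq_true_eq] at h
  subst h
  cases e <;> simp [lv]

theorem Good.f1 {x : ℕ → K → G} (h : E.Good x) {p r r' : ℕ} {e : Bool}
    (hf : E.f1 p r r' e = true) (u : K) :
    cj (nn x E.neg p 1) (x r u) = x r' (sK e u) := by
  simp only [Eng.f1, Bool.and_eq_true] at hf
  obtain ⟨⟨⟨h0, h1⟩, h2⟩, h3⟩ := hf
  have e0 : x r u = ev x u [(r, 1, 1)] := by simp [lv]
  have e1 : x p 1 = lv x u (p, 1, 0) := by simp [lv]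
  have e2 : x (E.neg p) (-1⁻¹) = lv x u (E.neg p, -1, 0) := by simp [lv]
  rw [nn, mul_cj, mul_cj, e0, e1, e2, h.cjW u (p, 1, 0) _ h0, ← h.norm u 10,
    h.cjW u (E.neg p, -1, 0) _ h1, ← h.norm u 10, h.cjW u (p, 1, 0) _ h2, ← h.norm u 10,
    ev_of_ltEq u h3]

end Eng

end Cfsg.Agent.H1.CT
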