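import Cfsg.Agent.H1.CT1

set_option autoImplicit false

/-! Abstract Curtis–Tits argument from a combinatorial certificate. -/

namespace Cfsg.Agent.H1.CT

structure Cert where
  n : ℕ
  l : ℕ
  ct : ℕ → ℕ → List Tm
  neg : ℕ → ℕ
  p : ℕ → ℕ
  w : ℕ → ℕ → ℕ
  η : ℕ → ℕ → Bool
  ht : ℕ → ℕ
  d : ℕ → ℕ
  m : ℕ → ℕ → ℕ
  jn : ℕ → ℕ
  S : ℕ → ℕ → ℕ → Bool
  pc : ℕ → ℕ → ℕ

/-- evaluate a natural number before going on -/
def force {β : Type} (x : ℕ) (f : ℕ → β) : β := Nat.rec (f 0) (fun k _ => f (Nat.succ k)) x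

@[simp] theorem force_eq {β : Type} (x : ℕ) (f : ℕ → β) : force x f = f x := by
  cases x <;> rfl

def alt : ℕ → ℕ → ℕ → List ℕ
  | 0, _, _ => []
  | k + 1, i, j => i :: alt k j i

def oddB (i : ℕ) : Bool := Nat.beq (Nat.mod i 2) 1

namespace Cert
variable (C : Cert)

def E (i j : ℕ) : Eng := ⟨C.ct, C.neg, C.S i j⟩
def Eall : Eng := ⟨C.ct, C.neg, fun r => Nat.blt r C.n⟩

def act : List ℕ → ℕ → ℕ × Bool
  | [], r => (r, false)
  | i :: L, r => (C.w i (act L r).1, xor (C.η i (act L r).1) (act L r).2)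

def pathOK (ok : ℕ → ℕ → Bool) : List ℕ → ℕ → Bool
  | [], _ => true
  | i :: L, r => ok i (C.act L r).1 && pathOK ok L r

def mapL (i : ℕ) (a : Lt) : Lt := (C.w i a.1, sK (C.η i a.1) a.2.1, a.2.2)

def f2c (i r b : ℕ) (c : ℤ) : Bool :=
  let j := C.jn i
  let a := C.w j r
  let W : List Lt := [(b, -1, 1), (a, c, 0), (b, 1, 1), (a, -c, 0)]
  Eng.ltEq ((C.E i j).norm 10 W) r (sK false 1) &&
    Eng.ltEq ((C.E i j).norm 10 (W.map (C.mapL i))) (C.w i r) (sK (C.η i r) 1) &&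
    (C.E i j).ok (C.p i) a && (C.E i j).ok (C.p i) b

def f2 (i r b : ℕ) : Bool := C.f2c i r b 1 || C.f2c i r b (-1)

def eps (j r : ℕ) : Bool := xor (C.η j (C.w j r)) (C.η j r)

def hchk (j r : ℕ) : Bool :=
  Nat.ble (C.ht r) 1 ||
    (C.eps j r == xor (C.eps j (C.w (C.d r) r)) (C.eps j (C.p (C.d r)) && C.eps (C.d r) (C.w (C.d r) r)))

def bchk (i j : ℕ) : Bool :=
  let A := alt (C.m i j - 1) i j
  let k := bif oddB (C.m i j) then i else j
  let ok := fun a r => (Nat.beq a i || Nat.beq a j) && C.S i j r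
  Nat.beq i j ||
    (decide (alt (C.m i j) i j = A ++ [k]) && decide (alt (C.m i j) j i = j :: A) &&
      C.pathOK ok A (C.p k) && C.pathOK ok A (C.neg (C.p k)) &&
      decide (C.act A (C.p k) = (C.p j, false)) &&
      decide (C.act A (C.neg (C.p k)) = (C.neg (C.p j), false)))

def pchk (i r : ℕ) : Bool :=
  force (C.d r) fun j =>
  C.S i j r || Nat.beq i j || Nat.blt (C.ht r) (C.ht (C.w i r)) ||
    (let A := alt (C.m i j - 1) j i
     let B := alt (C.m i j) j i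
     force (C.act B.reverse r).1 fun r0 =>
     let ok := fun k a => Nat.blt a C.n && Nat.blt k C.l &&
        ((Nat.blt (C.ht a) (C.ht r) && Nat.blt (C.ht (C.w k a)) (C.ht r)) ||
          (Nat.beq k j && Nat.beq (C.w k a) r))
     Nat.blt 1 (C.ht r) && decide (alt (C.m i j) i j = i :: A) &&
      C.pathOK ok A r0 && C.pathOK ok B r0 && Nat.beq (C.act B r0).1 r &&
      Nat.beq (C.act A r0).1 (C.w i r) &&
      (xor (C.act B r0).2 (C.act A r0).2 == C.η i (C.w i r)))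

def tr (k a b : ℕ) (c : Tm) : Tm :=
  (C.w k c.1, sK (xor (C.η k c.1) (xor (C.η k a && oddB c.2.2.1) (C.η k b && oddB c.2.2.2))) c.2.1,
    c.2.2.1, c.2.2.2)

def tmEq : List Tm → List Tm → Bool
  | [], [] => true
  | a :: L, b :: M => Nat.beq a.1 b.1 && decide (a.2.1 = b.2.1) && Nat.beq a.2.2.1 b.2.2.1 &&
      Nat.beq a.2.2.2 b.2.2.2 && tmEq L M
  | _, _ => false

theorem tmEq_eq : ∀ (L M : List Tm), tmEq L M = true → L = M
  | [], [], _ => rfl
  | [], _ :: _, h => by simp [tmEq] at h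
  | _ :: _, [], h => by simp [tmEq] at h
  | a :: L, b :: M, h => by
    simp only [tmEq, Bool.and_eq_true, beq_t, decide_eq_true_eq] at h
    obtain ⟨⟨⟨⟨h1, h2⟩, h3⟩, h4⟩, h5⟩ := h
    rw [tmEq_eq L M h5]
    congr 1
    exact Prod.ext h1 (Prod.ext h2 (Prod.ext h3 h4))

def pair (r s : ℕ) : Bool :=
  Nat.beq s r || Nat.beq s (C.neg r) ||
    force (C.pc r s) fun q =>
    ((C.ct r s).all (fun c => Nat.blt c.1 C.n) &&
      bif Nat.blt q 64 then C.S (Nat.div q 8) (Nat.mod q 8) r && C.S (Nat.div q 8) (Nat.mod q 8) s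
      else force (Nat.mod q 64) fun k => force (C.w k r) fun a => force (C.w k s) fun b =>
        Nat.blt k C.l && Nat.blt (C.pc a b) q && tmEq (C.ct r s) ((C.ct a b).map (C.tr k a b)))

def surj (r : ℕ) : Bool :=
  Nat.ble (C.ht r) 1 ||
    C.Eall.f1 (C.p (C.d r)) (C.w (C.d r) r) r (C.η (C.d r) (C.w (C.d r) r))

structure Valid : Prop where
  S_lt : ∀ i j r, C.S i j r = true → i < C.l ∧ j < C.l ∧ r < C.n
  S_symm : ∀ i j r, C.S i j r = true → C.S j i r = true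
  neg_lt : ∀ r < C.n, C.neg r < C.n
  w_lt : ∀ i < C.l, ∀ r < C.n, C.w i r < C.n
  ww : ∀ i < C.l, ∀ r < C.n, C.w i (C.w i r) = r
  w_neg : ∀ i < C.l, ∀ r < C.n, C.w i (C.neg r) = C.neg (C.w i r)
  η_neg : ∀ i < C.l, ∀ r < C.n, C.η i (C.neg r) = C.η i r
  d_lt : ∀ r < C.n, C.d r < C.l
  ht_one : ∀ r < C.n, C.ht r ≤ 1 → r = C.p (C.d r) ∨ r = C.neg (C.p (C.d r))
  ht_lt : ∀ r < C.n, 1 < C.ht r → C.ht (C.w (C.d r) r) < C.ht r
  S_p : ∀ i < C.l, ∀ j < C.l, C.S i j (C.p i) = true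
  S_neg : ∀ i j r, C.S i j r = true → C.S i j (C.neg r) = true
  S_w : ∀ i j r, C.S i j r = true → C.S i j (C.w i r) = true
  S_d : ∀ i j r, C.S i j r = true → 1 < C.ht r → C.d r = i ∨ C.d r = j
  S_ct : ∀ i j r s, C.S i j r = true → C.S i j s = true → ∀ c ∈ C.ct r s, C.S i j c.1 = true
  f1 : ∀ i j r, C.S i j r = true → r = C.p i ∨ r = C.neg (C.p i) ∨
    (C.E i j).f1 (C.p i) r (C.w i r) (C.η i r) = true
  f2p : ∀ i < C.l, C.f2 i (C.p i) (C.neg (C.p (C.jn i))) = true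
  f2n : ∀ i < C.l, C.f2 i (C.neg (C.p i)) (C.p (C.jn i)) = true
  hchk : ∀ j < C.l, ∀ r < C.n, C.hchk j r = true
  bchk : ∀ i < C.l, ∀ j < C.l, C.bchk i j = true
  pchk : ∀ i < C.l, ∀ r < C.n, C.pchk i r = true
  pair : ∀ r < C.n, ∀ s < C.n, C.pair r s = true
  surj : ∀ r < C.n, C.surj r = true

variable {G : Type*} [Group G] {K : Type*} [Field K]

def nI (y : ℕ → K → G) (i : ℕ) : G := nn y C.neg (C.p i) 1

def nW (y : ℕ → K → G) (L : List ℕ) : G := (L.map (C.nI y)).prod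

noncomputable def X (y : ℕ → K → G) (r : ℕ) (t : K) : G :=
  if 1 < C.ht r ∧ C.ht (C.w (C.d r) r) < C.ht r then
    cj (C.nI y (C.d r)) (X y (C.w (C.d r) r) (sK (C.η (C.d r) (C.w (C.d r) r)) t))
  else y r t
termination_by C.ht r
decreasing_by omega

structure Hyp (y : ℕ → K → G) : Prop where
  r1 : ∀ i j r, C.S i j r = true → R1 y r
  r2 : ∀ i j r s, C.S i j r = true → C.S i j s = true → s ≠ r → s ≠ C.neg r → R2 y C.ct r s
  r3 : ∀ i j r, C.S i j r = true → R3 y C.neg r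

/-- the edge property -/
def Q (y x : ℕ → K → G) (i r : ℕ) : Prop :=
  ∀ t, cj (C.nI y i) (x r t) = x (C.w i r) (sK (C.η i r) t)

variable {C}

theorem path {y x : ℕ → K → G} {ok : ℕ → ℕ → Bool} (hok : ∀ i a, ok i a = true → C.Q y x i a) :
    ∀ (L : List ℕ) (r : ℕ), C.pathOK ok L r = true → ∀ t,
      cj (C.nW y L) (x r t) = x (C.act L r).1 (sK (C.act L r).2 t)
  | [], r, _, t => by simp [nW, act]
  | i :: L, r, h, t => by
    simp only [pathOK, Bool.and_eq_true] at h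
    have ih := path hok L r h.2 t
    simp only [nW, List.map_cons, List.prod_cons, mul_cj] at ih ⊢
    rw [ih, hok _ _ h.1, sK_sK]
    rfl

theorem Hyp.good {y : ℕ → K → G} (h : C.Hyp y) (i j : ℕ) : (C.E i j).Good y :=
  ⟨h.r1 i j, h.r2 i j⟩

theorem Q_of_ne (hV : C.Valid) {y : ℕ → K → G} (h : C.Hyp y) {i j r : ℕ} (hS : C.S i j r = true)
    (h1 : r ≠ C.p i) (h2 : r ≠ C.neg (C.p i)) : C.Q y y i r := by
  rcases hV.f1 i j r hS with h3 | h3 | h3
  · exact absurd h3 h1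
  · exact absurd h3 h2
  · exact fun t => (h.good i j).f1 h3 t

theorem Q_of_f2c (hV : C.Valid) {y : ℕ → K → G} (h : C.Hyp y) {i r b : ℕ} {c : ℤ}
    (hf : C.f2c i r b c = true) : C.Q y y i r := by
  simp only [f2c, Bool.and_eq_true, Eng.ok, Bool.not_eq_true', beq_f] at hf
  obtain ⟨⟨⟨h1, h2⟩, ⟨⟨_, h3⟩, h4⟩, h5⟩, ⟨⟨_, h6⟩, h7⟩, h8⟩ := hf
  have ha := Q_of_ne hV h h3 h4 h5
  have hb := Q_of_ne hV h h6 h7 h8
  intro t
  have e1 := Eng.ev_of_ltEq (x := y) t h1
  have e2 := Eng.ev_of_ltEq (x := y) t h2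
  rw [(h.good _ _).norm] at e1 e2
  rw [sK_false] at e1
  rw [← e1, ← e2]
  have key : ∀ a : Lt, C.Q y y i a.1 → cj (C.nI y i) (lv y t a) = lv y t (C.mapL i a) := by
    intro a ha
    simp only [lv, mapL, ha _]
    congr 1
    cases C.η i a.1 <;> simp
  simp only [ev_cons, ev_nil, List.map_cons, List.map_nil, cj_mul, cj_one]
  rw [key _ hb, key _ ha, key _ hb, key _ ha]

theorem Q_yy (hV : C.Valid) {y : ℕ → K → G} (h : C.Hyp y) {i j r : ℕ} (hS : C.S i j r = true) :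
    C.Q y y i r := by
  have hi := (hV.S_lt _ _ _ hS).1
  by_cases h1 : r = C.p i
  · have := hV.f2p i hi
    rw [← h1, f2, Bool.or_eq_true] at this
    rcases this with h3 | h3 <;> exact Q_of_f2c hV h h3
  by_cases h2 : r = C.neg (C.p i)
  · have := hV.f2n i hi
    rw [← h2, f2, Bool.or_eq_true] at this
    rcases this with h3 | h3 <;> exact Q_of_f2c hV h h3
  exact Q_of_ne hV h hS h1 h2

theorem X_def (hV : C.Valid) (y : ℕ → K → G) {r : ℕ} (hr : r < C.n) (h : 1 < C.ht r) (t : K) :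
    C.X y r t = cj (C.nI y (C.d r)) (C.X y (C.w (C.d r) r) (sK (C.η (C.d r) (C.w (C.d r) r)) t)) := by
  rw [X, if_pos ⟨h, hV.ht_lt r hr h⟩]

theorem X_base (y : ℕ → K → G) {r : ℕ} (h : C.ht r ≤ 1) (t : K) : C.X y r t = y r t := by
  rw [X, if_neg (by omega)]

theorem X_eq (hV : C.Valid) {y : ℕ → K → G} (h : C.Hyp y) {i j : ℕ} :
    ∀ (k r : ℕ), C.ht r ≤ k → C.S i j r = true → C.X y r = y r := by
  intro k
  induction k with
  | zero => intro r hr _; funext t; exact X_base y (by omega) t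
  | succ k ih =>
    intro r hr hS
    funext t
    by_cases h1 : C.ht r ≤ 1
    · exact X_base y h1 t
    have hn := (hV.S_lt _ _ _ hS).2.2
    have hlt := hV.ht_lt r hn (by omega)
    have hd := hV.d_lt r hn
    have h2 : ∃ j', C.S (C.d r) j' (C.w (C.d r) r) = true ∧ C.S i j (C.w (C.d r) r) = true := by
      rcases hV.S_d _ _ _ hS (by omega) with h3 | h3
      · rw [h3]; exact ⟨j, hV.S_w _ _ _ hS, hV.S_w _ _ _ hS⟩
      · rw [h3]
        exact ⟨i, hV.S_w _ _ _ (hV.S_symm _ _ _ hS), hV.S_symm _ _ _ (hV.S_w _ _ _ (hV.S_symm _ _ _ hS))⟩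
    obtain ⟨j', h3, h4⟩ := h2
    rw [X_def hV y hn (by omega), ih _ (by omega) h4, Q_yy hV h h3, sK_self, hV.ww _ hd _ hn]

theorem X_eq' (hV : C.Valid) {y : ℕ → K → G} (h : C.Hyp y) {i j r : ℕ} (hS : C.S i j r = true) :
    C.X y r = y r := X_eq hV h _ r le_rfl hS

theorem P_of_S (hV : C.Valid) {y : ℕ → K → G} (h : C.Hyp y) {i j r : ℕ} (hS : C.S i j r = true) :
    C.Q y (C.X y) i r := by
  intro t
  rw [X_eq' hV h hS, X_eq' hV h (hV.S_w _ _ _ hS), Q_yy hV h hS]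

theorem P_def (hV : C.Valid) (y : ℕ → K → G) {r : ℕ} (hr : r < C.n) (h : 1 < C.ht r) :
    C.Q y (C.X y) (C.d r) (C.w (C.d r) r) := by
  intro t
  rw [hV.ww _ (hV.d_lt r hr) _ hr, X_def hV y hr h, sK_self]

theorem S_base (hV : C.Valid) {r : ℕ} (hr : r < C.n) (h : C.ht r ≤ 1) {j : ℕ} (hj : j < C.l) :
    C.S j (C.d r) r = true := by
  have h0 := hV.S_p _ (hV.d_lt r hr) _ hj
  rcases hV.ht_one r hr h with h1 | h1
  · rw [← h1] at h0; exact hV.S_symm _ _ _ h0
  · have := hV.S_neg _ _ _ h0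
    rw [← h1] at this; exact hV.S_symm _ _ _ this

theorem cj_nn {x : ℕ → K → G} {g : G} {r r' : ℕ} {e : Bool}
    (h1 : ∀ t, cj g (x r t) = x r' (sK e t))
    (h2 : ∀ t, cj g (x (C.neg r) t) = x (C.neg r') (sK e t)) (t : K) :
    cj g (nn x C.neg r t) = nn x C.neg r' (sK e t) := by
  simp only [nn, cj_mul, h1, h2]
  congr 3
  cases e <;> simp [inv_neg]

theorem cj_sq (hV : C.Valid) {y x : ℕ → K → G} {j r : ℕ} (hj : j < C.l) (hr : r < C.n)
    (h1 : C.Q y x j r) (h2 : C.Q y x j (C.w j r)) (t : K) :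
    cj (C.nI y j * C.nI y j) (x r t) = x r (sK (C.eps j r) t) := by
  rw [mul_cj, h1, h2, hV.ww _ hj _ hr, sK_sK, eps]

theorem eps_neg (hV : C.Valid) {j r : ℕ} (hj : j < C.l) (hr : r < C.n) :
    C.eps j (C.neg r) = C.eps j r := by
  rw [eps, eps, hV.w_neg _ hj _ hr, hV.η_neg _ hj _ hr, hV.η_neg _ hj _ (hV.w_lt _ hj _ hr)]

theorem cj_sq_nI (hV : C.Valid) {y : ℕ → K → G} (h : C.Hyp y) {j k : ℕ} (hj : j < C.l) (hk : k < C.l) :
    cj (C.nI y j * C.nI y j) (C.nI y k) = cond (C.eps j (C.p k)) (C.nI y k)⁻¹ (C.nI y k) := by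
  have hS : C.S j k (C.p k) = true := hV.S_symm _ _ _ (hV.S_p _ hk _ hj)
  have hS' := hV.S_neg _ _ _ hS
  have hp := (hV.S_lt _ _ _ hS).2.2
  have e1 := cj_sq hV hj hp (Q_yy hV h hS) (Q_yy hV h (hV.S_w _ _ _ hS))
  have e2 := cj_sq hV hj (hV.neg_lt _ hp) (Q_yy hV h hS') (Q_yy hV h (hV.S_w _ _ _ hS'))
  rw [eps_neg hV hj hp] at e2
  have := cj_nn e1 e2 1
  refine this.trans ?_
  cases C.eps j (C.p k)
  · rfl
  · simp only [sK_true, cond_true]
    exact nn_neg (h.r1 _ _ _ hS) (h.r1 _ _ _ hS') 1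

theorem H_all (hV : C.Valid) {y : ℕ → K → G} (h : C.Hyp y) :
    ∀ (k r : ℕ), C.ht r ≤ k → r < C.n → ∀ j < C.l, ∀ t,
      cj (C.nI y j * C.nI y j) (C.X y r t) = C.X y r (sK (C.eps j r) t) := by
  have base : ∀ r, C.ht r ≤ 1 → r < C.n → ∀ j < C.l, ∀ t,
      cj (C.nI y j * C.nI y j) (C.X y r t) = C.X y r (sK (C.eps j r) t) := by
    intro r h1 hr j hj t
    have hS := S_base hV hr h1 hj
    exact cj_sq hV hj hr (P_of_S hV h hS) (P_of_S hV h (hV.S_w _ _ _ hS)) t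
  intro k
  induction k with
  | zero => intro r hr; exact base r (by omega)
  | succ k ih =>
    intro r hk hr j hj t
    by_cases h1 : C.ht r ≤ 1
    · exact base r h1 hr j hj t
    have hlt := hV.ht_lt r hr (by omega)
    have hd := hV.d_lt r hr
    have hw := hV.w_lt _ hd _ hr
    have hc := hV.hchk j hj r hr
    simp only [hchk, Bool.or_eq_true, ble_t, beq_iff_eq] at hc
    replace hc := hc.resolve_left h1
    rw [X_def hV y hr (by omega), X_def hV y hr (by omega), cj_cj, cj_sq_nI hV h hj hd,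
      ih _ (by omega) hw j hj, hc]
    cases C.eps j (C.p (C.d r))
    · simp only [cond_false, Bool.false_and, Bool.xor_false, sK_sK]
      rw [Bool.xor_comm]
    · simp only [cond_true, Bool.true_and]
      have e := ih _ (by omega) hw _ hd
      have e' : ∀ s, cj (C.nI y (C.d r))⁻¹ (C.X y (C.w (C.d r) r) s) =
          cj (C.nI y (C.d r)) (C.X y (C.w (C.d r) r) (sK (C.eps (C.d r) (C.w (C.d r) r)) s)) := by
        intro s
        conv_lhs => rw [← sK_self (C.eps (C.d r) (C.w (C.d r) r)) s, ← e, mul_cj, inv_cj_cj]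
      rw [e']
      simp only [sK_sK]
      congr 3
      cases C.eps (C.d r) (C.w (C.d r) r) <;> cases C.eps j (C.w (C.d r) r) <;> simp

theorem P_symm (hV : C.Valid) {y : ℕ → K → G} (h : C.Hyp y) {i r : ℕ} (hi : i < C.l) (hr : r < C.n)
    (hP : C.Q y (C.X y) i r) : C.Q y (C.X y) i (C.w i r) := by
  intro t
  have e := H_all hV h _ r le_rfl hr i hi (sK (C.η i r) t)
  rw [mul_cj, hP, sK_self] at e
  rw [e, hV.ww _ hi _ hr, sK_sK, eps]
  congr 2
  cases C.η i r <;> simp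

theorem braid (hV : C.Valid) {y : ℕ → K → G} (h : C.Hyp y) {i j : ℕ} (hi : i < C.l) (hj : j < C.l)
    (hij : i ≠ j) : C.nW y (alt (C.m i j) i j) = C.nW y (alt (C.m i j) j i) := by
  have hc := hV.bchk i hi j hj
  simp only [bchk, Bool.or_eq_true, beq_t, Bool.and_eq_true, decide_eq_true_eq] at hc
  obtain ⟨⟨⟨⟨⟨h1, h2⟩, h3⟩, h4⟩, h5⟩, h6⟩ := hc.resolve_left hij
  have hok : ∀ a r, ((Nat.beq a i || Nat.beq a j) && C.S i j r) = true → C.Q y y a r := by
    intro a r ha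
    simp only [Bool.or_eq_true, beq_t, Bool.and_eq_true] at ha
    obtain ⟨rfl | rfl, hS⟩ := ha
    · exact Q_yy hV h hS
    · exact Q_yy hV h (hV.S_symm _ _ _ hS)
  have e1 := path hok _ _ h3
  have e2 := path hok _ _ h4
  rw [h5] at e1
  rw [h6] at e2
  have e := cj_nn e1 e2 1
  rw [h1, h2]
  simp only [nW, List.map_append, List.prod_append, List.map_cons, List.prod_cons, List.map_nil,
    List.prod_nil, mul_one, cj, sK_false] at e ⊢
  rw [nI, nI, ← e]
  simp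

theorem P_all (hV : C.Valid) {y : ℕ → K → G} (h : C.Hyp y) :
    ∀ (k : ℕ), ∀ i < C.l, ∀ a < C.n, C.ht a < k → C.ht (C.w i a) < k → C.Q y (C.X y) i a := by
  intro k
  induction k with
  | zero => intro i _ a _ h; omega
  | succ k ih =>
    have main : ∀ i < C.l, ∀ r < C.n, C.ht r ≤ k → C.ht (C.w i r) ≤ C.ht r → C.Q y (C.X y) i r := by
      intro i hi r hr hk hle
      have hc := hV.pchk i hi r hr
      have hd := hV.d_lt r hr
      simp only [pchk, force_eq, Bool.or_eq_true, beq_t, blt_t, Bool.and_eq_true, decide_eq_true_eq,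
        beq_iff_eq] at hc
      by_cases hij : i = C.d r
      · by_cases h1 : C.ht r ≤ 1
        · exact P_of_S hV h (S_base hV hr h1 hi)
        · have := P_symm hV h hd (hV.w_lt _ hd _ hr) (P_def hV y hr (by omega))
          rw [hV.ww _ hd _ hr] at this
          rw [hij]; exact this
      rcases hc with ((hc | hc) | hc) | hc
      · exact P_of_S hV h hc
      · exact absurd hc hij
      · omega
      obtain ⟨⟨⟨⟨⟨⟨h1, h2⟩, h3⟩, h4⟩, h5⟩, h6⟩, h7⟩ := hc
      have hok : ∀ k' a, (Nat.blt a C.n && Nat.blt k' C.l &&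
        ((Nat.blt (C.ht a) (C.ht r) && Nat.blt (C.ht (C.w k' a)) (C.ht r)) ||
          (Nat.beq k' (C.d r) && Nat.beq (C.w k' a) r))) = true → C.Q y (C.X y) k' a := by
        intro k' a ha
        simp only [Bool.or_eq_true, beq_t, blt_t, Bool.and_eq_true] at ha
        obtain ⟨⟨ha, hk'⟩, ⟨h8, h9⟩ | ⟨rfl, h9⟩⟩ := ha
        · exact ih k' hk' a ha (by omega) (by omega)
        · have := P_def hV y hr h1
          have e : C.w (C.d r) r = a := by
            have := hV.ww _ hd _ ha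
            rwa [h9] at this
          rwa [e] at this
      have e1 := path hok _ _ h3
      have e2 := path hok _ _ h4
      have hb := braid hV h hi hd hij
      rw [h5] at e2
      rw [h6] at e1
      have hP : C.Q y (C.X y) i (C.w i r) := by
        intro t
        rw [hV.ww _ hi _ hr, ← h7, ← sK_sK, ← e2, ← hb, h2]
        simp only [nW, List.map_cons, List.prod_cons, mul_cj] at e1 ⊢
        rw [e1, sK_self]
      have := P_symm hV h hi (hV.w_lt _ hi _ hr) hP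
      rwa [hV.ww _ hi _ hr] at this
    intro i hi a ha h1 h2
    by_cases hle : C.ht (C.w i a) ≤ C.ht a
    · exact main i hi a ha (by omega) hle
    · have := main i hi _ (hV.w_lt _ hi _ ha) (by omega) (by rw [hV.ww _ hi _ ha]; omega)
      have := P_symm hV h hi (hV.w_lt _ hi _ ha) this
      rwa [hV.ww _ hi _ ha] at this

theorem P (hV : C.Valid) {y : ℕ → K → G} (h : C.Hyp y) {i a : ℕ} (hi : i < C.l) (ha : a < C.n) :
    C.Q y (C.X y) i a :=
  P_all hV h (C.ht a + C.ht (C.w i a) + 1) i hi a ha (by omega) (by omega)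

end Cert

end Cfsg.Agent.H1.CT
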