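import Cfsg.Agent.H1.CT2
import Cfsg.Prelude.Def_CurtisTits

set_option autoImplicit false

/-! The relations for the extended root elements, and the bridge to the presentations. -/

namespace Cfsg.Agent.H1.CT

namespace Cert
variable {C : Cert} {G : Type*} [Group G] {K : Type*} [Field K]

theorem sK_add (b : Bool) (t u : K) : sK b (t + u) = sK b t + sK b u := by
  cases b <;> simp [add_comm]

theorem R1_X (hV : C.Valid) {y : ℕ → K → G} (h : C.Hyp y) :
    ∀ (k r : ℕ), C.ht r ≤ k → r < C.n → R1 (C.X y) r := by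
  have base : ∀ r, C.ht r ≤ 1 → r < C.n → R1 (C.X y) r := by
    intro r h1 hr t u
    have hS := S_base hV hr h1 (hV.d_lt r hr)
    rw [X_eq' hV h hS]
    exact h.r1 _ _ _ hS t u
  intro k
  induction k with
  | zero => intro r hr; exact base r (by omega)
  | succ k ih =>
    intro r hk hr
    by_cases h1 : C.ht r ≤ 1
    · exact base r h1 hr
    intro t u
    have hlt := hV.ht_lt r hr (by omega)
    have hw := hV.w_lt _ (hV.d_lt r hr) _ hr
    rw [X_def hV y hr (by omega), X_def hV y hr (by omega), X_def hV y hr (by omega), sK_add,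
      ih _ (by omega) hw, cj_mul]

theorem R1_all (hV : C.Valid) {y : ℕ → K → G} (h : C.Hyp y) {r : ℕ} (hr : r < C.n) :
    R1 (C.X y) r := R1_X hV h _ r le_rfl hr

theorem R3_X (hV : C.Valid) {y : ℕ → K → G} (h : C.Hyp y) :
    ∀ (k r : ℕ), C.ht r ≤ k → r < C.n → R3 (C.X y) C.neg r := by
  have base : ∀ r, C.ht r ≤ 1 → r < C.n → R3 (C.X y) C.neg r := by
    intro r h1 hr t u ht hu
    have hS := S_base hV hr h1 (hV.d_lt r hr)
    have := h.r3 _ _ _ hS t u ht hu
    simp only [nn] at this ⊢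
    rw [X_eq' hV h hS, X_eq' hV h (hV.S_neg _ _ _ hS)]
    exact this
  intro k
  induction k with
  | zero => intro r hr; exact base r (by omega)
  | succ k ih =>
    intro r hk hr
    by_cases h1 : C.ht r ≤ 1
    · exact base r h1 hr
    have hlt := hV.ht_lt r hr (by omega)
    have hd := hV.d_lt r hr
    have hw := hV.w_lt _ hd _ hr
    have e1 := P hV h hd hw
    have e2 := P hV h hd (hV.neg_lt _ hw)
    simp only [Q] at e1 e2
    rw [hV.w_neg _ hd _ hw, hV.η_neg _ hd _ hw] at e2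
    have e := cj_nn e1 e2
    rw [hV.ww _ hd _ hr] at e
    have i3 := ih _ (by omega) hw
    have hn := nn_neg (neg := C.neg) (R1_all hV h hr) (R1_all hV h (hV.neg_lt _ hr))
    intro t u ht hu
    cases hη : C.η (C.d r) (C.w (C.d r) r)
    · rw [hη] at e
      simp only [sK_false] at e
      rw [← e, ← e, ← e, ← e, ← cj_mul, ← cj_mul, ← cj_mul, ← cj_mul, i3 t u ht hu]
    · rw [hη] at e
      simp only [sK_true] at e
      have i4 := congrArg (cj (C.nI y (C.d r))) (i3 u t hu ht)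
      simp only [cj_mul, e, neg_neg, hn] at i4
      rw [hn, mul_comm t u]
      have i5 := congrArg (fun z => nn (C.X y) C.neg r 1 * z⁻¹ * (nn (C.X y) C.neg r 1)⁻¹) i4
      simpa [mul_assoc] using i5

theorem sK_pow (b : Bool) (t : K) (i : ℕ) : (sK b t) ^ i = sK (b && oddB i) (t ^ i) := by
  cases b
  · simp
  · simp only [sK_true, Bool.true_and]
    rcases Nat.even_or_odd i with hi | hi
    · have : oddB i = false := by
        simp only [oddB, beq_f]
        have := Nat.even_iff.mp hi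
        change i % 2 ≠ 1
        omega
      rw [this, hi.neg_pow]; rfl
    · have : oddB i = true := by
        simp only [oddB, beq_t]
        exact Nat.odd_iff.mp hi
      rw [this, hi.neg_pow]; rfl

theorem transport {y x : ℕ → K → G} {k a b : ℕ} (ha : C.Q y x k a) (hb : C.Q y x k b)
    (hc : ∀ c ∈ C.ct a b, C.Q y x k c.1) (h2 : R2 x C.ct a b)
    (he : C.ct (C.w k a) (C.w k b) = (C.ct a b).map (C.tr k a b)) :
    R2 x C.ct (C.w k a) (C.w k b) := by
  intro t u
  have := congrArg (cj (C.nI y k)) (h2 (sK (C.η k a) t) (sK (C.η k b) u))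
  rw [cj_cj, ha, hb, cj_mul, hb, sK_self, sK_self] at this
  rw [this, he]
  congr 1
  simp only [wd, cj_prod, List.map_map]
  congr 1
  apply List.map_congr_left
  intro c hcm
  simp only [Function.comp, tr]
  rw [hc c hcm, sK_pow, sK_pow]
  congr 1
  cases C.η k c.1 <;> cases (C.η k a && oddB c.2.2.1) <;> cases (C.η k b && oddB c.2.2.2) <;> simp

theorem ct_lt (hV : C.Valid) {r s : ℕ} (hr : r < C.n) (hs : s < C.n) (h1 : s ≠ r)
    (h2 : s ≠ C.neg r) : ∀ c ∈ C.ct r s, c.1 < C.n := by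
  have hc := hV.pair r hr s hs
  simp only [pair, force_eq, Bool.or_eq_true, beq_t, Bool.and_eq_true, List.all_eq_true, blt_t] at hc
  rcases hc with (hc | hc) | hc
  · exact absurd hc h1
  · exact absurd hc h2
  exact hc.1

theorem R2_X (hV : C.Valid) {y : ℕ → K → G} (h : C.Hyp y) :
    ∀ (q r s : ℕ), C.pc r s < q → r < C.n → s < C.n → s ≠ r → s ≠ C.neg r → R2 (C.X y) C.ct r s := by
  intro q
  induction q with
  | zero => intro r s h; omega
  | succ q ih =>
    intro r s hq hr hs h1 h2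
    have hc := hV.pair r hr s hs
    simp only [pair, force_eq, Bool.or_eq_true, beq_t, Bool.and_eq_true, Bool.cond_eq_ite, blt_t] at hc
    rcases hc with (hc | hc) | hc
    · exact absurd hc h1
    · exact absurd hc h2
    replace hc := hc.2
    split_ifs at hc with h3
    · rw [Bool.and_eq_true] at hc
      intro t u
      have := h.r2 _ _ _ _ hc.1 hc.2 h1 h2 t u
      rw [X_eq' hV h hc.1, X_eq' hV h hc.2, this]
      congr 1
      simp only [wd]
      congr 1
      apply List.map_congr_left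
      intro c hcm
      rw [X_eq' hV h (hV.S_ct _ _ _ _ hc.1 hc.2 c hcm)]
    · simp only [Bool.and_eq_true, blt_t] at hc
      obtain ⟨⟨hk, hlt⟩, he⟩ := hc
      generalize (C.pc r s).mod 64 = k at hk hlt he
      have ha := hV.w_lt _ hk _ hr
      have hb := hV.w_lt _ hk _ hs
      have hab : C.w k s ≠ C.w k r := fun e => h1 (by rw [← hV.ww _ hk _ hs, e, hV.ww _ hk _ hr])
      have hab' : C.w k s ≠ C.neg (C.w k r) := fun e => h2 (by
        rw [← hV.ww _ hk _ hs, e, hV.w_neg _ hk _ ha, hV.ww _ hk _ hr])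
      have := transport (P hV h hk ha) (P hV h hk hb)
        (fun c hcm => P hV h hk (ct_lt hV ha hb hab hab' c hcm))
        (ih _ _ (by omega) ha hb hab hab')
        (by rw [hV.ww _ hk _ hr, hV.ww _ hk _ hs]; exact tmEq_eq _ _ he)
      rwa [hV.ww _ hk _ hr, hV.ww _ hk _ hs] at this

theorem gen (hV : C.Valid) {x : ℕ → K → G} (h1 : ∀ r < C.n, R1 x r)
    (h2 : ∀ r < C.n, ∀ s < C.n, s ≠ r → s ≠ C.neg r → R2 x C.ct r s) (H : Subgroup G)
    (hH : ∀ i j r, C.S i j r = true → ∀ t, x r t ∈ H) :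
    ∀ (k r : ℕ), C.ht r ≤ k → r < C.n → ∀ t, x r t ∈ H := by
  have base : ∀ r, C.ht r ≤ 1 → r < C.n → ∀ t, x r t ∈ H := fun r h1 hr =>
    hH _ _ _ (S_base hV hr h1 (hV.d_lt r hr))
  have hg : C.Eall.Good x :=
    ⟨fun r hr => h1 r (blt_t.mp hr), fun r s hr hs => h2 r (blt_t.mp hr) s (blt_t.mp hs)⟩
  intro k
  induction k with
  | zero => intro r hr; exact base r (by omega)
  | succ k ih =>
    intro r hk hr t
    by_cases h3 : C.ht r ≤ 1
    · exact base r h3 hr t
    have hlt := hV.ht_lt r hr (by omega)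
    have hd := hV.d_lt r hr
    have hc := hV.surj r hr
    simp only [surj, Bool.or_eq_true, ble_t] at hc
    have e := hg.f1 (hc.resolve_left h3) (sK (C.η (C.d r) (C.w (C.d r) r)) t)
    rw [sK_self] at e
    rw [← e]
    have hS := hV.S_p _ hd _ hd
    have hn : nn x C.Eall.neg (C.p (C.d r)) 1 ∈ H :=
      H.mul_mem (H.mul_mem (hH _ _ _ hS _) (hH _ _ _ (hV.S_neg _ _ _ hS) _)) (hH _ _ _ hS _)
    exact H.mul_mem (H.mul_mem hn (ih _ (by omega) (hV.w_lt _ hd _ hr) _)) (H.inv_mem hn)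

end Cert

open Cfsg.Lie

section bridge
variable {G : Type*} [Group G] {K : Type*} [Field K] (D : ChevalleyDatum)

omit [Field K] in
theorem hom_stWord (φ : FreeGroup (Fin D.nroots × K) →* G) (w : List (ℕ × K)) :
    φ (D.stWord w) = (w.map fun p => φ (D.stX p.1 p.2)).prod := by
  simp only [ChevalleyDatum.stWord, map_list_prod, List.map_map]
  rfl

theorem hom_stH (φ : FreeGroup (Fin D.nroots × K) →* G) (r : ℕ) (t : K) :
    φ (D.stH r t) = nn (fun r t => φ (D.stX r t)) D.neg r t * nn (fun r t => φ (D.stX r t)) D.neg r (-1) := by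
  simp only [ChevalleyDatum.stH, hom_stWord, ChevalleyDatum.hWord, ChevalleyDatum.nWord, nn,
    List.map_append, List.prod_append, List.map_cons, List.map_nil, List.prod_cons, List.prod_nil,
    mul_one, mul_assoc]

theorem rel1_iff (φ : FreeGroup (Fin D.nroots × K) →* G) (r : ℕ) :
    (∀ t₁ t₂ : K, φ (D.stX r t₁ * D.stX r t₂ * (D.stX r (t₁ + t₂))⁻¹) = 1) ↔
      R1 (fun r t => φ (D.stX r t)) r := by
  simp only [R1, map_mul, map_inv, mul_inv_eq_one]
  exact forall₂_congr fun _ _ => eq_comm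

theorem rel3_iff (φ : FreeGroup (Fin D.nroots × K) →* G) (r : ℕ) :
    (∀ t₁ t₂ : K, t₁ ≠ 0 → t₂ ≠ 0 → φ (D.stH r t₁ * D.stH r t₂ * (D.stH r (t₁ * t₂))⁻¹) = 1) ↔
      R3 (fun r t => φ (D.stX r t)) D.neg r := by
  simp only [R3, map_mul, map_inv, mul_inv_eq_one, hom_stH]

theorem rel2_iff (φ : FreeGroup (Fin D.nroots × K) →* G) (r s : ℕ)
    (h : R1 (fun r t => φ (D.stX r t)) r) :
    (∀ t u : K, φ ((D.stX s u)⁻¹ * (D.stX r t)⁻¹ * D.stX s u * D.stX r t *
        (D.stWord (D.commWord K r s t u))⁻¹) = 1) ↔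
      R2 (fun r t => φ (D.stX r t)) D.commTerms r s := by
  have hn : ∀ t, φ (D.stX r (-t)) = (φ (D.stX r t))⁻¹ := h.neg
  have key : ∀ t u : K, φ ((D.stX s u)⁻¹ * (D.stX r (-t))⁻¹ * D.stX s u * D.stX r (-t) *
        (D.stWord (D.commWord K r s (-t) u))⁻¹) = 1 ↔
      cj (φ (D.stX r t)) (φ (D.stX s u)) =
        φ (D.stX s u) * wd (fun r t => φ (D.stX r t)) (D.commTerms r s) t u := by
    intro t u
    simp only [map_mul, map_inv, mul_inv_eq_one, hom_stWord, hn, inv_inv, cj, wd,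
      ChevalleyDatum.commWord, List.map_map, neg_neg]
    rw [← inv_mul_eq_iff_eq_mul]
    simp only [mul_assoc]
    rfl
  constructor
  · intro H t u
    exact (key t u).mp (H _ _)
  · intro H t u
    have := (key (-t) u).mpr (H _ _)
    rwa [neg_neg] at this

theorem R2_congr {x : ℕ → K → G} {ct ct' : ℕ → ℕ → List Tm} {r s : ℕ} (e : ct r s = ct' r s) :
    R2 x ct r s ↔ R2 x ct' r s := by
  simp only [R2, e]

theorem R2_congr' {x x' : ℕ → K → G} {ct : ℕ → ℕ → List Tm} {r s : ℕ} (hr : x r = x' r)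
    (hs : x s = x' s) (hc : ∀ c ∈ ct r s, x c.1 = x' c.1) (h : R2 x ct r s) : R2 x' ct r s := by
  intro t u
  rw [← hr, ← hs, h t u]
  congr 1
  simp only [wd]
  congr 1
  apply List.map_congr_left
  intro c hcm
  rw [hc c hcm]

theorem R3_congr {x x' : ℕ → K → G} {neg neg' : ℕ → ℕ} {r : ℕ} (hr : x r = x' r)
    (hn : x (neg r) = x' (neg' r)) (h : R3 x neg r) : R3 x' neg' r := by
  simp only [R3, nn] at h ⊢
  rw [← hr, ← hn]
  exact h

theorem R1_congr {x x' : ℕ → K → G} {r : ℕ} (hr : x r = x' r) (h : R1 x r) : R1 x' r := by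
  simp only [R1] at h ⊢
  rw [← hr]
  exact h

end bridge

structure Match (C : Cert) (D : ChevalleyDatum) : Prop where
  n_eq : C.n = D.nroots
  ct_eq : ∀ r < C.n, ∀ s < C.n, D.commTerms r s = C.ct r s
  neg_eq : ∀ r < C.n, D.neg r = C.neg r
  S_iff : ∀ i j r, C.S i j r = true ↔ D.InRankTwoSub i j r

theorem curtis_tits {C : Cert} {D : ChevalleyDatum} (hV : C.Valid) (hM : Match C D)
    (K : Type*) [Field K] :
    ∃ e : D.CurtisTitsGroup K ≃* D.SteinbergGroup K,
      ∀ (i j r : ℕ) (t : K), D.InRankTwoSub i j r →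
        e (PresentedGroup.mk (D.curtisTitsRels K) (D.stX r t)) = D.stGen K r t := by
  classical
  set y : ℕ → K → D.CurtisTitsGroup K :=
    fun r t => PresentedGroup.mk (D.curtisTitsRels K) (D.stX r t) with hy
  have hrel : ∀ g ∈ D.curtisTitsRels K, PresentedGroup.mk (D.curtisTitsRels K) g = 1 :=
    fun g hg => PresentedGroup.one_of_mem hg
  have y1 : ∀ i j r, C.S i j r = true → R1 y r := fun i j r hS =>
    (rel1_iff D _ r).mp fun t u => hrel _
      (Or.inl (Or.inl (Or.inr ⟨i, j, r, t, u, (hM.S_iff _ _ _).mp hS, rfl⟩)))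
  have hyp : C.Hyp y := by
    refine ⟨y1, fun i j r s hr hs h1 h2 => ?_, fun i j r hS => ?_⟩
    · have hr' := (hV.S_lt _ _ _ hr).2.2
      rw [← R2_congr (hM.ct_eq r hr' s (hV.S_lt _ _ _ hs).2.2)]
      rw [← hM.neg_eq r hr'] at h2
      exact (rel2_iff D _ r s (y1 i j r hr)).mp fun t u => hrel _
        (Or.inl (Or.inr ⟨i, j, r, s, t, u, (hM.S_iff _ _ _).mp hr, (hM.S_iff _ _ _).mp hs, h1, h2, rfl⟩))
    · have hr' := (hV.S_lt _ _ _ hS).2.2
      refine R3_congr rfl (by rw [hM.neg_eq r hr']) ((rel3_iff D _ r).mp fun t u ht hu => hrel _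
        (Or.inr ⟨i, j, r, t, u, (hM.S_iff _ _ _).mp hS, ht, hu, rfl⟩))
  -- the Steinberg group
  set x : ℕ → K → D.SteinbergGroup K :=
    fun r t => PresentedGroup.mk (D.steinbergRels K) (D.stX r t) with hx
  have hrel' : ∀ g ∈ D.steinbergRels K, PresentedGroup.mk (D.steinbergRels K) g = 1 :=
    fun g hg => PresentedGroup.one_of_mem hg
  have x1 : ∀ r < C.n, R1 x r := fun r hr =>
    (rel1_iff D _ r).mp fun t u => hrel' _ (Or.inl (Or.inl ⟨r, t, u, hM.n_eq ▸ hr, rfl⟩))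
  have x2 : ∀ r < C.n, ∀ s < C.n, s ≠ r → s ≠ C.neg r → R2 x C.ct r s := by
    intro r hr s hs h1 h2
    rw [← R2_congr (hM.ct_eq r hr s hs)]
    rw [← hM.neg_eq r hr] at h2
    exact (rel2_iff D _ r s (x1 r hr)).mp fun t u => hrel' _
      (Or.inl (Or.inr ⟨r, s, t, u, hM.n_eq ▸ hr, hM.n_eq ▸ hs, h1, h2, rfl⟩))
  have x3 : ∀ r < C.n, R3 x C.neg r := fun r hr =>
    R3_congr rfl (by rw [hM.neg_eq r hr]) ((rel3_iff D _ r).mp fun t u ht hu => hrel' _
        (Or.inr ⟨r, t, u, hM.n_eq ▸ hr, ht, hu, rfl⟩))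
  -- φ
  let fφ : Fin D.nroots × K → D.CurtisTitsGroup K := fun p => C.X y p.1 p.2
  have hφX : ∀ r < C.n, (fun t => FreeGroup.lift fφ (D.stX r t)) = C.X y r := by
    intro r hr
    funext t
    rw [ChevalleyDatum.stX, dif_pos (hM.n_eq ▸ hr), FreeGroup.lift_apply_of]
  have φ1 : ∀ r < C.n, R1 (fun r t => FreeGroup.lift fφ (D.stX r t)) r := fun r hr =>
    R1_congr (hφX r hr).symm (Cert.R1_all hV hyp hr)
  have hφ : ∀ g ∈ D.steinbergRels K, FreeGroup.lift fφ g = 1 := by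
    rintro g ((⟨r, t, u, hr, rfl⟩ | ⟨r, s, t, u, hr, hs, h1, h2, rfl⟩) | ⟨r, t, u, hr, ht, hu, rfl⟩)
    · exact (rel1_iff D _ r).mpr (φ1 r (hM.n_eq ▸ hr)) t u
    · rw [← hM.n_eq] at hr hs
      rw [hM.neg_eq r hr] at h2
      refine (rel2_iff D _ r s (φ1 r hr)).mpr ?_ t u
      rw [R2_congr (hM.ct_eq r hr s hs)]
      exact R2_congr' (hφX r hr).symm (hφX s hs).symm
        (fun c hc => (hφX _ (Cert.ct_lt hV hr hs h1 h2 c hc)).symm)
        (Cert.R2_X hV hyp _ r s (Nat.lt_succ_self _) hr hs h1 h2)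
    · rw [← hM.n_eq] at hr
      refine (rel3_iff D _ r).mpr ?_ t u ht hu
      refine R3_congr (hφX r hr).symm ?_ (Cert.R3_X hV hyp _ r le_rfl hr)
      rw [hM.neg_eq r hr]
      exact (hφX _ (hV.neg_lt r hr)).symm
  let φ : D.SteinbergGroup K →* D.CurtisTitsGroup K := PresentedGroup.toGroup hφ
  -- ψ
  let fψ : Fin D.nroots × K → D.SteinbergGroup K := fun p =>
    if ∃ i j, D.InRankTwoSub i j p.1 then x p.1 p.2 else 1
  have hψX : ∀ i j r, C.S i j r = true → (fun t => FreeGroup.lift fψ (D.stX r t)) = x r := by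
    intro i j r hS
    funext t
    rw [ChevalleyDatum.stX, dif_pos (hM.n_eq ▸ (hV.S_lt _ _ _ hS).2.2), FreeGroup.lift_apply_of]
    exact if_pos ⟨i, j, (hM.S_iff _ _ _).mp hS⟩
  have ψ1 : ∀ i j r, C.S i j r = true → R1 (fun r t => FreeGroup.lift fψ (D.stX r t)) r :=
    fun i j r hS => R1_congr (hψX i j r hS).symm (x1 r (hV.S_lt _ _ _ hS).2.2)
  have hψ : ∀ g ∈ D.curtisTitsRels K, FreeGroup.lift fψ g = 1 := by
    rintro g (((⟨r, t, hr, hn, rfl⟩ | ⟨i, j, r, t, u, hr, rfl⟩) |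
      ⟨i, j, r, s, t, u, hr, hs, h1, h2, rfl⟩) | ⟨i, j, r, t, u, hr, ht, hu, rfl⟩)
    · rw [ChevalleyDatum.stX, dif_pos hr, FreeGroup.lift_apply_of]
      exact if_neg (by simpa using hn)
    · exact (rel1_iff D _ r).mpr (ψ1 i j r ((hM.S_iff _ _ _).mpr hr)) t u
    · rw [← hM.S_iff] at hr hs
      have hr' := (hV.S_lt _ _ _ hr).2.2
      have hs' := (hV.S_lt _ _ _ hs).2.2
      rw [hM.neg_eq r hr'] at h2
      refine (rel2_iff D _ r s (ψ1 i j r hr)).mpr ?_ t u
      rw [R2_congr (hM.ct_eq r hr' s hs')]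
      exact R2_congr' (hψX _ _ r hr).symm (hψX _ _ s hs).symm
        (fun c hc => (hψX _ _ _ (hV.S_ct _ _ _ _ hr hs c hc)).symm) (x2 r hr' s hs' h1 h2)
    · rw [← hM.S_iff] at hr
      have hr' := (hV.S_lt _ _ _ hr).2.2
      refine (rel3_iff D _ r).mpr ?_ t u ht hu
      refine R3_congr (hψX _ _ r hr).symm ?_ (x3 r hr')
      rw [hM.neg_eq r hr']
      exact (hψX _ _ _ (hV.S_neg _ _ _ hr)).symm
  let ψ : D.CurtisTitsGroup K →* D.SteinbergGroup K := PresentedGroup.toGroup hψ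
  have hψy : ∀ i j r, C.S i j r = true → ∀ t, ψ (y r t) = x r t := fun i j r hS t =>
    congrFun (hψX i j r hS) t
  have hφx : ∀ r < C.n, ∀ t, φ (x r t) = C.X y r t := fun r hr t => congrFun (hφX r hr) t
  have hleft : φ.comp ψ = MonoidHom.id _ := by
    apply PresentedGroup.ext
    rintro ⟨⟨r, hr⟩, t⟩
    have e : (PresentedGroup.of (⟨r, hr⟩, t) : D.CurtisTitsGroup K) = y r t := by
      simp only [hy, ChevalleyDatum.stX, dif_pos hr]; rfl
    rw [e, MonoidHom.comp_apply, MonoidHom.id_apply]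
    by_cases hS : ∃ i j, D.InRankTwoSub i j r
    · obtain ⟨i, j, hS⟩ := hS
      rw [← hM.S_iff] at hS
      rw [hψy i j r hS, hφx r (hM.n_eq ▸ hr), Cert.X_eq' hV hyp hS]
    · have : y r t = 1 := hrel _ (Or.inl (Or.inl (Or.inl ⟨r, t, hr, by simpa using hS, rfl⟩)))
      rw [this, map_one, map_one]
  have hinj : Function.Injective ψ := by
    intro a b hab
    have := congrArg φ hab
    rwa [← MonoidHom.comp_apply, ← MonoidHom.comp_apply, hleft] at this
  have hsurj : Function.Surjective ψ := by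
    rw [← MonoidHom.range_eq_top, eq_top_iff, ← PresentedGroup.closure_range_of, Subgroup.closure_le]
    rintro _ ⟨⟨⟨r, hr⟩, t⟩, rfl⟩
    have e : (PresentedGroup.of (⟨r, hr⟩, t) : D.SteinbergGroup K) = x r t := by
      simp only [hx, ChevalleyDatum.stX, dif_pos hr]; rfl
    rw [e]
    exact Cert.gen hV x1 x2 ψ.range (fun i j r hS t => ⟨_, hψy i j r hS t⟩) _ r le_rfl
      (hM.n_eq ▸ hr) t
  exact ⟨MulEquiv.ofBijective ψ ⟨hinj, hsurj⟩, fun i j r t hS => hψy i j r ((hM.S_iff _ _ _).mpr hS) t⟩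

end Cfsg.Agent.H1.CT
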