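import Cfsg.Agent.H1.CT3

set_option autoImplicit false

/-! Packed tables and boolean checks. -/

namespace Cfsg.Agent.H1.CT

open Cfsg.Lie

def allR (a b : ℕ) (f : ℕ → Bool) : Bool :=
  Nat.rec true (fun k ih => bif Nat.blt k a then true else f k && ih) b

def Rng (f : ℕ → Bool) (a b : ℕ) : Prop := ∀ k, a ≤ k → k < b → f k = true

theorem rng_of_allR {f : ℕ → Bool} {a : ℕ} : ∀ {b : ℕ}, allR a b f = true → Rng f a b
  | 0, _ => fun k _ h => absurd h (Nat.not_lt_zero k)
  | b + 1, h => by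
    intro k h1 h2
    change (bif Nat.blt b a then true else f b && allR a b f) = true at h
    have : Nat.blt b a = false := by
      rw [← Bool.not_eq_true, blt_t]; omega
    rw [this, cond_false, Bool.and_eq_true] at h
    by_cases e : k = b
    · rw [e]; exact h.1
    · exact rng_of_allR h.2 k h1 (by omega)

theorem Rng.trans {f : ℕ → Bool} {a b c : ℕ} (h1 : Rng f a b) (h2 : Rng f b c) : Rng f a c :=
  fun k ha hc => if h : k < b then h1 k ha h else h2 k (by omega) hc

def allB (b : ℕ) (f : ℕ → Bool) : Bool := Nat.rec true (fun k ih => f k && ih) b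

theorem allB_iff {f : ℕ → Bool} : ∀ {b : ℕ}, allB b f = true ↔ ∀ k < b, f k = true
  | 0 => by simp [allB]
  | b + 1 => by
    change (f b && allB b f) = true ↔ _
    rw [Bool.and_eq_true, allB_iff, Nat.forall_lt_succ_right, and_comm]

def tb (T B i : ℕ) : ℕ := Nat.mod (Nat.shiftRight T (Nat.mul i B)) (Nat.pow 2 B)

def bit (T i : ℕ) : Bool := Nat.beq (Nat.mod (Nat.shiftRight T i) 2) 1

structure Tab where
  n : ℕ
  l : ℕ
  sl : Bool
  B : ℕ
  RB : ℕ
  ceT : ℕ
  pT : ℕ
  wT : ℕ
  ηT : ℕ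
  htT : ℕ
  dT : ℕ
  mT : ℕ
  jnT : ℕ
  sT : ℕ
  PB : ℕ
  pcT : ℕ

def ent (c : ℕ) : ℕ × ℤ := (Nat.mod c 256, Int.subNatNat (Nat.div c 256) 3)

def ctOf : List (ℕ × ℤ) → List (ℕ × ℤ) → List Tm
  | [], [] => []
  | [], [_] => []
  | [], _ :: c :: _ => [(c.1, c.2, 1, 2)]
  | [a], [] => [(a.1, a.2, 1, 1)]
  | [a], [_] => [(a.1, a.2, 1, 1)]
  | [a], _ :: c :: _ => [(a.1, a.2, 1, 1), (c.1, c.2, 1, 2)]
  | a :: b :: _, [] => [(a.1, a.2, 1, 1), (b.1, b.2, 2, 1)]
  | a :: b :: _, [_] => [(a.1, a.2, 1, 1), (b.1, b.2, 2, 1)]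
  | a :: b :: _, _ :: c :: _ => [(a.1, a.2, 1, 1), (b.1, b.2, 2, 1), (c.1, c.2, 1, 2)]

theorem commTerms_eq (D : ChevalleyDatum) (r s : ℕ) (h1 : (D.chainEntry r s).length ≤ 2)
    (h2 : (D.chainEntry s r).length ≤ 2) :
    D.commTerms r s = ctOf (D.chainEntry r s) (D.chainEntry s r) := by
  simp only [ChevalleyDatum.commTerms, ChevalleyDatum.chainRoot, ChevalleyDatum.chainM]
  generalize D.chainEntry r s = a at h1
  generalize D.chainEntry s r = b at h2
  rcases a with _ | ⟨a1, _ | ⟨a2, _ | ⟨a3, a⟩⟩⟩ <;> rcases b with _ | ⟨b1, _ | ⟨b2, _ | ⟨b3, b⟩⟩⟩ <;>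
    first | (simp at h1; done) | (simp at h2; done) | simp [ctOf]

namespace Tab
variable (T : Tab)

def code (r s : ℕ) : ℕ := tb (tb T.ceT T.RB r) T.B s

def dec (c : ℕ) : List (ℕ × ℤ) :=
  bif Nat.beq c 0 then [] else bif T.sl then [ent c] else
    bif Nat.blt c 2048 then [ent c] else [ent (Nat.mod c 2048), ent (Nat.div c 2048)]

def ct (r s : ℕ) : List Tm :=
  bif T.sl then force (T.code r s) fun c =>
    bif Nat.beq c 0 then [] else [(Nat.mod c 256, Int.subNatNat (Nat.div c 256) 3, 1, 1)]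
  else force (T.code r s) fun c => force (T.code s r) fun c' => ctOf (T.dec c) (T.dec c')

theorem dec_length (c : ℕ) : (T.dec c).length ≤ 2 := by
  simp only [dec, Bool.cond_eq_ite]
  split_ifs <;> simp

theorem ct_eq (r s : ℕ) : T.ct r s = ctOf (T.dec (T.code r s)) (T.dec (T.code s r)) := by
  simp only [ct, force_eq]
  cases h : T.sl
  · rfl
  · simp only [dec, h, cond_true, Bool.cond_eq_ite]
    split_ifs <;> rfl

def cert : Cert where
  n := T.n
  l := T.l
  ct := T.ct
  neg := fun r => Nat.sub (Nat.sub T.n 1) r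
  p := fun i => tb T.pT 8 i
  w := fun i r => tb (tb T.wT 2048 i) 8 r
  η := fun i r => bit (tb T.ηT 256 i) r
  ht := fun r => tb T.htT 5 r
  d := fun r => tb T.dT 3 r
  m := fun i j => tb (tb T.mT 24 i) 3 j
  jn := fun i => tb T.jnT 3 i
  S := fun i j r => Nat.blt i T.l && Nat.blt j T.l && Nat.blt r T.n && bit (tb (tb T.sT 2048 i) 256 j) r
  pc := fun r s => tb (tb T.pcT T.PB r) 12 s

def walk (z : ℕ → ℕ) (f : ℕ) : List (ℕ × Array (ℕ × ℤ)) → Bool :=
  Nat.rec (fun L => L.isEmpty) (fun k ih L => force (Nat.sub T.n (Nat.succ k)) fun s =>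
    force (z s) fun c =>
    match L with
    | [] => Nat.beq c 0 && ih []
    | e :: L' => bif Nat.beq e.1 s then decide (e.2.toList = T.dec c) && ih L'
        else Nat.beq c 0 && ih (e :: L')) f

theorem walk_spec (z : ℕ → ℕ) : ∀ (f : ℕ) (L : List (ℕ × Array (ℕ × ℤ))), f ≤ T.n →
    T.walk z f L = true → (∀ e ∈ L, T.n - f ≤ e.1) ∧ ∀ s, T.n - f ≤ s → s < T.n →
      (match L.find? (fun e => e.1 = s) with
        | none => []
        | some e => e.2.toList) = T.dec (z s)
  | 0, L, _, h => by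
    have : L = [] := List.isEmpty_iff.mp h
    subst this
    exact ⟨by simp, fun s h1 h2 => by omega⟩
  | f + 1, [], hf, h => by
    have h' : (Nat.beq (z (T.n - (f + 1))) 0 && T.walk z f []) = true := by
      simp only [walk, force_eq] at h ⊢
      exact h
    rw [Bool.and_eq_true, beq_t] at h'
    refine ⟨by simp, fun s h1 h2 => ?_⟩
    by_cases e : s = T.n - (f + 1)
    · rw [e, h'.1]; rfl
    · exact (walk_spec z f [] (by omega) h'.2).2 s (by omega) h2
  | f + 1, e :: L, hf, h => by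
    have h' : (bif Nat.beq e.1 (T.n - (f + 1)) then
        decide (e.2.toList = T.dec (z (T.n - (f + 1)))) && T.walk z f L
        else Nat.beq (z (T.n - (f + 1))) 0 && T.walk z f (e :: L)) = true := by
      simp only [walk, force_eq] at h ⊢
      exact h
    rw [Bool.cond_eq_ite] at h'
    split_ifs at h' with he
    · rw [beq_t] at he
      rw [Bool.and_eq_true, decide_eq_true_eq] at h'
      obtain ⟨i1, i2⟩ := walk_spec z f L (by omega) h'.2
      refine ⟨?_, fun s h1 h2 => ?_⟩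
      · intro e' he'
        rcases List.mem_cons.mp he' with rfl | he'
        · omega
        · have := i1 e' he'; omega
      · by_cases e' : s = T.n - (f + 1)
        · rw [List.find?_cons_of_pos (by simp [he, e']), e']
          exact h'.1
        · rw [List.find?_cons_of_neg (by simp only [decide_eq_true_eq]; omega)]
          exact i2 s (by omega) h2
    · rw [Bool.and_eq_true, beq_t] at h'
      obtain ⟨i1, i2⟩ := walk_spec z f (e :: L) (by omega) h'.2
      refine ⟨fun e' he' => by have := i1 e' he'; omega, fun s h1 h2 => ?_⟩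
      by_cases e' : s = T.n - (f + 1)
      · have : (e :: L).find? (fun e => e.1 = s) = none := by
          rw [List.find?_eq_none]
          intro e'' he''
          have := i1 e'' he''
          simp only [decide_eq_true_eq]
          omega
        rw [this, e', h'.1]; rfl
      · exact i2 s (by omega) h2

def rowChk (D : ChevalleyDatum) (r : ℕ) : Bool :=
  T.walk (T.code r) T.n (D.chain.getD r #[]).toList

theorem chainEntry_eq {D : ChevalleyDatum} {r s : ℕ} (h : T.rowChk D r = true) (hs : s < T.n) :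
    D.chainEntry r s = T.dec (T.code r s) :=
  (T.walk_spec (T.code r) T.n _ le_rfl h).2 s (by omega) hs

def chkM (D : ChevalleyDatum) : Bool :=
  Nat.beq T.n D.nroots && Nat.beq T.l D.rank &&
  allB T.n (fun r => Nat.beq (D.neg r) (T.cert.neg r)) &&
  allB T.n fun r => allB T.l fun i => allB T.l fun j =>
    T.cert.S i j r == allB T.l fun k =>
      Nat.beq k i || Nat.beq k j || decide ((D.coroot.getD r #[]).getD k 0 = 0)

theorem S_lt (i j r : ℕ) (h : T.cert.S i j r = true) : i < T.l ∧ j < T.l ∧ r < T.n := by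
  simp only [cert, Bool.and_eq_true, blt_t] at h
  exact ⟨h.1.1.1, h.1.1.2, h.1.2⟩

theorem match_of {D : ChevalleyDatum} (h1 : T.chkM D = true) (h2 : Rng (T.rowChk D) 0 T.n) :
    Match T.cert D := by
  simp only [chkM, Bool.and_eq_true, beq_t, allB_iff, beq_iff_eq] at h1
  obtain ⟨⟨⟨hn, hl⟩, h3⟩, h4⟩ := h1
  refine ⟨hn, fun r hr s hs => ?_, h3, fun i j r => ?_⟩
  · have e1 := T.chainEntry_eq (h2 r (Nat.zero_le _) hr) hs
    have e2 := T.chainEntry_eq (h2 s (Nat.zero_le _) hs) hr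
    rw [commTerms_eq D r s (e1 ▸ T.dec_length _) (e2 ▸ T.dec_length _), e1, e2]
    exact (T.ct_eq r s).symm
  · rw [ChevalleyDatum.InRankTwoSub, ← hn, ← hl]
    constructor
    · intro hS
      obtain ⟨hi, hj, hr⟩ := T.S_lt i j r hS
      refine ⟨hr, hi, hj, fun k hk h5 h6 => ?_⟩
      rw [h4 r hr i hi j hj, allB_iff] at hS
      simpa [beq_t, h5, h6] using hS k hk
    · rintro ⟨hr, hi, hj, hS⟩
      rw [h4 r hr i hi j hj, allB_iff]
      intro k hk
      simp only [Bool.or_eq_true, beq_t, decide_eq_true_eq]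
      by_cases h5 : k = i
      · exact Or.inl (Or.inl h5)
      by_cases h6 : k = j
      · exact Or.inl (Or.inr h6)
      exact Or.inr (hS k hk h5 h6)

end Tab

namespace Cert
variable (C : Cert)

def chkA : Bool :=
  allB C.n (fun r => Nat.blt (C.neg r) C.n && Nat.blt (C.d r) C.l &&
    (bif Nat.ble (C.ht r) 1 then Nat.beq r (C.p (C.d r)) || Nat.beq r (C.neg (C.p (C.d r)))
      else Nat.blt (C.ht (C.w (C.d r) r)) (C.ht r)) &&
    allB C.l fun i => Nat.blt (C.w i r) C.n && Nat.beq (C.w i (C.w i r)) r &&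
      Nat.beq (C.w i (C.neg r)) (C.neg (C.w i r)) && (C.η i (C.neg r) == C.η i r) && C.hchk i r) &&
  allB C.l fun i => C.f2 i (C.p i) (C.neg (C.p (C.jn i))) && C.f2 i (C.neg (C.p i)) (C.p (C.jn i)) &&
    allB C.l fun j => C.S i j (C.p i) && C.bchk i j

def chkB (i : ℕ) : Bool :=
  allB C.l fun j => allB C.n fun r => !(C.S i j r) ||
    (C.S j i r && C.S i j (C.neg r) && C.S i j (C.w i r) &&
      (Nat.ble (C.ht r) 1 || Nat.beq (C.d r) i || Nat.beq (C.d r) j) &&
      (Nat.beq r (C.p i) || Nat.beq r (C.neg (C.p i)) || (C.E i j).f1 (C.p i) r (C.w i r) (C.η i r)) &&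
      allB C.n fun s => !(C.S i j s) || (C.ct r s).all fun c => C.S i j c.1)

def chkC (r : ℕ) : Bool := C.surj r && allB C.l fun i => C.pchk i r

def chkP (r : ℕ) : Bool := allB C.n fun s => C.pair r s

theorem valid_of (hlt : ∀ i j r, C.S i j r = true → i < C.l ∧ j < C.l ∧ r < C.n)
    (hA : C.chkA = true) (hB : Rng C.chkB 0 C.l) (hC : Rng C.chkC 0 C.n) (hP : Rng C.chkP 0 C.n) :
    C.Valid := by
  simp only [chkA, Bool.and_eq_true, allB_iff, blt_t, beq_t, beq_iff_eq, Bool.cond_eq_ite, ble_t] at hA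
  obtain ⟨hA1, hA2⟩ := hA
  have hB' : ∀ i j r, C.S i j r = true →
      ((((C.S j i r = true ∧ C.S i j (C.neg r) = true) ∧ C.S i j (C.w i r) = true) ∧
      ((C.ht r ≤ 1 ∨ C.d r = i) ∨ C.d r = j)) ∧
      ((r = C.p i ∨ r = C.neg (C.p i)) ∨ (C.E i j).f1 (C.p i) r (C.w i r) (C.η i r) = true)) ∧
      ∀ s < C.n, C.S i j s = false ∨ ∀ c ∈ C.ct r s, C.S i j c.1 = true := by
    intro i j r hS
    obtain ⟨hi, hj, hr⟩ := hlt i j r hS
    have := hB i (Nat.zero_le _) hi
    simp only [chkB, Bool.and_eq_true, allB_iff, beq_t, ble_t, Bool.or_eq_true, Bool.not_eq_true',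
      List.all_eq_true] at this
    exact (this j hj r hr).resolve_left (by simp [hS])
  have hC' : ∀ r < C.n, C.surj r = true ∧ ∀ i < C.l, C.pchk i r = true := by
    intro r hr
    have := hC r (Nat.zero_le _) hr
    simpa only [chkC, Bool.and_eq_true, allB_iff] using this
  refine ⟨hlt, fun i j r h => (hB' i j r h).1.1.1.1.1, fun r hr => (hA1 r hr).1.1.1,
    fun i hi r hr => ((hA1 r hr).2 i hi).1.1.1.1, fun i hi r hr => ((hA1 r hr).2 i hi).1.1.1.2,
    fun i hi r hr => ((hA1 r hr).2 i hi).1.1.2, fun i hi r hr => ((hA1 r hr).2 i hi).1.2,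
    fun r hr => (hA1 r hr).1.1.2, fun r hr h => ?_, fun r hr h => ?_,
    fun i hi j hj => ((hA2 i hi).2 j hj).1, fun i j r h => (hB' i j r h).1.1.1.1.2,
    fun i j r h => (hB' i j r h).1.1.1.2, fun i j r h h1 => ?_, fun i j r s h hs => ?_,
    fun i j r h => ?_, fun i hi => (hA2 i hi).1.1, fun i hi => (hA2 i hi).1.2,
    fun i hi r hr => ((hA1 r hr).2 i hi).2, fun i hi j hj => ((hA2 i hi).2 j hj).2,
    fun i hi r hr => (hC' r hr).2 i hi, fun r hr s hs => ?_, fun r hr => (hC' r hr).1⟩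
  · have := (hA1 r hr).1.2
    rw [if_pos h] at this
    simpa only [Bool.or_eq_true, beq_t] using this
  · have := (hA1 r hr).1.2
    rw [if_neg (by omega)] at this
    exact blt_t.mp this
  · rcases (hB' i j r h).1.1.2 with (h2 | h2) | h2
    · omega
    · exact Or.inl h2
    · exact Or.inr h2
  · exact ((hB' i j r h).2 s (hlt _ _ _ hs).2.2).resolve_left (by simp [hs])
  · exact or_assoc.mp (hB' i j r h).1.2
  · exact allB_iff.mp (hP r (Nat.zero_le _) hr) s hs

end Cert

end Cfsg.Agent.H1.CT
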