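import Cfsg.Agent.H1.CTD4

set_option autoImplicit false

namespace Cfsg.Agent.H1.CT

open Cfsg.Lie

theorem chkM_D4 : tabD4.chkM chevD4 = true := by decide +kernel

theorem chkA_D4 : tabD4.cert.chkA = true := by decide +kernel

theorem chkB_D4 : allR 0 4 tabD4.cert.chkB = true := by decide +kernel

theorem chkC_D4 : allR 0 24 tabD4.cert.chkC = true := by decide +kernel

theorem chkR_D4_0 : allR 0 24 (tabD4.rowChk chevD4) = true := by decide +kernel

theorem chkP_D4_0 : allR 0 24 tabD4.cert.chkP = true := by decide +kernel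

theorem valid_D4 : tabD4.cert.Valid :=
  Cert.valid_of _ tabD4.S_lt chkA_D4 (rng_of_allR chkB_D4) (rng_of_allR chkC_D4)
    (rng_of_allR chkP_D4_0)

theorem match_D4 : Match tabD4.cert chevD4 :=
  tabD4.match_of chkM_D4
    (rng_of_allR chkR_D4_0)

end Cfsg.Agent.H1.CT
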