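import Cfsg.Agent.H1.CTE6

set_option autoImplicit false

namespace Cfsg.Agent.H1.CT

open Cfsg.Lie

theorem chkM_E6 : tabE6.chkM chevE6 = true := by decide +kernel

theorem chkA_E6 : tabE6.cert.chkA = true := by decide +kernel

theorem chkB_E6 : allR 0 6 tabE6.cert.chkB = true := by decide +kernel

theorem chkC_E6 : allR 0 72 tabE6.cert.chkC = true := by decide +kernel

theorem chkR_E6_0 : allR 0 72 (tabE6.rowChk chevE6) = true := by decide +kernel

theorem chkP_E6_0 : allR 0 72 tabE6.cert.chkP = true := by decide +kernel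

theorem valid_E6 : tabE6.cert.Valid :=
  Cert.valid_of _ tabE6.S_lt chkA_E6 (rng_of_allR chkB_E6) (rng_of_allR chkC_E6)
    (rng_of_allR chkP_E6_0)

theorem match_E6 : Match tabE6.cert chevE6 :=
  tabE6.match_of chkM_E6
    (rng_of_allR chkR_E6_0)

end Cfsg.Agent.H1.CT
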