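import Cfsg.Agent.H1.CTE7

set_option autoImplicit false

namespace Cfsg.Agent.H1.CT

open Cfsg.Lie

theorem chkM_E7 : tabE7.chkM chevE7 = true := by decide +kernel

theorem chkA_E7 : tabE7.cert.chkA = true := by decide +kernel

theorem chkB_E7 : allR 0 7 tabE7.cert.chkB = true := by decide +kernel

theorem chkC_E7 : allR 0 126 tabE7.cert.chkC = true := by decide +kernel

theorem chkR_E7_0 : allR 0 42 (tabE7.rowChk chevE7) = true := by decide +kernel

theorem chkP_E7_0 : allR 0 42 tabE7.cert.chkP = true := by decide +kernel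

theorem chkR_E7_42 : allR 42 84 (tabE7.rowChk chevE7) = true := by decide +kernel

theorem chkP_E7_42 : allR 42 84 tabE7.cert.chkP = true := by decide +kernel

theorem chkR_E7_84 : allR 84 126 (tabE7.rowChk chevE7) = true := by decide +kernel

theorem chkP_E7_84 : allR 84 126 tabE7.cert.chkP = true := by decide +kernel

theorem valid_E7 : tabE7.cert.Valid :=
  Cert.valid_of _ tabE7.S_lt chkA_E7 (rng_of_allR chkB_E7) (rng_of_allR chkC_E7)
    (((rng_of_allR chkP_E7_0).trans (rng_of_allR chkP_E7_42)).trans (rng_of_allR chkP_E7_84))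

theorem match_E7 : Match tabE7.cert chevE7 :=
  tabE7.match_of chkM_E7
    (((rng_of_allR chkR_E7_0).trans (rng_of_allR chkR_E7_42)).trans (rng_of_allR chkR_E7_84))

end Cfsg.Agent.H1.CT
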