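import Cfsg.Agent.H1.CTE8

set_option autoImplicit false

namespace Cfsg.Agent.H1.CT

open Cfsg.Lie

theorem chkM_E8 : tabE8.chkM chevE8 = true := by decide +kernel

theorem chkA_E8 : tabE8.cert.chkA = true := by decide +kernel

theorem chkB_E8 : allR 0 8 tabE8.cert.chkB = true := by decide +kernel

theorem chkC_E8 : allR 0 240 tabE8.cert.chkC = true := by decide +kernel

theorem chkR_E8_0 : allR 0 30 (tabE8.rowChk chevE8) = true := by decide +kernel

theorem chkP_E8_0 : allR 0 30 tabE8.cert.chkP = true := by decide +kernel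

theorem chkR_E8_30 : allR 30 60 (tabE8.rowChk chevE8) = true := by decide +kernel

theorem chkP_E8_30 : allR 30 60 tabE8.cert.chkP = true := by decide +kernel

theorem chkR_E8_60 : allR 60 90 (tabE8.rowChk chevE8) = true := by decide +kernel

theorem chkP_E8_60 : allR 60 90 tabE8.cert.chkP = true := by decide +kernel

theorem chkR_E8_90 : allR 90 120 (tabE8.rowChk chevE8) = true := by decide +kernel

theorem chkP_E8_90 : allR 90 120 tabE8.cert.chkP = true := by decide +kernel

theorem chkR_E8_120 : allR 120 150 (tabE8.rowChk chevE8) = true := by decide +kernel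

theorem chkP_E8_120 : allR 120 150 tabE8.cert.chkP = true := by decide +kernel

theorem chkR_E8_150 : allR 150 180 (tabE8.rowChk chevE8) = true := by decide +kernel

theorem chkP_E8_150 : allR 150 180 tabE8.cert.chkP = true := by decide +kernel

theorem chkR_E8_180 : allR 180 210 (tabE8.rowChk chevE8) = true := by decide +kernel

theorem chkP_E8_180 : allR 180 210 tabE8.cert.chkP = true := by decide +kernel

theorem chkR_E8_210 : allR 210 240 (tabE8.rowChk chevE8) = true := by decide +kernel

theorem chkP_E8_210 : allR 210 240 tabE8.cert.chkP = true := by decide +kernel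

theorem valid_E8 : tabE8.cert.Valid :=
  Cert.valid_of _ tabE8.S_lt chkA_E8 (rng_of_allR chkB_E8) (rng_of_allR chkC_E8)
    ((((((((rng_of_allR chkP_E8_0).trans (rng_of_allR chkP_E8_30)).trans (rng_of_allR chkP_E8_60)).trans (rng_of_allR chkP_E8_90)).trans (rng_of_allR chkP_E8_120)).trans (rng_of_allR chkP_E8_150)).trans (rng_of_allR chkP_E8_180)).trans (rng_of_allR chkP_E8_210))

theorem match_E8 : Match tabE8.cert chevE8 :=
  tabE8.match_of chkM_E8
    ((((((((rng_of_allR chkR_E8_0).trans (rng_of_allR chkR_E8_30)).trans (rng_of_allR chkR_E8_60)).trans (rng_of_allR chkR_E8_90)).trans (rng_of_allR chkR_E8_120)).trans (rng_of_allR chkR_E8_150)).trans (rng_of_allR chkR_E8_180)).trans (rng_of_allR chkR_E8_210))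

end Cfsg.Agent.H1.CT
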