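import Cfsg.Agent.H1.CTF4

set_option autoImplicit false

namespace Cfsg.Agent.H1.CT

open Cfsg.Lie

theorem chkM_F4 : tabF4.chkM chevF4 = true := by decide +kernel

theorem chkA_F4 : tabF4.cert.chkA = true := by decide +kernel

theorem chkB_F4 : allR 0 4 tabF4.cert.chkB = true := by decide +kernel

theorem chkC_F4 : allR 0 48 tabF4.cert.chkC = true := by decide +kernel

theorem chkR_F4_0 : allR 0 48 (tabF4.rowChk chevF4) = true := by decide +kernel

theorem chkP_F4_0 : allR 0 48 tabF4.cert.chkP = true := by decide +kernel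

theorem valid_F4 : tabF4.cert.Valid :=
  Cert.valid_of _ tabF4.S_lt chkA_F4 (rng_of_allR chkB_F4) (rng_of_allR chkC_F4)
    (rng_of_allR chkP_F4_0)

theorem match_F4 : Match tabF4.cert chevF4 :=
  tabF4.match_of chkM_F4
    (rng_of_allR chkR_F4_0)

end Cfsg.Agent.H1.CT
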