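import Cfsg.Agent.H8.M3Iface2
import Cfsg.Agent.H3.PglMax2
import Cfsg.Agent.H2.Perf1

/-! Non-solvable finite subgroups of `PGL₂` over an algebraic extension of a finite field. -/

set_option autoImplicit false

namespace Cfsg.Agent.H1.Conic

open MulAction Matrix OnePoint
open scoped MatrixGroups commutatorElement
open Matrix.ProjGenLinGroup (mk)
open Cfsg.Agent.H8 Cfsg.Agent.H3

theorem solv2 {G : Type*} [Group G] (C : Subgroup G) (h1 : ∀ a b : G, ⁅a, b⁆ ∈ C)
    (h2 : ∀ a ∈ C, ∀ b ∈ C, a * b = b * a) : Group.IsSolvable G := by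
  refine ⟨⟨2, ?_⟩⟩
  have e : derivedSeries G 1 ≤ C := by
    rw [derivedSeries_succ, derivedSeries_zero]
    exact Subgroup.commutator_le.mpr fun a _ b _ => h1 a b
  rw [derivedSeries_succ, eq_bot_iff]
  refine Subgroup.commutator_le.mpr fun a ha b hb => ?_
  rw [Subgroup.mem_bot, commutatorElement_eq_one_iff_mul_comm]
  exact h2 a (e ha) b (e hb)

theorem not_solv {G : Type*} [Group G] [Finite G] [Nontrivial G] (h : NoEA G) :
    ¬ Group.IsSolvable G := by
  classical
  rintro ⟨hs⟩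
  have h0 : Nat.find hs ≠ 0 := by
    intro e
    have := Nat.find_spec hs
    rw [e, derivedSeries_zero] at this
    exact top_ne_bot this
  obtain ⟨m, hm⟩ := Nat.exists_eq_succ_of_ne_zero h0
  have hD : derivedSeries G m ≠ ⊥ := Nat.find_min hs (by omega)
  have hD1 : derivedSeries G (m + 1) = ⊥ := by
    have := Nat.find_spec hs
    rwa [hm] at this
  set D := derivedSeries G m with hDdef
  have hc : ∀ a ∈ D, ∀ b ∈ D, a * b = b * a := by
    intro a ha b hb
    have : ⁅a, b⁆ ∈ derivedSeries G (m + 1) := by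
      rw [derivedSeries_succ]; exact Subgroup.commutator_mem_commutator ha hb
    rwa [hD1, Subgroup.mem_bot, commutatorElement_eq_one_iff_mul_comm] at this
  have hn : D.Normal := derivedSeries_normal G m
  have h1 : Nat.card D ≠ 1 := fun e => hD (Subgroup.card_eq_one.mp e)
  obtain ⟨r, hr, hrd⟩ := Nat.exists_prime_and_dvd h1
  have : Fact r.Prime := ⟨hr⟩
  obtain ⟨x, hx⟩ := exists_prime_orderOf_dvd_card' r hrd
  let N : Subgroup G :=
    { carrier := {y | y ∈ D ∧ y ^ r = 1}
      one_mem' := ⟨D.one_mem, one_pow _⟩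
      mul_mem' := by
        rintro a b ⟨ha, ha'⟩ ⟨hb, hb'⟩
        refine ⟨D.mul_mem ha hb, ?_⟩
        rw [Commute.mul_pow (hc a ha b hb), ha', hb', mul_one]
      inv_mem' := by
        rintro a ⟨ha, ha'⟩
        exact ⟨D.inv_mem ha, by rw [inv_pow, ha', inv_one]⟩ }
  have hN := h N ⟨fun a ha g => ⟨hn.conj_mem a ha.1 g, by rw [conj_pow, ha.2]; simp⟩⟩
    ⟨⟨fun a b => Subtype.ext (hc a a.2.1 b b.2.1)⟩⟩ ⟨r, hr, fun y hy => hy.2⟩
  have hxN : (x : G) ∈ N := ⟨x.2, by
    have := pow_orderOf_eq_one x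
    rw [hx] at this
    exact congrArg Subtype.val this⟩
  rw [hN, Subgroup.mem_bot] at hxN
  have : x = 1 := Subtype.ext hxN
  rw [this, orderOf_one] at hx
  exact hr.one_lt.ne hx

variable {E : Type*} [Field E]

theorem solv_stab (x : OnePoint E) : Group.IsSolvable (stabilizer PGL(2, E) x) := by
  obtain ⟨χ, hχ⟩ := exists_multiplier x
  obtain ⟨k, hk⟩ := exists_smul_eq_infty x
  refine solv2 χ.toHomUnits.ker (fun a b => ?_) (fun a ha b hb => ?_)
  · rw [MonoidHom.mem_ker, map_commutatorElement, commutatorElement_eq_one_iff_mul_comm, mul_comm]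
  · have hu : ∀ c ∈ χ.toHomUnits.ker, ∃ t, k * (c : PGL(2, E)) * k⁻¹ = transl t := by
      intro c hc
      have h1 : χ c = 1 := by
        have := congrArg Units.val (MonoidHom.mem_ker.mp hc)
        simpa using this
      have h2 := ((hχ c).1 h1).conj k
      rw [hk] at h2
      exact exists_transl_of_isUnip h2
    obtain ⟨s, hs⟩ := hu a ha
    obtain ⟨t, ht⟩ := hu b hb
    apply Subtype.ext
    have : k * ((a : PGL(2, E)) * b) * k⁻¹ = k * ((b : PGL(2, E)) * a) * k⁻¹ := by
      calc _ = (k * (a : PGL(2, E)) * k⁻¹) * (k * b * k⁻¹) := by group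
        _ = (k * (b : PGL(2, E)) * k⁻¹) * (k * a * k⁻¹) := by
          rw [hs, ht, transl_mul, transl_mul, add_comm]
        _ = _ := by group
    simpa using this

theorem solv_pair [Finite E] {K : Type*} [Field K] [Algebra E K] {x y : OnePoint K} (hxy : x ≠ y) :
    Group.IsSolvable (pairStab E x y) := by
  refine solv2 ((fix2 E x y).subgroupOf _) (fun a b => ?_)
    (fun a ha b hb => Subtype.ext (fix2_comm hxy ha hb))
  rw [Subgroup.mem_subgroupOf, mem_fix2]
  have hi : ∀ g : PGL(2, E), ∀ u v : OnePoint K, g • u = v → g⁻¹ • v = u := fun g u v h =>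
    inv_smul_eq_iff.mpr h.symm
  obtain ⟨a, ⟨a1, a2⟩ | ⟨a1, a2⟩⟩ := a <;> obtain ⟨b, ⟨b1, b2⟩ | ⟨b1, b2⟩⟩ := b <;>
    simp only [commutatorElement_def, Subgroup.coe_mul, Subgroup.coe_inv, mul_smul, hi _ _ _ a1,
      hi _ _ _ a2, hi _ _ _ b1, hi _ _ _ b2, a1, a2, b1, b2, and_self]

theorem solv_PGL3 {k : Type*} [Field k] [Finite k] (h : Nat.card k = 3) :
    Group.IsSolvable PGL(2, k) := by
  have : Finite (OnePoint k) := inferInstanceAs (Finite (Option k))
  have := H2.solvable_perm_of_card_le_four (α := OnePoint k) (by rw [card_onePoint, h])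
  refine Group.isSolvable_of_isSolvable_injective (f := MulAction.toPermHom PGL(2, k) (OnePoint k)) ?_
  rw [injective_iff_map_eq_one]
  intro g hg
  have hf : ∀ z : OnePoint k, g • z = z := fun z => congrArg (fun e : Equiv.Perm (OnePoint k) => e z) hg
  exact eq_one_of_fix_three (K := k) (x := ∞) (y := (0 : k)) (z := (1 : k)) (infty_ne_coe _)
    (infty_ne_coe _) zero_ne_one' (hf _) (hf _) (hf _)

theorem solv_le {Γ : Type*} [Group Γ] {A B : Subgroup Γ} (h : A ≤ B) (hB : Group.IsSolvable B) :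
    Group.IsSolvable A :=
  Group.isSolvable_of_isSolvable_injective (Subgroup.inclusion_injective h)

theorem solv_iso {A B : Type*} [Group A] [Group B] (e : A ≃* B) (hB : Group.IsSolvable B) :
    Group.IsSolvable A :=
  Group.isSolvable_of_isSolvable_injective (f := e.toMonoidHom) e.injective

/-- Dickson's theorem for non-solvable groups. -/
theorem dickson_ns [Finite E] (p : ℕ) [Fact p.Prime] [CharP E p] (G : Subgroup PGL(2, E))
    (hG : ¬ Group.IsSolvable G) :
    (p ≠ 5 ∧ Nat.card G = 60 ∧ Nonempty (G ≃* alternatingGroup (Fin 5))) ∨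
    ∃ (k : Subfield E) (g : PGL(2, E)), Nat.card k ≠ 3 ∧ (G = cj g (PS k) ∨ G = cj g (PG k)) := by
  rcases dickson2 p G with ⟨x, h⟩ | ⟨x, y, hxy, h⟩ | ⟨t, a, b, ht, h⟩ | h | ⟨k, g, -, h⟩
  · exact absurd (solv_le h (solv_stab x)) hG
  · exact absurd (solv_le h (solv_pair hxy)) hG
  · exact absurd (solv_le h (solv_pair (fun e => ht.ne_conj (coe_eq_coe.mp e)))) hG
  · have := H2.solvable_perm_fin_four
    obtain ⟨-, -, ⟨-, ⟨e⟩, -⟩ | ⟨-, ⟨e⟩, -⟩ | ⟨h1, h2, h3, -⟩⟩ := h
    · exact absurd (solv_iso e inferInstance) hG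
    · exact absurd (solv_iso e inferInstance) hG
    · exact Or.inl ⟨h3, h1, h2⟩
  · refine Or.inr ⟨k, g, fun h3 => hG ?_, h⟩
    have h1 : Group.IsSolvable (cj g (PG k)) :=
      solv_iso ((cjEquiv g _).symm.trans (pgEquiv k).symm) (solv_PGL3 h3)
    exact solv_le (le_cj_PG h) h1

end Cfsg.Agent.H1.Conic
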