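import Cfsg.Agent.H1.Conic1

/-! The symmetric square `PGL₂ → PGL₃` and the stabiliser of a conic. -/

set_option autoImplicit false

namespace Cfsg.Agent.H1.Conic

open MulAction Matrix OnePoint
open scoped MatrixGroups
open Matrix.ProjGenLinGroup (mk)
open Cfsg.Agent.H8 Cfsg.Agent.H3

variable {K : Type*} [Field K]

/-- The symmetric square of a two by two matrix. -/
def sy (g : Matrix (Fin 2) (Fin 2) K) : Matrix (Fin 3) (Fin 3) K :=
  !![g 0 0 ^ 2, 2 * g 0 0 * g 0 1, g 0 1 ^ 2;
     g 0 0 * g 1 0, g 0 0 * g 1 1 + g 0 1 * g 1 0, g 0 1 * g 1 1;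
     g 1 0 ^ 2, 2 * g 1 0 * g 1 1, g 1 1 ^ 2]

/-- The symmetric square as a monoid homomorphism. -/
def syM : Matrix (Fin 2) (Fin 2) K →* Matrix (Fin 3) (Fin 3) K where
  toFun := sy
  map_one' := by
    ext i j
    fin_cases i <;> fin_cases j <;> simp [sy]
  map_mul' a b := by
    ext i j
    fin_cases i <;> fin_cases j <;>
      simp [sy, Matrix.mul_apply, Fin.sum_univ_two, Fin.sum_univ_three] <;> ring

/-- The symmetric square on general linear groups. -/
def syG : GL (Fin 2) K →* GL (Fin 3) K := Units.map syM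

theorem syG_val (g : GL (Fin 2) K) : (syG g : Matrix (Fin 3) (Fin 3) K) = sy g := rfl

/-- The symmetric square on projective groups. -/
def Phi : PGL(2, K) →* PGL(3, K) :=
  ProjGenLinGroup.lift (mk.comp syG) (by
    ext u
    have : syG (GeneralLinearGroup.scalar (Fin 2) u) = GeneralLinearGroup.scalar (Fin 3) (u ^ 2) := by
      ext i j
      rw [syG_val]
      fin_cases i <;> fin_cases j <;> simp [sy, sq]
    simp [this])

theorem Phi_mk (g : GL (Fin 2) K) : Phi (mk g) = mk (syG g) := rfl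

theorem mk3_eq {g h : GL (Fin 3) K} (e : mk g = mk h) :
    ∃ c : K, c ≠ 0 ∧ (h : Matrix (Fin 3) (Fin 3) K) = c • (g : Matrix (Fin 3) (Fin 3) K) := by
  obtain ⟨u, rfl⟩ := ProjGenLinGroup.mk_eq_mk_iff.mp e
  exact ⟨u, u.ne_zero, by ext i j; simp [mul_comm]⟩

theorem Phi_inj : Function.Injective (Phi : PGL(2, K) → PGL(3, K)) := by
  rw [injective_iff_map_eq_one]
  intro γ h
  induction γ using ProjGenLinGroup.induction_on with | mk g =>
  rw [Phi_mk, ← ProjGenLinGroup.mk_one] at h
  obtain ⟨c, hc, e⟩ := mk3_eq h.symm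
  rw [syG_val] at e
  have e02 := congrFun (congrFun e 0) 2
  have e20 := congrFun (congrFun e 2) 0
  have e00 := congrFun (congrFun e 0) 0
  have e11 := congrFun (congrFun e 1) 1
  simp [sy] at e02 e20 e00 e11
  refine mk_eq_one_iff.mpr ⟨e02, e20, ?_⟩
  rw [e02, zero_mul, add_zero, ← e00, sq] at e11
  have : g 0 0 ≠ 0 := by
    intro h0
    rw [h0] at e00
    exact hc (by rw [← e00]; simp)
  exact (mul_left_cancel₀ this e11).symm

theorem map3_inj {F : Type*} [Field F] (f : F →+* K) :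
    Function.Injective (ProjGenLinGroup.map (n := Fin 3) f) := by
  rw [injective_iff_map_eq_one]
  intro γ h
  induction γ using ProjGenLinGroup.induction_on with | mk g =>
  rw [ProjGenLinGroup.map_mk, ← ProjGenLinGroup.mk_one] at h
  obtain ⟨c, hc, e⟩ := mk3_eq h.symm
  have e' : ∀ i j, f (g i j) = c * (1 : Matrix (Fin 3) (Fin 3) K) i j := fun i j =>
    congrFun (congrFun e i) j
  have h0 : g 0 0 ≠ 0 := by
    intro h0
    have := e' 0 0
    rw [h0, map_zero, one_apply_eq, mul_one] at this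
    exact hc this.symm
  rw [← ProjGenLinGroup.mk_one, eq_comm, ProjGenLinGroup.mk_eq_mk_iff]
  refine ⟨Units.mk0 _ h0, ?_⟩
  ext i j
  apply f.injective
  rw [e' i j]
  by_cases hij : i = j
  · subst hij
    simp [e' 0 0]
  · simp [hij]

/-- The standard conic. -/
def S0 : Matrix (Fin 3) (Fin 3) K := !![0, 0, -1; 0, 2, 0; -1, 0, 0]

theorem exists_ver [IsAlgClosed K] {x y z : K} (h : y ^ 2 = x * z) :
    ∃ a c : K, x = a ^ 2 ∧ y = a * c ∧ z = c ^ 2 := by
  obtain ⟨a, ha⟩ := IsAlgClosed.exists_eq_mul_self x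
  obtain ⟨c, hc⟩ := IsAlgClosed.exists_eq_mul_self z
  have : (y - a * c) * (y + a * c) = 0 := by rw [ha, hc] at h; linear_combination h
  rcases mul_eq_zero.mp this with e | e
  · exact ⟨a, c, by rw [ha, sq], by linear_combination e, by rw [hc, sq]⟩
  · exact ⟨a, -c, by rw [ha, sq], by linear_combination e, by rw [hc]; ring⟩

theorem exists_sy [IsAlgClosed K] (h2 : (2 : K) ≠ 0) (A : GL (Fin 3) K) {c : K}
    (h : A.1ᵀ * S0 * A.1 = c • (S0 : Matrix (Fin 3) (Fin 3) K)) : ∃ g : GL (Fin 2) K, syG g = A := by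
  have hc : c ≠ 0 := by
    rintro rfl
    have := congrArg det h
    rw [det_mul, det_mul, det_transpose, zero_smul, det_zero] at this
    have h0 : (S0 : Matrix (Fin 3) (Fin 3) K).det = -2 := by simp [S0, det_fin_three]
    rw [h0] at this
    exact mul_ne_zero (mul_ne_zero A.det_ne_zero (neg_ne_zero.mpr h2)) A.det_ne_zero this
  have e00 := congrFun (congrFun h 0) 0
  have e22 := congrFun (congrFun h 2) 2
  have e02 := congrFun (congrFun h 0) 2
  have e01 := congrFun (congrFun h 0) 1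
  have e21 := congrFun (congrFun h 2) 1
  have e11 := congrFun (congrFun h 1) 1
  simp [S0, Matrix.mul_apply, Fin.sum_univ_three] at e00 e22 e02 e01 e21 e11
  obtain ⟨a, c', ha, hac, hc'⟩ := exists_ver (x := A 0 0) (y := A 1 0) (z := A 2 0)
    (mul_left_cancel₀ h2 (by linear_combination e00))
  obtain ⟨b, d, hb, hbd, hd⟩ := exists_ver (x := A 0 2) (y := A 1 2) (z := A 2 2)
    (mul_left_cancel₀ h2 (by linear_combination e22))
  rw [ha, hac, hc'] at e02 e01
  rw [hb, hbd, hd] at e02 e21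
  have hD : (a * d - b * c') ^ 2 = c := by linear_combination -e02
  have hD0 : a * d - b * c' ≠ 0 := by
    intro h0
    rw [h0] at hD
    exact hc (by rw [← hD]; simp)
  set μ := (-(c' * d) * A 0 1 + (a * d + b * c') * A 1 1 - a * b * A 2 1) / c with hμ
  have hμ' : c * μ = -(c' * d) * A 0 1 + (a * d + b * c') * A 1 1 - a * b * A 2 1 := by
    rw [hμ]; field_simp
  have m0 : A 0 1 = μ * (2 * a * b) := mul_left_cancel₀ hc (by
    linear_combination (-2 * a * b) * hμ' - A 0 1 * hD - a ^ 2 * e21 - b ^ 2 * e01)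
  have m1 : A 1 1 = μ * (a * d + b * c') := mul_left_cancel₀ hc (by
    linear_combination (-(a * d + b * c')) * hμ' - A 1 1 * hD - a * c' * e21 - b * d * e01)
  have m2 : A 2 1 = μ * (2 * c' * d) := mul_left_cancel₀ hc (by
    linear_combination (-2 * c' * d) * hμ' - A 2 1 * hD - c' ^ 2 * e21 - d ^ 2 * e01)
  have hm : μ * μ = 1 := by
    rw [m0, m1, m2] at e11
    exact mul_left_cancel₀ (mul_ne_zero h2 hc) (by linear_combination e11 - 2 * μ ^ 2 * hD)
  have hμ0 : μ ≠ 0 := left_ne_zero_of_mul_eq_one hm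
  refine ⟨mat a (μ * b) c' (μ * d) (by
    rw [show a * (μ * d) - μ * b * c' = μ * (a * d - b * c') by ring]
    exact mul_ne_zero hμ0 hD0), ?_⟩
  ext i j
  rw [syG_val]
  fin_cases i <;> fin_cases j <;> simp [sy, ha, hac, hc', hb, hbd, hd, m0, m1, m2]
  · ring
  · linear_combination b ^ 2 * hm
  · ring
  · linear_combination b * d * hm
  · ring
  · linear_combination d ^ 2 * hm

theorem exists_P [IsAlgClosed K] (h2 : (2 : K) ≠ 0) (S : Matrix (Fin 3) (Fin 3) K) (hs : Sᵀ = S)
    (hd : S.det ≠ 0) : ∃ P : GL (Fin 3) K, P.1ᵀ * S * P.1 = S0 := by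
  have : Invertible (2 : K) := invertibleOfNonzero h2
  have hB : LinearMap.IsSymm (Matrix.toBilin' S) := by
    refine ⟨fun x y => ?_⟩
    simp only [RingHom.id_apply, Matrix.toBilin'_apply']
    rw [dotProduct_mulVec, ← hs, vecMul_transpose, dotProduct_comm, hs]
  obtain ⟨v, hv⟩ := LinearMap.BilinForm.exists_orthogonal_basis hB
  let w := v.reindex (finCongr (show Module.finrank K (Fin 3 → K) = 3 by simp))
  let Q : Matrix (Fin 3) (Fin 3) K := (Pi.basisFun K (Fin 3)).toMatrix w
  have hQ : Q.det ≠ 0 := ((Pi.basisFun K (Fin 3)).isUnit_det w).ne_zero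
  have hQe : ∀ i j, (Qᵀ * S * Q) i j = Matrix.toBilin' S (w i) (w j) := by
    intro i j
    simp only [Matrix.toBilin'_apply, Matrix.mul_apply, transpose_apply, Q, Module.Basis.toMatrix_apply,
      Pi.basisFun_repr, Finset.sum_mul]
    rw [Finset.sum_comm]
  have hoff : ∀ i j, i ≠ j → (Qᵀ * S * Q) i j = 0 := by
    intro i j hij
    rw [hQe]
    simp only [w, Module.Basis.reindex_apply]
    exact hv (fun e => hij ((finCongr _).symm.injective e))
  set D := Qᵀ * S * Q with hD
  have hDd : D.det ≠ 0 := by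
    rw [hD, det_mul, det_mul, det_transpose]
    exact mul_ne_zero (mul_ne_zero hQ hd) hQ
  rw [det_fin_three] at hDd
  simp only [hoff 0 1 (by decide), hoff 0 2 (by decide), hoff 1 0 (by decide), hoff 1 2 (by decide),
    hoff 2 0 (by decide), hoff 2 1 (by decide), mul_zero, zero_mul, sub_zero, add_zero] at hDd
  obtain ⟨h01, h22⟩ := mul_ne_zero_iff.mp hDd
  obtain ⟨h00, h11⟩ := mul_ne_zero_iff.mp h01
  obtain ⟨x, hx⟩ := IsAlgClosed.exists_eq_mul_self (-D 0 0 / D 1 1)
  obtain ⟨z, hz⟩ := IsAlgClosed.exists_eq_mul_self (2 / D 2 2)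
  have hx' : D 1 1 * (x * x) = -D 0 0 := by rw [← hx]; field_simp
  have hz' : D 2 2 * (z * z) = 2 := by rw [← hz]; field_simp
  obtain ⟨y, hy⟩ : ∃ y, 2 * D 0 0 * y = 1 := ⟨(2 * D 0 0)⁻¹, mul_inv_cancel₀ (mul_ne_zero h2 h00)⟩
  let R : Matrix (Fin 3) (Fin 3) K := !![1, 0, -y; x, 0, x * y; 0, z, 0]
  have hR : Rᵀ * D * R = S0 := by
    ext i j
    fin_cases i <;> fin_cases j <;>
      simp [R, S0, Matrix.mul_apply, Fin.sum_univ_three, hoff 0 1 (by decide), hoff 0 2 (by decide),
        hoff 1 0 (by decide), hoff 1 2 (by decide), hoff 2 0 (by decide), hoff 2 1 (by decide)]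
    · linear_combination hx'
    · linear_combination y * hx' - hy
    · linear_combination hz'
    · linear_combination y * hx' - hy
    · linear_combination y ^ 2 * hx'
  have hP : (Q * R)ᵀ * S * (Q * R) = S0 := by
    rw [← hR, hD, transpose_mul]; simp only [Matrix.mul_assoc]
  have hPd : (Q * R).det ≠ 0 := by
    intro h0
    have := congrArg det hP
    rw [det_mul, h0, mul_zero] at this
    have h0 : (S0 : Matrix (Fin 3) (Fin 3) K).det = -2 := by simp [S0, det_fin_three]
    rw [h0] at this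
    exact h2 (neg_eq_zero.mp this.symm)
  exact ⟨GeneralLinearGroup.mkOfDetNeZero _ hPd, hP⟩

end Cfsg.Agent.H1.Conic
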