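import Cfsg.Agent.H1.Conic2

/-! Subgroups of `PSL₃(q)` preserving a conic. -/

set_option autoImplicit false

namespace Cfsg.Agent.H1.Conic

open MulAction Matrix OnePoint
open scoped MatrixGroups
open Matrix.ProjGenLinGroup (mk)
open Cfsg.Agent.H8 Cfsg.Agent.H3

variable {K : Type*} [Field K]

theorem trace_sy (g : GL (Fin 2) K) : (syG g).1.trace = tr g ^ 2 - dt g := by
  rw [syG_val, trace_fin_three]
  simp [sy, tr, dt]
  ring

theorem det_sy (g : GL (Fin 2) K) : (syG g).1.det = dt g ^ 3 := by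
  rw [syG_val, det_fin_three]
  simp [sy, dt]
  ring

theorem tr_inv (g : GL (Fin 2) K) : tr g⁻¹ = tr g / dt g := by
  have h := dt_ne g
  simp only [tr, GeneralLinearGroup.coe_inv, Matrix.inv_def, adjugate_fin_two, ← dt_eq,
    Matrix.smul_apply, Ring.inverse_eq_inv', smul_eq_mul]
  simp
  field_simp
  ring

theorem dt_inv (g : GL (Fin 2) K) : dt g⁻¹ = (dt g)⁻¹ := by
  have h := dt_mul g g⁻¹
  rw [mul_inv_cancel] at h
  have h1 : dt (1 : GL (Fin 2) K) = 1 := by simp [dt]
  rw [h1] at h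
  exact eq_inv_of_mul_eq_one_right h.symm

/-- The invariant `tr ^ 2 / det` lies in the ground field. -/
theorem inv_mem {F : Type*} [Field F] (f : F →+* K) {B : GL (Fin 2) K} {A : GL (Fin 3) F}
    {P : GL (Fin 3) K} (h : mk (syG B) = mk (P⁻¹ * GeneralLinearGroup.map f A * P)) :
    tr B ^ 2 / dt B ∈ f.fieldRange := by
  obtain ⟨c, hc, e⟩ := mk3_eq h
  have h' : mk (syG B⁻¹) = mk (P⁻¹ * GeneralLinearGroup.map f A⁻¹ * P) := by
    rw [map_inv, map_inv, h, ← map_inv]
    congr 1
    rw [map_inv]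
    group
  obtain ⟨c', hc', e'⟩ := mk3_eq h'
  have hcc : c * c' = 1 := by
    have h1 : (P⁻¹ * GeneralLinearGroup.map f A * P) * (P⁻¹ * GeneralLinearGroup.map f A⁻¹ * P) = 1 := by
      rw [map_inv]; group
    have h2 := congrArg Units.val h1
    rw [Units.val_mul, e, e', smul_mul_smul_comm, ← Units.val_mul, ← map_mul, mul_inv_cancel, map_one,
      Units.val_one] at h2
    simpa using congrFun (congrFun h2 0) 0
  have t1 : ∀ X : GL (Fin 3) F, (P⁻¹ * GeneralLinearGroup.map f X * P).1.trace = f X.1.trace := by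
    intro X
    rw [Units.val_mul, Units.val_mul, Matrix.trace_units_conj']
    exact (AddMonoidHom.map_trace f X.1).symm
  have d1 : (P⁻¹ * GeneralLinearGroup.map f A * P).1.det = f A.1.det := by
    rw [Units.val_mul, Units.val_mul, Matrix.det_units_conj']
    exact (RingHom.map_det f A.1).symm
  have a1 := t1 A
  have a2 := t1 A⁻¹
  rw [e, trace_smul, trace_sy, smul_eq_mul] at a1
  rw [e', trace_smul, trace_sy, smul_eq_mul, tr_inv, dt_inv] at a2
  rw [e, det_smul, det_sy, Fintype.card_fin] at d1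
  have hd := dt_ne B
  set u := tr B ^ 2 / dt B - 1 with hu
  have u2 : u ^ 2 = f (A.1.trace * A⁻¹.1.trace) := by
    rw [map_mul, ← a1, ← a2, mul_mul_mul_comm, hcc, hu]
    field_simp
  have u3 : u ^ 3 = f (A.1.trace ^ 3 / A.1.det) := by
    rw [map_div₀, map_pow, ← a1, ← d1, hu]
    field_simp
  have : u ∈ f.fieldRange := by
    by_cases h0 : u = 0
    · rw [h0]; exact zero_mem _
    · have : u = u ^ 3 / u ^ 2 := by field_simp
      rw [this, u2, u3]
      exact div_mem ⟨_, rfl⟩ ⟨_, rfl⟩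
  have h3 := add_mem this (one_mem f.fieldRange)
  rwa [hu, sub_add_cancel] at h3

theorem iso_comap {H X Γ : Type*} [Group H] [Group X] [Group Γ] (ψ : H →* Γ) (θ : X →* Γ)
    (hψ : Function.Injective ψ) (hθ : Function.Injective θ) (h : ψ.range ≤ θ.range) :
    Nonempty (H ≃* ψ.range.comap θ) :=
  ⟨(MonoidHom.ofInjective hψ).trans (((ψ.range.comap θ).equivMapOfInjective θ hθ).trans
    (MulEquiv.subgroupCongr (Subgroup.map_comap_eq_self h))).symm⟩

/-- Descent to a finite field. -/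
theorem descend (F : Type*) [Field F] [Fintype F] (h2 : (2 : F) ≠ 0) (H : Subgroup PSL(3, F))
    (S : Matrix (Fin 3) (Fin 3) (AlgebraicClosure F)) (hs : Sᵀ = S) (hd : S.det ≠ 0)
    (h : ∀ A : SL(3, F), (A : PSL(3, F)) ∈ H → ∃ c : AlgebraicClosure F,
      (A.1.map (algebraMap F _))ᵀ * S * A.1.map (algebraMap F _) = c • S) :
    ∃ (E : Subfield (AlgebraicClosure F)) (_ : Finite E) (G : Subgroup PGL(2, E)),
      Nonempty (H ≃* G) ∧ ∀ B : GL (Fin 2) E, mk B ∈ G →
        ((tr B ^ 2 / dt B : E) : AlgebraicClosure F) ∈ (algebraMap F (AlgebraicClosure F)).fieldRange := by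
  let L := AlgebraicClosure F
  let f := algebraMap F L
  have h2L : (2 : L) ≠ 0 := by rw [← map_ofNat f 2]; exact (map_ne_zero f).mpr h2
  obtain ⟨P, hP⟩ := exists_P h2L S hs hd
  let ψ : H →* PGL(3, L) := (MulAut.conj (mk P)⁻¹).toMonoidHom.comp
    ((ProjGenLinGroup.map f).comp (ProjectiveSpecialLinearGroup.toPGL.comp H.subtype))
  have hψ : Function.Injective ψ := (MulAut.conj (mk P)⁻¹).injective.comp
    ((map3_inj f).comp (ProjectiveSpecialLinearGroup.toPGL_injective.comp H.subtype_injective))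
  have hψe : ∀ (A : SL(3, F)) (hA : (A : PSL(3, F)) ∈ H),
      ψ ⟨A, hA⟩ = mk (P⁻¹ * GeneralLinearGroup.map f (SpecialLinearGroup.toGL A) * P) := by
    intro A hA
    simp [ψ]
  have hB : ∀ x : H, ∃ B : GL (Fin 2) L, Phi (mk B) = ψ x := by
    rintro ⟨x, hx⟩
    induction x using QuotientGroup.induction_on with | H A =>
    obtain ⟨c, hc : (A.1.map f)ᵀ * S * A.1.map f = c • S⟩ := h A hx
    obtain ⟨B, hB⟩ := exists_sy h2L (P⁻¹ * GeneralLinearGroup.map f (SpecialLinearGroup.toGL A) * P)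
      (c := c) (by
        have e1 : P.1 * (P⁻¹).1 = 1 := P.mul_inv
        have e2 : (P⁻¹).1ᵀ * P.1ᵀ = 1 := by rw [← transpose_mul, e1, transpose_one]
        have e3 : (GeneralLinearGroup.map f (SpecialLinearGroup.toGL A)).1 = A.1.map f := rfl
        rw [Units.val_mul, Units.val_mul, e3, ← hP, transpose_mul, transpose_mul]
        calc _ = P.1ᵀ * ((A.1.map f)ᵀ * ((P⁻¹).1ᵀ * P.1ᵀ) * S * (P.1 * (P⁻¹).1) * A.1.map f) * P.1 := by
              simp only [Matrix.mul_assoc]
          _ = _ := by rw [e1, e2, Matrix.mul_one, Matrix.mul_one, hc, Matrix.mul_smul, Matrix.smul_mul])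
    exact ⟨B, by rw [Phi_mk, hB, hψe]⟩
  choose B hB using hB
  let s : Set L := Set.range fun t : H × Fin 2 × Fin 2 => B t.1 t.2.1 t.2.2
  have : Finite s := Set.finite_range _
  have : FiniteDimensional F (IntermediateField.adjoin F s) :=
    IntermediateField.finiteDimensional_adjoin fun x _ => Algebra.IsIntegral.isIntegral x
  have hfin : Finite (IntermediateField.adjoin F s) := Module.finite_of_finite F
  let E : Subfield L := (IntermediateField.adjoin F s).toSubfield
  let θ : PGL(2, E) →* PGL(3, L) := Phi.comp (ProjGenLinGroup.map E.subtype)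
  have hθ : Function.Injective θ := Phi_inj.comp (pglMap_injective _)
  refine ⟨E, hfin, ψ.range.comap θ, iso_comap ψ θ hψ hθ ?_, ?_⟩
  · rintro _ ⟨x, rfl⟩
    obtain ⟨γ, hγ⟩ : mk (B x) ∈ PG E := mem_PG.mpr ⟨_, rfl, fun i j =>
      IntermediateField.subset_adjoin F s ⟨(x, i, j), rfl⟩⟩
    exact ⟨γ, by rw [← hB, ← hγ]; rfl⟩
  · rintro C ⟨⟨x, hx⟩, e⟩
    induction x using QuotientGroup.induction_on with | H A =>
    rw [hψe] at e
    have := inv_mem f (B := GeneralLinearGroup.map E.subtype C) e.symm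
    simpa [tr, dt] using this

theorem psl25 : ∃ (K : Type) (_ : Field K) (_ : Fintype K), Fintype.card K = 5 ∧
    Nonempty (alternatingGroup (Fin 5) ≃* PSL(2, K)) := by
  have : Fact (Nat.Prime 5) := ⟨Nat.prime_five⟩
  have h2 : (2 : ZMod 5) ≠ 0 := by decide +revert
  obtain ⟨M, h1, h3, ⟨e⟩⟩ := exists_A5 (F := ZMod 5) h2 ⟨0, by decide +revert⟩
  have h4 := card_Lsub h2
  rw [Nat.card_zmod] at h4
  have h5 : M = Lsub (ZMod 5) := Subgroup.eq_of_le_of_card_ge h1 (by omega)
  exact ⟨ZMod 5, inferInstance, inferInstance, by simp,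
    ⟨e.symm.trans ((MulEquiv.subgroupCongr h5).trans (pslEquiv _).symm)⟩⟩

end Cfsg.Agent.H1.Conic

namespace Cfsg.Agent.H1

open MulAction Matrix OnePoint
open scoped MatrixGroups
open Matrix.ProjGenLinGroup (mk)
open Cfsg.Agent.H8 Cfsg.Agent.H3 Conic

theorem conicPart (F : Type*) [Field F] [Fintype F] : H8.ConicPart F := by
  intro p α _ hp2 hc H hH hN S hs hd h
  have hpp : p.Prime := Fact.out
  have hα : α ≠ 0 := by
    rintro rfl
    exact absurd hc Fintype.one_lt_card.ne'
  have : CharP F p := by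
    obtain ⟨p', hp'⟩ := CharP.exists F
    obtain ⟨n', hpp', hn'⟩ := FiniteField.card F p'
    have h1 : p ∣ p' ^ (n' : ℕ) := by rw [← hn', hc]; exact dvd_pow_self _ hα
    rwa [(Nat.prime_dvd_prime_iff_eq hpp hpp').mp (hpp.dvd_of_dvd_pow h1)]
  have h2 : (2 : F) ≠ 0 := by
    intro e
    have := (CharP.cast_eq_zero_iff F p 2).mp (by exact_mod_cast e)
    exact hp2 ((Nat.prime_dvd_prime_iff_eq hpp Nat.prime_two).mp this)
  obtain ⟨E, _, G, ⟨e⟩, hG⟩ := descend F h2 H S hs hd h
  let L := AlgebraicClosure F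
  let f := algebraMap F L
  have h2L : (2 : L) ≠ 0 := by rw [← map_ofNat f 2]; exact (map_ne_zero f).mpr h2
  have : Nontrivial H := (Subgroup.nontrivial_iff_ne_bot H).mpr hH
  have hns : ¬ Group.IsSolvable G := fun hs => not_solv hN (solv_iso e hs)
  rcases dickson_ns p G hns with ⟨h5, hc60, ⟨e5⟩⟩ | ⟨k, g, hk3, hk⟩
  · right
    obtain ⟨K, _, _, hK, ⟨e6⟩⟩ := psl25
    refine ⟨?_, K, inferInstance, inferInstance, hK, ⟨e.trans (e5.trans e6)⟩⟩
    have : Fact (Nat.Prime 5) := ⟨Nat.prime_five⟩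
    obtain ⟨⟨x, hxG⟩, hx⟩ := exists_prime_orderOf_dvd_card' (G := G) 5 (by rw [hc60]; norm_num)
    rw [← Subgroup.orderOf_coe] at hx
    induction x using ProjGenLinGroup.induction_on with | mk B =>
    have hx1 : mk B ≠ 1 := by
      intro e1
      simp only [e1, orderOf_one] at hx
      omega
    have hx5 : mk B ^ (4 + 1) = 1 := by
      have := pow_orderOf_eq_one (mk B)
      rwa [hx] at this
    have hu := useq_eq_zero hx5 hx1
    simp only [useq] at hu
    obtain ⟨t, ht⟩ := hG B hxG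
    have hdB := dt_ne B
    have h6 : (2 * (tr B ^ 2 / dt B) - 3) ^ 2 = 5 := by
      field_simp
      linear_combination 4 * hu
    have h7 : (5 : F) = (2 * t - 3) * (2 * t - 3) := by
      apply f.injective
      have := congrArg E.subtype h6
      simp only [map_pow, map_sub, map_mul, map_ofNat] at this ⊢
      rw [ht, ← this, sq]
      rfl
    have h8 := (isSquare_five_iff_mod h2).mp ⟨_, h7⟩
    have h9 := odd_card_iff.mpr h2
    rw [Nat.card_eq_fintype_card, hc] at h8 h9
    have h10 : p ^ α % 5 ≠ 0 := fun e0 => h5 ((Nat.prime_dvd_prime_iff_eq Nat.prime_five hpp).mp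
      (Nat.prime_five.dvd_of_dvd_pow (Nat.dvd_of_mod_eq_zero e0))).symm
    have h11 := Nat.odd_iff.mp h9
    omega
  · left
    have hPS : cj g (PS k) ≤ G := by
      rcases hk with rfl | rfl
      · exact le_rfl
      · exact cj_mono g (PS_le_PG k)
    have hsq : ∀ s ∈ k, ((s : E) : L) ^ 2 ∈ f.fieldRange := by
      intro s hs
      have h1 : mk (mat s (-1) 1 0 (by simp)) ∈ PS k :=
        mem_PS.mpr ⟨_, rfl, fun i j => by
          fin_cases i <;> fin_cases j <;> simp [hs, k.one_mem, k.zero_mem], 1, k.one_mem, by simp⟩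
      obtain ⟨B, hB⟩ := ProjGenLinGroup.mk_surjective (g * mk (mat s (-1) 1 0 (by simp)) * g⁻¹)
      have h3 : g⁻¹ * mk B * g = mk (mat s (-1) 1 0 (by simp)) := by rw [hB]; group
      have h4 := tr_sq_conj h3
      have h5 : tr B ^ 2 / dt B = s ^ 2 := by
        rw [div_eq_iff (dt_ne B)]
        simpa [tr, dt] using h4
      have := hG B (hPS (mem_cj.mpr (h3 ▸ h1)))
      rwa [h5] at this
    have hmem : ∀ s : k, ((s : E) : L) ∈ f.fieldRange := by
      intro s
      have := div_mem (sub_mem (sub_mem (hsq _ (k.add_mem s.2 k.one_mem)) (hsq s s.2))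
        (one_mem f.fieldRange)) (ofNat_mem f.fieldRange 2)
      rwa [Subfield.coe_add, Subfield.coe_one,
        show (((s : E) : L) + 1) ^ 2 - ((s : E) : L) ^ 2 - 1 = 2 * ((s : E) : L) by ring,
        mul_div_cancel_left₀ _ h2L] at this
    let φ : k →+* F := (f.rangeRestrictFieldEquiv.symm : f.fieldRange →+* F).comp
      ((E.subtype.comp k.subtype).codRestrict f.fieldRange hmem)
    let _ := φ.toAlgebra
    have hcard : Nat.card F = Nat.card k ^ Module.finrank k F := Module.natCard_eq_pow_finrank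
    have := Fintype.ofFinite k
    obtain ⟨β, -, hβ⟩ := FiniteField.card k p
    rw [← Nat.card_eq_fintype_card] at hβ
    obtain ⟨K, _, _, hK, ⟨e1⟩, ⟨e2⟩⟩ := exists_small_PG k g
    refine ⟨K, inferInstance, inferInstance, β, hK.trans hβ, ⟨Module.finrank k F, ?_⟩, hβ ▸ hk3, ?_⟩
    · rw [Nat.card_eq_fintype_card, hc, hβ, ← pow_mul] at hcard
      exact Nat.pow_right_injective hpp.two_le hcard
    · rcases hk with rfl | rfl
      · exact Or.inl ⟨e.trans e2⟩
      · exact Or.inr ⟨e.trans e1⟩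

end Cfsg.Agent.H1
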