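import Cfsg.Agent.H1.F23A

/-! Kernel checks of the table rows (part 1). -/

set_option autoImplicit false
set_option maxRecDepth 100000
set_option Elab.async false

namespace Cfsg.Agent.H1.F23

theorem ck8 : allR chkP 8192 1024 = true := by decide +kernel
theorem ck9 : allR chkP 9216 1024 = true := by decide +kernel
theorem ck10 : allR chkP 10240 1024 = true := by decide +kernel
theorem ck11 : allR chkP 11264 1024 = true := by decide +kernel
theorem ck12 : allR chkP 12288 1024 = true := by decide +kernel
theorem ck13 : allR chkP 13312 1024 = true := by decide +kernel
theorem ck14 : allR chkP 14336 1024 = true := by decide +kernel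
theorem ck15 : allR chkP 15360 1024 = true := by decide +kernel

end Cfsg.Agent.H1.F23
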