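import Cfsg.Agent.H1.F23A

/-! Kernel checks of the table rows (part 2). -/

set_option autoImplicit false
set_option maxRecDepth 100000
set_option Elab.async false

namespace Cfsg.Agent.H1.F23

theorem ck16 : allR chkP 16384 1024 = true := by decide +kernel
theorem ck17 : allR chkP 17408 1024 = true := by decide +kernel
theorem ck18 : allR chkP 18432 1024 = true := by decide +kernel
theorem ck19 : allR chkP 19456 1024 = true := by decide +kernel
theorem ck20 : allR chkP 20480 1024 = true := by decide +kernel
theorem ck21 : allR chkP 21504 1024 = true := by decide +kernel
theorem ck22 : allR chkP 22528 1024 = true := by decide +kernel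
theorem ck23 : allR chkP 23552 1024 = true := by decide +kernel

end Cfsg.Agent.H1.F23
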