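import Cfsg.Agent.H1.F23A

/-! Kernel checks of the table rows (part 3). -/

set_option autoImplicit false
set_option maxRecDepth 100000
set_option Elab.async false

namespace Cfsg.Agent.H1.F23

theorem ck24 : allR chkP 24576 1024 = true := by decide +kernel
theorem ck25 : allR chkP 25600 1024 = true := by decide +kernel
theorem ck26 : allR chkP 26624 1024 = true := by decide +kernel
theorem ck27 : allR chkP 27648 1024 = true := by decide +kernel
theorem ck28 : allR chkP 28672 1024 = true := by decide +kernel
theorem ck29 : allR chkP 29696 1024 = true := by decide +kernel
theorem ck30 : allR chkP 30720 951 = true := by decide +kernel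

end Cfsg.Agent.H1.F23
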