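import Cfsg.Agent.H1.F23P0
import Cfsg.Agent.H1.F23P1
import Cfsg.Agent.H1.F23P2
import Cfsg.Agent.H1.F23P3

/-! The permutations given by the table satisfy the relations, and the points are transpositions. -/

set_option autoImplicit false
set_option maxRecDepth 100000

namespace Cfsg.Agent.H1.F23

open Equiv

noncomputable section

theorem brec {α : Type} (x y : α) (c : Bool) : @Bool.rec (fun _ => α) x y c = bif c then y else x := by
  cases c <;> rfl

theorem lall_iff {f : ℕ → Bool} {l : List ℕ} : lall f l = true ↔ ∀ a ∈ l, f a = true := by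
  induction l with
  | nil => simp [lall]
  | cons a l ih =>
    have : lall f (a :: l) = @Bool.rec (fun _ => Bool) false (lall f l) (f a) := rfl
    rw [this, List.forall_mem_cons, ← ih]
    cases f a <;> simp

theorem lany_iff {f : ℕ → Bool} {b : Bool} {l : List ℕ} :
    lany f b l = true ↔ (∃ a ∈ l, f a = true) ∨ b = true := by
  induction l with
  | nil => simp [lany]
  | cons a l ih =>
    have : lany f b (a :: l) = @Bool.rec (fun _ => Bool) (lany f b l) true (f a) := rfl
    rw [this, List.exists_mem_cons_iff, or_assoc, ← ih]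
    cases f a <;> simp

theorem allR_sound {f : ℕ → Bool} {a c : ℕ} (h : allR f a c = true) {n : ℕ} (h1 : a ≤ n) (h2 : n < a + c) :
    f n = true := by
  induction c with
  | zero => omega
  | succ c ih =>
    have : allR f a (c + 1) = @Bool.rec (fun _ => Bool) false (allR f a c) (f (a + c)) := rfl
    rw [this] at h
    cases hb : f (a + c)
    · rw [hb] at h; exact absurd h (by simp)
    · rw [hb] at h
      by_cases h3 : n = a + c
      · rw [h3, hb]
      · exact ih h (by omega)

theorem all_ok {p : ℕ} (hp : p < 31671) : chkP p = true := by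
  by_cases h0 : p < 1024
  · exact allR_sound ck0 (by omega) (by omega)
  by_cases h1 : p < 2048
  · exact allR_sound ck1 (by omega) (by omega)
  by_cases h2 : p < 3072
  · exact allR_sound ck2 (by omega) (by omega)
  by_cases h3 : p < 4096
  · exact allR_sound ck3 (by omega) (by omega)
  by_cases h4 : p < 5120
  · exact allR_sound ck4 (by omega) (by omega)
  by_cases h5 : p < 6144
  · exact allR_sound ck5 (by omega) (by omega)
  by_cases h6 : p < 7168
  · exact allR_sound ck6 (by omega) (by omega)
  by_cases h7 : p < 8192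
  · exact allR_sound ck7 (by omega) (by omega)
  by_cases h8 : p < 9216
  · exact allR_sound ck8 (by omega) (by omega)
  by_cases h9 : p < 10240
  · exact allR_sound ck9 (by omega) (by omega)
  by_cases h10 : p < 11264
  · exact allR_sound ck10 (by omega) (by omega)
  by_cases h11 : p < 12288
  · exact allR_sound ck11 (by omega) (by omega)
  by_cases h12 : p < 13312
  · exact allR_sound ck12 (by omega) (by omega)
  by_cases h13 : p < 14336
  · exact allR_sound ck13 (by omega) (by omega)
  by_cases h14 : p < 15360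
  · exact allR_sound ck14 (by omega) (by omega)
  by_cases h15 : p < 16384
  · exact allR_sound ck15 (by omega) (by omega)
  by_cases h16 : p < 17408
  · exact allR_sound ck16 (by omega) (by omega)
  by_cases h17 : p < 18432
  · exact allR_sound ck17 (by omega) (by omega)
  by_cases h18 : p < 19456
  · exact allR_sound ck18 (by omega) (by omega)
  by_cases h19 : p < 20480
  · exact allR_sound ck19 (by omega) (by omega)
  by_cases h20 : p < 21504
  · exact allR_sound ck20 (by omega) (by omega)
  by_cases h21 : p < 22528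
  · exact allR_sound ck21 (by omega) (by omega)
  by_cases h22 : p < 23552
  · exact allR_sound ck22 (by omega) (by omega)
  by_cases h23 : p < 24576
  · exact allR_sound ck23 (by omega) (by omega)
  by_cases h24 : p < 25600
  · exact allR_sound ck24 (by omega) (by omega)
  by_cases h25 : p < 26624
  · exact allR_sound ck25 (by omega) (by omega)
  by_cases h26 : p < 27648
  · exact allR_sound ck26 (by omega) (by omega)
  by_cases h27 : p < 28672
  · exact allR_sound ck27 (by omega) (by omega)
  by_cases h28 : p < 29696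
  · exact allR_sound ck28 (by omega) (by omega)
  by_cases h29 : p < 30720
  · exact allR_sound ck29 (by omega) (by omega)
  exact allR_sound ck30 (by omega) (by omega)

def Gn (s : ℕ) : Prop := s % 40 = 0 ∧ s < 400

instance (s : ℕ) : Decidable (Gn s) := inferInstanceAs (Decidable (_ ∧ _))

theorem mem_IL {s : ℕ} : s ∈ IL ↔ Gn s := by
  have : IL = [0, 40, 80, 120, 160, 200, 240, 280, 320, 360] := rfl
  rw [this, Gn]
  simp only [List.mem_cons, List.not_mem_nil, or_false]
  omega

theorem A_eq (s p : ℕ) : R s p &&& 32767 = A s p := by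
  show (row p >>> s &&& 1099511627775) &&& 32767 = row p >>> s &&& 32767
  rw [Nat.and_assoc]; rfl

attribute [local irreducible] row

theorem all_parts {p : ℕ} (hp : p < 31671) : lall (chk1 p) IL = true ∧ cox p = true ∧ su p = true ∧
    fo lC EC p = true ∧ fo lH EH p = true ∧ fx p = true := by
  have := all_ok hp
  simp only [chkP, Bool.and_eq_true] at this
  tauto

theorem chk1_spec {p s : ℕ} (hp : p < 31671) (hs : Gn s) : A s p < 31671 ∧
    R s (A s p) ^^^ R s p = p ^^^ A s p ∧ (p ≤ A s p → just p s (R s p) (A s p) = true) := by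
  have h := lall_iff.1 (all_parts hp).1 s (mem_IL.2 hs)
  simp only [chk1, frc_eq, brec] at h
  have e : Nat.land (R s p) 32767 = A s p := A_eq s p
  rw [e] at h
  cases h1 : Nat.ble (A s p) 31670
  · rw [h1] at h; exact absurd h (by simp)
  rw [h1, cond_true] at h
  cases h2 : Nat.beq (Nat.xor (R s (A s p)) (R s p)) (Nat.xor p (A s p))
  · rw [h2] at h; exact absurd h (by simp)
  rw [h2, cond_true] at h
  refine ⟨Nat.lt_succ_of_le (Nat.le_of_ble_eq_true h1), Nat.eq_of_beq_eq_true h2, fun h3 => ?_⟩
  rwa [Nat.ble_eq_true_of_le h3, cond_true] at h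

theorem A_lt {p s : ℕ} (hp : p < 31671) (hs : Gn s) : A s p < 31671 := (chk1_spec hp hs).1

theorem R_mirror {p s : ℕ} (hp : p < 31671) (hs : Gn s) : R s (A s p) = (p ^^^ A s p) ^^^ R s p := by
  rw [← (chk1_spec hp hs).2.1, Nat.xor_assoc, Nat.xor_self, Nat.xor_zero]

theorem xor_small {p s : ℕ} (hp : p < 31671) (hs : Gn s) : p ^^^ A s p < 2 ^ 15 :=
  Nat.xor_lt_two_pow (by omega) (by have := A_lt hp hs; omega)

theorem A_A {p s : ℕ} (hp : p < 31671) (hs : Gn s) : A s (A s p) = p := by
  rw [← A_eq s (A s p), R_mirror hp hs, Nat.and_xor_distrib_right, A_eq,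
    show (32767 : ℕ) = 2 ^ 15 - 1 from rfl, Nat.and_two_pow_sub_one_eq_mod, Nat.mod_eq_of_lt (xor_small hp hs),
    Nat.xor_assoc, Nat.xor_self, Nat.xor_zero]

theorem R_time {p s : ℕ} (hp : p < 31671) (hs : Gn s) : R s (A s p) >>> 20 = R s p >>> 20 := by
  rw [R_mirror hp hs, Nat.shiftRight_xor_distrib, Nat.shiftRight_eq_zero _ _ (lt_trans (xor_small hp hs)
    (by norm_num)), Nat.zero_xor]

def sf (s p : ℕ) : ℕ := if p < 31671 ∧ Gn s then A s p else p

theorem sf_invol (s : ℕ) : Function.Involutive (sf s) := fun p => by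
  unfold sf
  by_cases h : p < 31671 ∧ Gn s
  · rw [if_pos h, if_pos ⟨A_lt h.1 h.2, h.2⟩, A_A h.1 h.2]
  · rw [if_neg h, if_neg h]

/-- the generators -/
def sg (s : ℕ) : Perm ℕ := (sf_invol s).toPerm

theorem sg_apply {p s : ℕ} (hp : p < 31671) (hs : Gn s) : sg s p = A s p := if_pos ⟨hp, hs⟩

theorem sg_out (s : ℕ) {p : ℕ} (hp : 31671 ≤ p) : sg s p = p := if_neg fun h => by omega

theorem sg_sq (s : ℕ) : sg s * sg s = 1 := Equiv.ext (sf_invol s)

theorem sg_inv (s : ℕ) : (sg s)⁻¹ = sg s := inv_eq_of_mul_eq_one_right (sg_sq s)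

def ev : List ℕ → Perm ℕ
  | [] => 1
  | s :: l => ev l * sg s

def Vw (l : List ℕ) : Prop := ∀ s ∈ l, Gn s

instance (l : List ℕ) : Decidable (Vw l) := inferInstanceAs (Decidable (∀ s ∈ l, _))

theorem Vw.append {l l' : List ℕ} (h : Vw l) (h' : Vw l') : Vw (l ++ l') :=
  fun s hs => (List.mem_append.1 hs).elim (h s) (h' s)

theorem Vw.rev {l : List ℕ} (h : Vw l) : Vw l.reverse := fun s hs => h s (List.mem_reverse.1 hs)

theorem aw_cons (s : ℕ) (l : List ℕ) (p : ℕ) : aw (s :: l) p = aw l (A s p) := rfl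

theorem ev_apply {l : List ℕ} (hl : Vw l) {p : ℕ} (hp : p < 31671) : ev l p = aw l p ∧ aw l p < 31671 := by
  induction l generalizing p with
  | nil => exact ⟨rfl, hp⟩
  | cons s l ih =>
    have hs := hl s (List.mem_cons_self ..)
    rw [aw_cons, ev, Perm.mul_apply, sg_apply hp hs]
    exact ih (fun a ha => hl a (List.mem_cons_of_mem _ ha)) (A_lt hp hs)

theorem ev_out (l : List ℕ) {p : ℕ} (hp : 31671 ≤ p) : ev l p = p := by
  induction l with
  | nil => rfl
  | cons s l ih => rw [ev, Perm.mul_apply, sg_out s hp, ih]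

theorem ev_append (l l' : List ℕ) : ev (l ++ l') = ev l' * ev l := by
  induction l with
  | nil => simp [ev]
  | cons s l ih => rw [List.cons_append, ev, ev, ih, mul_assoc]

theorem ev_reverse (l : List ℕ) : ev l.reverse = (ev l)⁻¹ := by
  induction l with
  | nil => simp [ev]
  | cons s l ih => rw [List.reverse_cons, ev_append, ih, ev, ev, ev, one_mul, mul_inv_rev, sg_inv]

/-! ### the relations -/

theorem cl_ok : IL.all (fun s => IL.all fun s' => decide (s' ≤ s) ||
    (bif adj s s' then (bl s).contains s' else (cl s).contains s')) = true := by decide +kernel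

theorem cox_spec {p s s' : ℕ} (hp : p < 31671) (hs : Gn s) (hs' : Gn s') (h : s < s') (h1 : p ≤ A s p)
    (h2 : p ≤ A s' p) : if adj s s' = true then A s (A s' (A s p)) = A s' (A s (A s' p))
      else A s' (A s p) = A s (A s' p) := by
  have h3 := lall_iff.1 (all_parts hp).2.1 s (mem_IL.2 hs)
  have h4 := List.all_eq_true.1 (List.all_eq_true.1 cl_ok s (mem_IL.2 hs)) s' (mem_IL.2 hs')
  simp only [brec, Nat.ble_eq_true_of_le h1, cond_true] at h3
  rw [decide_eq_false (by omega), Bool.false_or] at h4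
  cases h5 : lall (cm p s) (cl s)
  · rw [h5] at h3; exact absurd h3 (by simp)
  rw [h5, cond_true] at h3
  cases h6 : adj s s'
  · rw [h6, cond_false, List.contains_iff_mem] at h4
    have := lall_iff.1 h5 s' h4
    simp only [cm, brec, Nat.ble_eq_true_of_le h2, cond_true] at this
    simpa using Nat.eq_of_beq_eq_true this
  · rw [h6, cond_true, List.contains_iff_mem] at h4
    have := lall_iff.1 h3 s' h4
    simp only [br, brec, frc_eq, Nat.ble_eq_true_of_le h2, cond_true] at this
    simpa using Nat.eq_of_beq_eq_true this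

theorem eq_one_of_min {r x y : Perm ℕ} (hx : x * x = 1) (hy : y * y = 1) (h1 : x * r * x = r⁻¹)
    (h2 : y * r * y = r⁻¹) (h3 : ∀ p, p ≤ x p → p ≤ y p → r p = p) : r = 1 := by
  have key : ∀ z : Perm ℕ, z * z = 1 → z * r * z = r⁻¹ → ∀ p, r (z p) = z p → r p = p := fun z hz h p e => by
    have e1 : r⁻¹ p = p := by
      rw [← h, Perm.mul_apply, Perm.mul_apply, e, ← Perm.mul_apply, hz]; rfl
    conv_lhs => rw [← e1]
    simp
  ext p
  induction p using Nat.strong_induction_on with
  | _ p ih =>
    by_cases a1 : x p < p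
    · exact key x hx h1 p (ih _ a1)
    by_cases a2 : y p < p
    · exact key y hy h2 p (ih _ a2)
    exact h3 p (by omega) (by omega)

theorem adj_symm (s s' : ℕ) : adj s s' = adj s' s := by
  simp only [adj, Bool.or_comm]

theorem sg_comm {s s' : ℕ} (hs : Gn s) (hs' : Gn s') (h : adj s s' = false) : sg s * sg s' = sg s' * sg s := by
  wlog hl : s < s' generalizing s s'
  · rcases (not_lt.1 hl).eq_or_lt with rfl | hl
    · rfl
    · exact (this hs' hs (adj_symm s s' ▸ h) hl).symm
  have hx := sg_sq s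
  have hy := sg_sq s'
  have : sg s * sg s' * sg s * sg s' = 1 := by
    refine eq_one_of_min hx hy ?_ ?_ fun p h1 h2 => ?_
    · simp only [mul_inv_rev, sg_inv, ← mul_assoc, hx, one_mul]
    · simp only [mul_inv_rev, sg_inv, mul_assoc, hy, mul_one]
    · by_cases hp : p < 31671
      · rw [sg_apply hp hs] at h1
        rw [sg_apply hp hs'] at h2
        have h3 := cox_spec hp hs hs' hl h1 h2
        rw [if_neg (by simp [h])] at h3
        simp only [Perm.mul_apply]
        rw [sg_apply hp hs', sg_apply (A_lt hp hs') hs, ← h3, sg_apply (A_lt (A_lt hp hs) hs') hs',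
          A_A (A_lt hp hs) hs', sg_apply (A_lt hp hs) hs, A_A hp hs]
      · simp only [Perm.mul_apply, sg_out _ (not_lt.1 hp)]
  calc _ = (sg s * sg s' * sg s * sg s') * (sg s' * sg s) := by
        simp only [mul_assoc, ← mul_assoc (sg s') (sg s'), hy, one_mul, hx, mul_one]
    _ = _ := by rw [this, one_mul]

theorem sg_braid {s s' : ℕ} (hs : Gn s) (hs' : Gn s') (h : adj s s' = true) :
    sg s * sg s' * sg s = sg s' * sg s * sg s' := by
  wlog hl : s < s' generalizing s s'
  · rcases (not_lt.1 hl).eq_or_lt with rfl | hl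
    · rfl
    · exact (this hs' hs (adj_symm s s' ▸ h) hl).symm
  have hx := sg_sq s
  have hy := sg_sq s'
  have : sg s * sg s' * sg s * sg s' * sg s * sg s' = 1 := by
    refine eq_one_of_min hx hy ?_ ?_ fun p h1 h2 => ?_
    · simp only [mul_inv_rev, sg_inv, ← mul_assoc, hx, one_mul]
    · simp only [mul_inv_rev, sg_inv, mul_assoc, hy, mul_one]
    · by_cases hp : p < 31671
      · rw [sg_apply hp hs] at h1
        rw [sg_apply hp hs'] at h2
        have h3 := cox_spec hp hs hs' hl h1 h2
        rw [if_pos h] at h3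
        simp only [Perm.mul_apply]
        have a1 := A_lt hp hs
        have a2 := A_lt a1 hs'
        rw [sg_apply hp hs', sg_apply (A_lt hp hs') hs, sg_apply (A_lt (A_lt hp hs') hs) hs', ← h3,
          sg_apply (A_lt a2 hs) hs, A_A a2 hs, sg_apply a2 hs', A_A a1 hs', sg_apply a1 hs, A_A hp hs]
      · simp only [Perm.mul_apply, sg_out _ (not_lt.1 hp)]
  calc _ = (sg s * sg s' * sg s * sg s' * sg s * sg s') * (sg s' * sg s * sg s') := by
        simp only [mul_assoc, ← mul_assoc (sg s') (sg s'), hy, one_mul, ← mul_assoc (sg s) (sg s), hx, mul_one]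
    _ = _ := by rw [this, one_mul]

theorem pw_sound {s M : ℕ} {π : Perm ℕ} (hπ : ∀ p < 31671, π p = A s p ∧ A s p < 31671) {p : ℕ}
    (hp : p < 31671) (ih : ∀ q < p, (π ^ M) q = q) (m k : ℕ) (hk : m + k = M) (hc : (π ^ k) p < 31671)
    (h : pw s p m ((π ^ k) p) = true) : (π ^ M) p = p := by
  induction m generalizing k with
  | zero =>
    rw [← hk, zero_add]; exact Nat.eq_of_beq_eq_true h
  | succ m ihm =>
    have e : pw s p (m + 1) ((π ^ k) p) = @Bool.rec (fun _ => Bool) true (pw s p m (A s ((π ^ k) p)))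
      (Nat.ble p ((π ^ k) p)) := rfl
    rw [e] at h
    by_cases h1 : (π ^ k) p < p
    · have := ih _ h1
      rw [← Perm.mul_apply, ← pow_add, add_comm, pow_add, Perm.mul_apply] at this
      exact (π ^ k).injective this
    · rw [Nat.ble_eq_true_of_le (not_lt.1 h1)] at h
      have h2 : (π ^ (k + 1)) p = A s ((π ^ k) p) := by rw [pow_succ', Perm.mul_apply, (hπ _ hc).1]
      exact ihm (k + 1) (by omega) (h2 ▸ (hπ _ hc).2) (h2 ▸ h)

theorem pow_rel {s M : ℕ} {w : List ℕ} (hw : Vw w) (h1 : ∀ p < 31671, A s p = aw w p)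
    (h2 : ∀ p < 31671, pw s p M p = true) : ev w ^ M = 1 := by
  ext p
  induction p using Nat.strong_induction_on with
  | _ p ih =>
    by_cases hp : p < 31671
    · exact pw_sound (s := s) (fun q hq => by rw [h1 q hq]; exact ev_apply hw hq) hp ih M 0 rfl hp (h2 p hp)
    · exact Perm.pow_apply_eq_self_of_apply_eq_self (ev_out w (not_lt.1 hp)) M

theorem su_spec {p : ℕ} (hp : p < 31671) : A 400 p = aw wS p ∧ A 415 p = aw wU p ∧ pw 400 p 10 p = true ∧
    pw 415 p 9 p = true := by
  have := (all_parts hp).2.2.1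
  simp only [su, Bool.and_eq_true, Nat.beq_eq] at this
  tauto

theorem relS : ev wS ^ 10 = 1 :=
  pow_rel (by decide) (fun _ hp => (su_spec hp).1) fun _ hp => (su_spec hp).2.2.1

theorem relU : ev wU ^ 9 = 1 :=
  pow_rel (by decide) (fun _ hp => (su_spec hp).2.1) fun _ hp => (su_spec hp).2.2.2

def dec : ℕ → ℕ → List ℕ
  | 0, _ => []
  | m + 1, w => (w &&& 511) :: dec m (w >>> 9)

def rep (m : ℕ) (w : List ℕ) : List ℕ := (List.replicate m w).flatten

theorem ev_rep (m : ℕ) (w : List ℕ) : ev (rep m w) = ev w ^ m := by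
  induction m with
  | zero => simp [rep, ev]
  | succ m ih =>
    rw [rep, List.replicate_succ, List.flatten_cons, ev_append, pow_succ]
    exact congrArg (· * ev w) ih

def rotOK (m : ℕ) (w l : List ℕ) : Bool :=
  (List.range w.length).any fun k => l == rep m (w.drop k ++ w.take k)

theorem rot_sound {m : ℕ} {w l : List ℕ} (hw : ev w ^ m = 1) (h : rotOK m w l = true) : ev l = 1 := by
  obtain ⟨k, -, h⟩ := List.any_eq_true.1 h
  rw [← List.take_append_drop k w, ev_append] at hw
  rw [beq_iff_eq.1 h, ev_rep, ev_append]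
  generalize ev (w.take k) = a at hw ⊢
  generalize ev (w.drop k) = b at hw ⊢
  rw [show a * b = a * (b * a) * a⁻¹ by group, conj_pow, hw]; group

def relOK (s s' : ℕ) (l : List ℕ) : Bool :=
  l == [s, s] || l == rep (bif adj s s' then 3 else 2) [s, s'] || rotOK 9 wU l || rotOK 9 wU.reverse l ||
    rotOK 10 wS l || rotOK 10 wS.reverse l

theorem rw_ok : IL.all (fun s => (List.range 32).all fun j =>
    decide (Vw (dec (rw (s + j) &&& 127) (rw (s + j) >>> 7))) && decide (Gn ((rw (s + j) >>> 7) &&& 511)) &&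
    relOK s ((rw (s + j) >>> 7) &&& 511) (s :: dec (rw (s + j) &&& 127) (rw (s + j) >>> 7))) = true := by
  decide +kernel

theorem rw_spec {s j : ℕ} (hs : Gn s) (hj : j < 32) : Vw (dec (rw (s + j) &&& 127) (rw (s + j) >>> 7)) ∧
    ev (dec (rw (s + j) &&& 127) (rw (s + j) >>> 7)) = sg s := by
  have h := List.all_eq_true.1 (List.all_eq_true.1 rw_ok s (mem_IL.2 hs)) j (List.mem_range.2 hj)
  simp only [Bool.and_eq_true, decide_eq_true_eq] at h
  obtain ⟨⟨h1, hs'⟩, h⟩ := h
  refine ⟨h1, ?_⟩
  generalize dec (rw (s + j) &&& 127) (rw (s + j) >>> 7) = l at h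
  generalize (rw (s + j) >>> 7) &&& 511 = s' at h hs'
  suffices ev (s :: l) = 1 by
    rw [ev, mul_eq_one_iff_eq_inv, sg_inv] at this; exact this
  simp only [relOK, Bool.or_eq_true, beq_iff_eq] at h
  rcases h with ((((h | h) | h) | h) | h) | h
  · rw [h]; simp [ev, sg_sq]
  · rw [h, ev_rep]
    simp only [ev, one_mul]
    cases ha : adj s s'
    · rw [cond_false, sq, mul_assoc, ← mul_assoc (sg s), sg_comm hs hs' ha]
      simp only [mul_assoc, sg_sq, mul_one]
    · rw [cond_true, pow_three]
      calc _ = (sg s' * sg s * sg s') * (sg s * sg s' * sg s) := by simp only [mul_assoc]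
        _ = _ := by
          rw [← sg_braid hs hs' ha]
          simp only [mul_assoc, ← mul_assoc (sg s) (sg s), ← mul_assoc (sg s') (sg s'), sg_sq, one_mul]
  · exact rot_sound relU h
  · exact rot_sound (by rw [ev_reverse, inv_pow, relU, inv_one]) h
  · exact rot_sound relS h
  · exact rot_sound (by rw [ev_reverse, inv_pow, relS, inv_one]) h

/-! ### the transpositions -/

/-- the transposition attached to a point -/
def dd (p : ℕ) : Perm ℕ :=
  if p < 10 then sg (40 * p)
  else if _h : A (dg p) p < p then sg (dg p) * dd (A (dg p) p) * sg (dg p) else 1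

def Val (p s : ℕ) : Prop := sg s * dd p * sg s = dd (A s p)

theorem dd_lab {p : ℕ} (hp : p < 10) : dd p = sg (40 * p) := by rw [dd, if_pos hp]

theorem dd_def {y s : ℕ} (hy : 10 ≤ y) (h : dg y = s) (h' : A s y < y) : dd y = sg s * dd (A s y) * sg s := by
  subst h
  rw [dd, if_neg (by omega), dif_pos h']

theorem ax_ok : IL.all (fun s => (List.range 10).all fun p => bif adj s (40 * p) then
    decide (10 ≤ A s p) && (dg (A s p) == s || (dg (A s p) == 40 * p && A (40 * p) (A s p) == s / 40))
    else A s p == p) = true := by decide +kernel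

theorem val_lab {p s : ℕ} (hp : p < 10) (hs : Gn s) : Val p s := by
  have h := List.all_eq_true.1 (List.all_eq_true.1 ax_ok s (mem_IL.2 hs)) p (List.mem_range.2 hp)
  have hs' : Gn (40 * p) := ⟨by omega, by omega⟩
  unfold Val
  cases ha : adj s (40 * p)
  · rw [ha, cond_false, beq_iff_eq] at h
    rw [h, dd_lab hp, sg_comm hs hs' ha, mul_assoc, sg_sq, mul_one]
  · rw [ha, cond_true] at h
    simp only [Bool.and_eq_true, Bool.or_eq_true, decide_eq_true_eq, beq_iff_eq] at h
    rcases h with ⟨h1, h | ⟨h, h'⟩⟩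
    · have := A_A (p := p) (by omega) hs
      rw [dd_def h1 h (by omega), this]
    · have := hs.2
      rw [dd_def h1 h (by omega), h', dd_lab hp, dd_lab (by omega), show 40 * (s / 40) = s by
        have := hs.1; omega, sg_braid hs hs' ha]

theorem walk_sound {t tgt : ℕ} (ih : ∀ q < 31671, ∀ s, Gn s → R s q < t → Val q s) (m w cur : ℕ)
    (h : walk t tgt m w cur = true) (hc : cur < 31671) (hw : Vw (dec m w)) :
    ev (dec m w) * dd cur * (ev (dec m w))⁻¹ = dd tgt := by
  induction m generalizing w cur with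
  | zero => simp [dec, ev, Nat.eq_of_beq_eq_true h]
  | succ m ihm =>
    have e : walk t tgt (m + 1) w cur = @Bool.rec (fun _ => Bool)
      (walk t tgt m (w >>> 9) (R (w &&& 511) cur &&& 32767)) false (Nat.ble t (R (w &&& 511) cur)) := rfl
    rw [e, A_eq] at h
    have hs : Gn (w &&& 511) := hw _ (List.mem_cons_self ..)
    cases h1 : Nat.ble t (R (w &&& 511) cur)
    · rw [h1] at h
      have h2 := ih cur hc _ hs (not_le.1 fun h3 => by rw [Nat.ble_eq_true_of_le h3] at h1; simp at h1)
      rw [← ihm _ _ h (A_lt hc hs) fun a ha => hw a (List.mem_cons_of_mem _ ha), ← h2, dec, ev, mul_inv_rev, sg_inv]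
      simp only [mul_assoc]
    · rw [h1] at h; exact absurd h (by simp)

theorem val_mirror {p s : ℕ} (hp : p < 31671) (hs : Gn s) (h : Val (A s p) s) : Val p s := by
  unfold Val at h ⊢
  rw [A_A hp hs] at h
  rw [← h]
  simp only [mul_assoc, sg_sq, mul_one, ← mul_assoc (sg s) (sg s), one_mul]

theorem val_le {p s : ℕ} (hp : p < 31671) (hs : Gn s) (hle : p ≤ A s p)
    (ih : ∀ q < 31671, ∀ s', Gn s' → R s' q >>> 20 < R s p >>> 20 → Val q s') : Val p s := by
  have h := (chk1_spec hp hs).2.2 hle
  simp only [just, frc_eq, brec] at h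
  by_cases h10 : p < 10
  · exact val_lab h10 hs
  cases h1 : Nat.beq (Nat.land (Nat.shiftRight (R s p) 15) 31) 0
  · rw [h1, cond_false] at h
    have hj : Nat.land (Nat.shiftRight (R s p) 15) 31 < 32 := Nat.lt_succ_of_le Nat.and_le_right
    obtain ⟨h2, h3⟩ := rw_spec hs hj
    have := walk_sound (fun q hq s' hs' hlt => ih q hq s' hs' (by
      have hlt' : R s' q < R s p >>> 20 <<< 20 := hlt
      rw [Nat.shiftLeft_eq] at hlt'
      rw [Nat.shiftRight_eq_div_pow (R s' q)]
      exact (Nat.div_lt_iff_lt_mul (by norm_num)).2 hlt')) _ _ _ h (A_lt hp hs) h2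
    refine val_mirror hp hs ?_
    unfold Val
    rw [A_A hp hs, ← this]
    change _ = ev (dec (rw (s + _) &&& 127) (rw (s + _) >>> 7)) * _ * (ev (dec (rw (s + _) &&& 127) (rw (s + _) >>> 7)))⁻¹
    rw [h3, sg_inv]
  · rw [h1, cond_true] at h
    simp only [Bool.or_eq_true, Bool.and_eq_true, Nat.blt_eq, Nat.beq_eq] at h
    rcases h with h | ⟨h2, h3⟩
    · exact absurd h h10
    · have := A_A hp hs
      unfold Val
      rw [dd_def (by omega) h3 (by omega), this]

theorem val_all {p s : ℕ} (hp : p < 31671) (hs : Gn s) : Val p s := by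
  induction ht : R s p >>> 20 using Nat.strong_induction_on generalizing p s with
  | _ t ih =>
    by_cases h : p ≤ A s p
    · exact val_le hp hs h fun q hq s' hs' hlt => ih _ (ht ▸ hlt) hq hs' rfl
    · refine val_mirror hp hs (val_le (A_lt hp hs) hs (by rw [A_A hp hs]; omega) fun q hq s' hs' hlt => ?_)
      exact ih _ (by rw [← ht, ← R_time hp hs]; exact hlt) hq hs' rfl

theorem dd_ev {l : List ℕ} (hl : Vw l) {p : ℕ} (hp : p < 31671) : ev l * dd p * (ev l)⁻¹ = dd (aw l p) := by
  induction l generalizing p with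
  | nil => simp [ev]; rfl
  | cons s l ih =>
    have hs := hl s (List.mem_cons_self ..)
    rw [aw_cons, ← ih (fun a ha => hl a (List.mem_cons_of_mem _ ha)) (A_lt hp hs), ← val_all hp hs, ev,
      mul_inv_rev, sg_inv]
    simp only [mul_assoc]

/-- the group -/
def G0 : Subgroup (Perm ℕ) := Subgroup.closure {g | ∃ s, Gn s ∧ sg s = g}

theorem sg_mem {s : ℕ} (hs : Gn s) : sg s ∈ G0 := Subgroup.subset_closure ⟨s, hs, rfl⟩

theorem ev_mem_of {K : Subgroup (Perm ℕ)} {l : List ℕ} (h : ∀ s ∈ l, sg s ∈ K) : ev l ∈ K := by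
  induction l with
  | nil => exact one_mem _
  | cons s l ih => exact mul_mem (ih fun a ha => h a (List.mem_cons_of_mem _ ha)) (h s (List.mem_cons_self ..))

theorem ev_mem {l : List ℕ} (hl : Vw l) : ev l ∈ G0 := ev_mem_of fun s hs => sg_mem (hl s hs)

theorem exists_word {g : Perm ℕ} (hg : g ∈ G0) : ∃ l, Vw l ∧ ev l = g := by
  induction hg using Subgroup.closure_induction with
  | mem x hx =>
    obtain ⟨s, hs, rfl⟩ := hx
    exact ⟨[s], fun a ha => by rw [List.mem_singleton.1 ha]; exact hs, by simp [ev]⟩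
  | one => exact ⟨[], fun a ha => by simp at ha, rfl⟩
  | mul x y _ _ hx hy =>
    obtain ⟨l, h1, rfl⟩ := hx
    obtain ⟨l', h2, rfl⟩ := hy
    exact ⟨l' ++ l, h2.append h1, ev_append _ _⟩
  | inv x _ hx =>
    obtain ⟨l, h1, rfl⟩ := hx
    exact ⟨l.reverse, h1.rev, ev_reverse _⟩

theorem G0_lt {g : Perm ℕ} (hg : g ∈ G0) {p : ℕ} (hp : p < 31671) : g p < 31671 := by
  obtain ⟨l, hl, rfl⟩ := exists_word hg
  rw [(ev_apply hl hp).1]; exact (ev_apply hl hp).2

theorem G0_out {g : Perm ℕ} (hg : g ∈ G0) {p : ℕ} (hp : 31671 ≤ p) : g p = p := by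
  obtain ⟨l, -, rfl⟩ := exists_word hg
  exact ev_out l hp

theorem dd_conj {g : Perm ℕ} (hg : g ∈ G0) {p : ℕ} (hp : p < 31671) : g * dd p * g⁻¹ = dd (g p) := by
  obtain ⟨l, hl, rfl⟩ := exists_word hg
  rw [(ev_apply hl hp).1]; exact dd_ev hl hp

instance : Finite G0 :=
  Finite.of_injective (fun (g : G0) (p : Fin 31671) => (⟨g.1 p, G0_lt g.2 p.2⟩ : Fin 31671)) fun g g' h =>
    Subtype.ext (Equiv.ext fun p => by
      by_cases hp : p < 31671
      · exact congrArg Fin.val (congrFun h ⟨p, hp⟩)
      · rw [G0_out g.2 (not_lt.1 hp), G0_out g'.2 (not_lt.1 hp)])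

end

end Cfsg.Agent.H1.F23
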