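import Cfsg.Agent.H2.Perf1

/-! Perfect groups acting on small configurations. -/

set_option autoImplicit false

namespace Cfsg.Agent.H1.F23

theorem small {P : Type*} [Group P] [Finite P] (hP : commutator P = ⊤) {Z : Type*} [MulAction P Z] (Y : Set Z)
    (hY : ∀ g : P, ∀ y ∈ Y, g • y ∈ Y) (f : Z → ℕ) (hf : ∀ y ∈ Y, f y < 4)
    (hk : ∀ g : P, ∀ x ∈ Y, ∀ y ∈ Y, f x = f y → f (g • x) = f (g • y)) (g : P) {y : Z} (hy : y ∈ Y) :
    f (g • y) = f y := by
  let N : Subgroup P :=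
    { carrier := {g | f (g • y) = f y}
      one_mem' := by simp
      mul_mem' := fun {a b} ha hb => by
        show f ((a * b) • y) = f y
        rw [mul_smul, hk a _ (hY b y hy) _ hy hb]; exact ha
      inv_mem' := fun {a} ha => by
        have := hk a⁻¹ _ (hY a y hy) _ hy ha
        rw [inv_smul_smul] at this; exact this.symm }
  have key : ∀ a b : P, a⁻¹ * b ∈ N ↔ f (a • y) = f (b • y) := fun a b => by
    constructor
    · intro h
      have := hk a _ (hY _ y hy) _ hy h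
      rw [smul_smul, mul_inv_cancel_left] at this; exact this.symm
    · intro h
      have := hk a⁻¹ _ (hY _ y hy) _ (hY _ y hy) h
      rw [inv_smul_smul, smul_smul] at this; exact this.symm
  have hN : N.index ≤ 4 := by
    have := Nat.card_le_card_of_injective (α := P ⧸ N) (β := Fin 4)
      (Quotient.lift (fun a : P => (⟨f (a • y), hf _ (hY a y hy)⟩ : Fin 4)) fun a b h =>
        Fin.ext ((key a b).1 (QuotientGroup.leftRel_apply.1 h))) (by
        rintro ⟨a⟩ ⟨b⟩ h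
        exact QuotientGroup.eq.2 ((key a b).2 (congrArg Fin.val h)))
    rw [Nat.card_fin] at this
    exact this
  have : g ∈ N := (H2.eq_top_of_index_le_four hP N hN) ▸ Subgroup.mem_top g
  exact this

def thd (x y : ℕ) : ℕ := (6 - x / 3 - y / 3) % 3 * 3 + (6 - x % 3 - y % 3) % 3

def dir (u v : ℕ) : ℕ := if u / 3 = v / 3 then 0 else if u % 3 = v % 3 then 1
  else if (3 + u / 3 - v / 3) % 3 = (3 + u % 3 - v % 3) % 3 then 2 else 3

def onL (u v w : ℕ) : Bool := w == u || w == v || w == thd u v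

theorem dir_ok : (List.range 9).all (fun u => (List.range 9).all fun v => (List.range 9).all fun u' =>
    (List.range 9).all fun v' => u == v || u' == v' || (dir u v == dir u' v') ==
      (onL u v u' == onL u v v' && onL u v u' == onL u v (thd u' v'))) = true := by decide +kernel

theorem dir_iff : ∀ u < 9, ∀ v < 9, ∀ u' < 9, ∀ v' < 9, u ≠ v → u' ≠ v' → (dir u v = dir u' v' ↔
    ((u' = u ∨ u' = v ∨ u' = thd u v) ↔ (v' = u ∨ v' = v ∨ v' = thd u v)) ∧
    ((u' = u ∨ u' = v ∨ u' = thd u v) ↔ (thd u' v' = u ∨ thd u' v' = v ∨ thd u' v' = thd u v))) := by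
  intro u hu v hv u' hu' v' hv' h h'
  have := dir_ok
  simp only [List.all_eq_true, List.mem_range] at this
  have := this u hu v hv u' hu' v' hv'
  have e : ∀ w, (w = u ∨ w = v ∨ w = thd u v) ↔ onL u v w = true := fun w => by simp [onL, or_assoc]
  rw [beq_false_of_ne h, beq_false_of_ne h', Bool.false_or, Bool.false_or, beq_iff_eq] at this
  rw [e, e, e, ← Bool.eq_iff_iff, ← Bool.eq_iff_iff, ← beq_iff_eq, this]
  simp

theorem dir_lt (u v : ℕ) : dir u v < 4 := by unfold dir; split_ifs <;> norm_num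

theorem dir_zero : ∀ u < 9, ∀ v < 9, (u / 3 = v / 3 ↔ u = v ∨ dir u v = 0) ∧
    (u % 3 = v % 3 ↔ u = v ∨ dir u v = 1) := by decide +kernel

/-- a perfect group acts trivially on an affine plane of order three -/
theorem ag {P : Type*} [Group P] [Finite P] (hP : commutator P = ⊤) {Z : Type*} [MulAction P Z] (Y : Set Z)
    (hY : ∀ g : P, ∀ y ∈ Y, g • y ∈ Y) (o : Z → Z → Z) (hoY : ∀ x ∈ Y, ∀ y ∈ Y, o x y ∈ Y)
    (ho : ∀ g : P, ∀ x ∈ Y, ∀ y ∈ Y, g • o x y = o (g • x) (g • y)) (f : Z → ℕ) (hf : ∀ y ∈ Y, f y < 9)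
    (hth : ∀ x ∈ Y, ∀ y ∈ Y, f (o x y) = thd (f x) (f y))
    (hk : ∀ g : P, ∀ x ∈ Y, ∀ y ∈ Y, f x = f y → f (g • x) = f (g • y)) (g : P) {y : Z} (hy : y ∈ Y) :
    f (g • y) = f y := by
  have hk' : ∀ g : P, ∀ x ∈ Y, ∀ y ∈ Y, (f (g • x) = f (g • y) ↔ f x = f y) := fun g x hx y hy =>
    ⟨fun h => by simpa using hk g⁻¹ _ (hY g x hx) _ (hY g y hy) h, hk g x hx y hy⟩
  have h1 : ∀ g : P, ∀ x ∈ Y, ∀ y ∈ Y, f x ≠ f y → dir (f (g • x)) (f (g • y)) = dir (f x) (f y) :=
    fun g x hx y hy hne => small hP (Z := Z × Z) {z | z.1 ∈ Y ∧ z.2 ∈ Y ∧ f z.1 ≠ f z.2}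
      (fun g z hz => ⟨hY g _ hz.1, hY g _ hz.2.1, fun e => hz.2.2 ((hk' g _ hz.1 _ hz.2.1).1 e)⟩)
      (fun z => dir (f z.1) (f z.2)) (fun z _ => dir_lt _ _) (fun g z hz z' hz' e => by
        obtain ⟨a, b⟩ := z
        obtain ⟨a', b'⟩ := z'
        obtain ⟨ha, hb, hab⟩ := hz
        obtain ⟨ha', hb', hab'⟩ := hz'
        simp only [Prod.smul_mk] at *
        rw [dir_iff _ (hf _ ha) _ (hf _ hb) _ (hf _ ha') _ (hf _ hb') hab hab', ← hth _ ha _ hb,
          ← hth _ ha' _ hb'] at e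
        rw [dir_iff _ (hf _ (hY g _ ha)) _ (hf _ (hY g _ hb)) _ (hf _ (hY g _ ha')) _ (hf _ (hY g _ hb'))
          (fun e => hab ((hk' g _ ha _ hb).1 e)) (fun e => hab' ((hk' g _ ha' _ hb').1 e)),
          ← hth _ (hY g _ ha) _ (hY g _ hb), ← hth _ (hY g _ ha') _ (hY g _ hb'), ← ho g _ ha _ hb,
          ← ho g _ ha' _ hb']
        have c := hoY _ ha _ hb
        have c' := hoY _ ha' _ hb'
        rw [hk' g _ ha' _ ha, hk' g _ ha' _ hb, hk' g _ ha' _ c, hk' g _ hb' _ ha, hk' g _ hb' _ hb,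
          hk' g _ hb' _ c, hk' g _ c' _ ha, hk' g _ c' _ hb, hk' g _ c' _ c]
        exact e) g (y := (x, y)) ⟨hx, hy, hne⟩
  have h2 := small hP Y hY (fun z => f z / 3) (fun z hz => by have := hf z hz; omega) (fun g x hx y hy e => by
    rw [(dir_zero _ (hf _ hx) _ (hf _ hy)).1] at e
    rw [(dir_zero _ (hf _ (hY g _ hx)) _ (hf _ (hY g _ hy))).1, hk' g _ hx _ hy]
    by_cases h : f x = f y
    · exact Or.inl h
    · rw [h1 g x hx y hy h]; exact e) g hy
  have h3 := small hP Y hY (fun z => f z % 3) (fun z hz => by omega) (fun g x hx y hy e => by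
    rw [(dir_zero _ (hf _ hx) _ (hf _ hy)).2] at e
    rw [(dir_zero _ (hf _ (hY g _ hx)) _ (hf _ (hY g _ hy))).2, hk' g _ hx _ hy]
    by_cases h : f x = f y
    · exact Or.inl h
    · rw [h1 g x hx y hy h]; exact e) g hy
  omega

end Cfsg.Agent.H1.F23
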