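import Cfsg.Agent.H1.F23E
import Cfsg.Agent.H1.F23F

/-! The stabiliser of the 324 transpositions is maximal and has no non-trivial perfect subgroup. -/

set_option autoImplicit false
set_option maxRecDepth 100000

namespace Cfsg.Agent.H1.F23

open Equiv Pointwise

noncomputable section

attribute [local irreducible] row

theorem ta_spec {g i : ℕ} (hg : g < 11) (hi : i < 324) : iv g < 11 ∧ ta g i < 324 ∧ ta g (ta (iv g) i) = i ∧
    aw (WH.getD g []) (pt i) = pt (ta g i) := by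
  have h := allR_sound ta_ok (Nat.zero_le g) (by omega)
  simp only [Bool.and_eq_true, Nat.blt_eq] at h
  have h' := allR_sound h.2 (Nat.zero_le i) (by omega)
  simp only [Bool.and_eq_true, Nat.blt_eq, Nat.beq_eq, frc_eq] at h'
  exact ⟨h.1, h'.1.1, h'.1.2, h'.2⟩

theorem pt_spec {i : ℕ} (hi : i < 324) : pt i < 31671 ∧ 2 ≤ pt i ∧ ∀ j < i, pt i ≠ pt j := by
  have h := allR_sound pt_ok (Nat.zero_le i) (by omega)
  simp only [Bool.and_eq_true, Nat.blt_eq, Nat.ble_eq] at h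
  refine ⟨h.1.1, h.1.2, fun j hj e => ?_⟩
  have := allR_sound h.2 (Nat.zero_le j) (by omega)
  rw [e, Nat.beq_refl] at this
  exact absurd this (by simp)

theorem pt_inj {i j : ℕ} (hi : i < 324) (hj : j < 324) (h : pt i = pt j) : i = j := by
  rcases lt_trichotomy i j with h1 | h1 | h1
  · exact absurd h.symm ((pt_spec hj).2.2 i h1)
  · exact h1
  · exact absurd h ((pt_spec hi).2.2 j h1)

theorem WH_vw : ∀ g < 11, Vw (WH.getD g []) := by decide +kernel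

theorem ev_pt {g i : ℕ} (hg : g < 11) (hi : i < 324) : ev (WH.getD g []) (pt i) = pt (ta g i) := by
  rw [(ev_apply (WH_vw g hg) (pt_spec hi).1).1, (ta_spec hg hi).2.2.2]

theorem lt_lt (w : ℕ) : lt w < 11 := Nat.mod_lt _ (by norm_num)

theorem pt_vals : pt 0 = 2 ∧ pt 36 = 3 ∧ pt 9 = 4 ∧ pt 18 = 8 ∧ pt 28 = 71 ∧ pt 30 = 637 ∧ pt 108 = 25852 ∧
    pt 274 = 31465 := by decide +kernel

theorem cj_sound (m w : ℕ) {i : ℕ} (hi : i < 324) :
    pj m w < 324 ∧ cj m w i < 324 ∧ dd (pt (pj m w)) (pt i) = pt (cj m w i) := by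
  induction m generalizing w i with
  | zero =>
    refine ⟨show 0 < 324 by norm_num, (ta_spec (g := 1) (by norm_num) hi).2.1, ?_⟩
    show dd (pt 0) (pt i) = pt (ta 1 i)
    rw [pt_vals.1, dd_lab (by norm_num), ← ev_pt (g := 1) (by norm_num) hi]
    simp [WH, ev]
  | succ m ih =>
    have e1 : pj (m + 1) w = ta (lt w) (pj m (w >>> 4)) := rfl
    have e2 : cj (m + 1) w i = ta (lt w) (cj m (w >>> 4) (ta (iv (lt w)) i)) := rfl
    have hg := lt_lt w
    obtain ⟨a1, -, a2, -⟩ := ta_spec hg hi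
    obtain ⟨b1, b2, b3⟩ := ih (w >>> 4) (ta_spec a1 hi).2.1
    rw [e1, e2]
    refine ⟨(ta_spec hg b1).2.1, (ta_spec hg b2).2.1, ?_⟩
    rw [← ev_pt hg b1, ← dd_conj (ev_mem (WH_vw _ hg)) (pt_spec b1).1, ← ev_pt hg b2, ← b3]
    conv_lhs => rw [← a2, ← ev_pt hg (ta_spec a1 hi).2.1]
    simp

theorem pair_spec {i j : ℕ} (hi : i < 324) (hj : j < 324) : ∃ k < 324, dd (pt j) (pt i) = pt k ∧
    k / 36 = thd (i / 36) (j / 36) ∧ (i / 36 = j / 36 →
      if i / 9 = j / 9 then k / 9 = i / 9 ∧ k % 9 = thd (i % 9) (j % 9) else k = i) := by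
  have h : prj j = true := by
    by_cases h0 : j < 54
    · exact allR_sound pr0 (by omega) (by omega)
    by_cases h1 : j < 108
    · exact allR_sound pr1 (by omega) (by omega)
    by_cases h2 : j < 162
    · exact allR_sound pr2 (by omega) (by omega)
    by_cases h3 : j < 216
    · exact allR_sound pr3 (by omega) (by omega)
    by_cases h4 : j < 270
    · exact allR_sound pr4 (by omega) (by omega)
    · exact allR_sound pr5 (by omega) (by omega)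
  simp only [prj, frc_eq, Bool.and_eq_true, Nat.beq_eq] at h
  obtain ⟨-, a2, a3⟩ := cj_sound (Nat.land (kw j) 15) (Nat.shiftRight (kw j) 4) hi
  have h' := allR_sound h.2 (Nat.zero_le i) (by omega)
  rw [h.1] at a3
  refine ⟨_, a2, a3, ?_⟩
  simp only [pr, frc_eq, brec] at h'
  generalize cj (Nat.land (kw j) 15) (Nat.shiftRight (kw j) 4) i = k at h'
  change (bif Nat.beq (k / 36) (thd (i / 36) (j / 36)) then bif Nat.beq (i / 36) (j / 36) then
    bif Nat.beq (i / 9) (j / 9) then Nat.beq (k / 9) (i / 9) && Nat.beq (k % 9) (thd (i % 9) (j % 9))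
    else Nat.beq k i else true else false) = true at h'
  cases h1 : Nat.beq (k / 36) (thd (i / 36) (j / 36))
  · rw [h1] at h'; exact absurd h' (by simp)
  rw [h1, cond_true] at h'
  refine ⟨Nat.eq_of_beq_eq_true h1, fun e => ?_⟩
  rw [e, Nat.beq_refl, cond_true] at h'
  split_ifs with h2
  · rw [h2, Nat.beq_refl, cond_true] at h'
    simpa [h2] using h'
  · rw [show Nat.beq (i / 9) (j / 9) = false from Bool.eq_false_iff.2 fun e => h2 (Nat.eq_of_beq_eq_true e),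
      cond_false] at h'
    exact Nat.eq_of_beq_eq_true h'

theorem thd_eq : ∀ u < 9, ∀ v < 9, (thd u v = u ↔ u = v) := by decide +kernel

theorem comm_iff {i j : ℕ} (hi : i < 324) (hj : j < 324) :
    dd (pt j) (pt i) = pt i ↔ i = j ∨ (i / 36 = j / 36 ∧ i / 9 ≠ j / 9) := by
  obtain ⟨k, a1, a2, a3, a4⟩ := pair_spec hi hj
  rw [a2, show pt k = pt i ↔ k = i from ⟨pt_inj a1 hi, fun e => e ▸ rfl⟩]
  have b1 := thd_eq (i / 36) (by omega) (j / 36) (by omega)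
  have b2 := thd_eq (i % 9) (by omega) (j % 9) (by omega)
  by_cases h : i / 36 = j / 36
  · have := a4 h
    split_ifs at this <;> omega
  · omega

def D0 : Set ℕ := pt '' {i | i < 324}

theorem D0_finite : D0.Finite := (Set.finite_lt_nat 324).image _

theorem D0_lt {p : ℕ} (hp : p ∈ D0) : p < 31671 := by
  obtain ⟨i, hi, rfl⟩ := hp
  exact (pt_spec hi).1

/-- the maximal subgroup -/
def H0 : Subgroup (Perm ℕ) := G0 ⊓ MulAction.stabilizer (Perm ℕ) D0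

theorem mem_H0 {g : Perm ℕ} : g ∈ H0 ↔ g ∈ G0 ∧ ∀ p ∈ D0, g p ∈ D0 := by
  rw [H0, Subgroup.mem_inf, MulAction.mem_stabilizer_set_iff_smul_set_subset D0_finite,
    Set.smul_set_subset_iff]
  rfl

theorem WH_mem {g : ℕ} (hg : g < 11) : ev (WH.getD g []) ∈ H0 :=
  mem_H0.2 ⟨ev_mem (WH_vw g hg), by
    rintro _ ⟨i, hi, rfl⟩
    exact ⟨_, (ta_spec hg hi).2.1, (ev_pt hg hi).symm⟩⟩

theorem WH_mem' : ∀ w ∈ WH, Vw w ∧ ev w ∈ H0 := fun w hw => by
  obtain ⟨g, hg, rfl⟩ := List.getElem_of_mem hw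
  rw [← List.getD_eq_getElem _ [] hg]
  exact ⟨WH_vw g hg, WH_mem hg⟩

theorem dd_mem_H0 {p : ℕ} (hp : p ∈ D0) : dd p ∈ H0 :=
  mem_H0.2 ⟨dd_mem (D0_lt hp), by
    obtain ⟨j, hj, rfl⟩ := hp
    rintro _ ⟨i, hi, rfl⟩
    obtain ⟨k, a1, a2, -⟩ := pair_spec hi hj
    exact ⟨k, a1, a2.symm⟩⟩

theorem lH_spec : ∀ s ∈ lH, Gn s ∧ s / 40 ∈ D0 := by
  obtain ⟨a1, a2, a3, a4, -⟩ := pt_vals
  intro s hs
  simp only [show lH = [120, 80, 160, 320] from rfl, List.mem_cons, List.not_mem_nil, or_false] at hs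
  rcases hs with rfl | rfl | rfl | rfl
  exacts [⟨by decide, 36, by simp, a2⟩, ⟨by decide, 0, by simp, a1⟩, ⟨by decide, 9, by simp, a3⟩,
    ⟨by decide, 18, by simp, a4⟩]

theorem sg_eq_dd {s : ℕ} (hs : Gn s) : sg s = dd (s / 40) := by
  rw [dd_lab (by have := hs.2; omega), show 40 * (s / 40) = s by have := hs.1; omega]

theorem H0_orbits {p : ℕ} (hp : p < 31671) : ∃ k ∈ H0, k p < 3 := by
  obtain ⟨k, a1, -, a2⟩ := forest WH_mem' (l := lH) (fun s hs => ⟨(lH_spec s hs).1, by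
    rw [sg_eq_dd (lH_spec s hs).1]; exact dd_mem_H0 (lH_spec s hs).2⟩)
    (fun p hp => (all_parts hp).2.2.2.2.1) XH_ok hp
  exact ⟨k, a1, a2⟩

def tw (x : ℕ × List ℕ) : List ℕ := x.2.reverse ++ 40 * x.1 :: x.2

theorem ev_tw {x : ℕ × List ℕ} (h1 : x.1 < 10) (h2 : Vw x.2) : Vw (tw x) ∧ ev (tw x) = dd (aw x.2 x.1) := by
  refine ⟨h2.rev.append fun s hs => ?_, ?_⟩
  · rcases List.mem_cons.1 hs with rfl | hs
    exacts [⟨by omega, by omega⟩, h2 s hs]
  · rw [tw, ev_append, ev_reverse, ev, ← dd_ev h2 (by omega), dd_lab h1]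

def TX : List (ℕ × List ℕ) := [(2, []), (3, []), (4, []), (8, []), (0, []), (1, [80, 120, 160, 200, 320, 360]),
  (1, [80, 120, 160, 200, 240, 280, 320, 120, 80, 360, 320, 120, 160, 200, 240]),
  (0, [40, 80, 120, 160, 200, 240, 280, 320, 120, 80, 40, 160, 120, 80, 200, 360, 320, 120, 80, 40, 0, 160, 120,
    80, 200, 160, 240, 200, 320, 120, 160, 200, 360, 320, 120, 80, 40, 0])]

theorem TX_ok : TX.all (fun x => decide (x.1 < 10) && decide (Vw x.2) &&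
    [2, 3, 4, 8, 71, 637, 25852, 0].contains (aw x.2 x.1)) = true := by decide +kernel

theorem TX_words : awn (TX.map tw) 18 0x401231510615123461 2 = 1 ∧ awn (TX.map tw) 15 0x546510315213461 2 = 5 ∧
    awn (TX.map tw) 19 0x5410216120146512451 2 = 6 ∧ awn (TX.map tw) 22 0x6451031254610315213451 2 = 7 ∧
    awn (TX.map tw) 15 0x546510215312461 2 = 9 ∧ awn (WH ++ [[40]]) 15 0xb10230aba10320b 2 = 0 := by
  decide +kernel

theorem dd_awn {K : Subgroup (Perm ℕ)} {W : List (List ℕ)} (hW : ∀ w ∈ W, Vw w ∧ ev w ∈ K) (h2 : dd 2 ∈ K)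
    (m w : ℕ) : dd (awn W m w 2) ∈ K := by
  obtain ⟨k, a1, a2, a3⟩ := awn_sound hW m w (p := 2) (by norm_num)
  rw [← a3, ← dd_conj a2 (by norm_num)]
  exact mul_mem (mul_mem a1 h2) (inv_mem a1)

theorem gen_all {K : Subgroup (Perm ℕ)} (hD : ∀ p ∈ D0, dd p ∈ K) (h0 : dd 0 ∈ K) : G0 ≤ K := by
  obtain ⟨a1, a2, a3, a4, a5, a6, a7, -⟩ := pt_vals
  have b1 := hD 2 ⟨0, by simp, a1⟩
  have b2 := hD 3 ⟨36, by simp, a2⟩
  have b3 := hD 4 ⟨9, by simp, a3⟩
  have b4 := hD 8 ⟨18, by simp, a4⟩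
  have hW : ∀ w ∈ TX.map tw, Vw w ∧ ev w ∈ K := fun w hw => by
    obtain ⟨x, hx, rfl⟩ := List.mem_map.1 hw
    have := List.all_eq_true.1 TX_ok x hx
    simp only [Bool.and_eq_true, decide_eq_true_eq, List.contains_iff_mem, List.mem_cons, List.not_mem_nil,
      or_false] at this
    obtain ⟨c1, c2⟩ := ev_tw this.1.1 this.1.2
    refine ⟨c1, c2 ▸ ?_⟩
    rcases this.2 with e | e | e | e | e | e | e | e <;> rw [e]
    exacts [b1, b2, b3, b4, hD _ ⟨28, by simp, a5⟩, hD _ ⟨30, by simp, a6⟩, hD _ ⟨108, by simp, a7⟩, h0]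
  obtain ⟨c1, c2, c3, c4, c5, -⟩ := TX_words
  refine le_of_gens fun r hr => ?_
  interval_cases r
  exacts [h0, c1 ▸ dd_awn hW b1 _ _, b1, b2, b3, c2 ▸ dd_awn hW b1 _ _, c3 ▸ dd_awn hW b1 _ _,
    c4 ▸ dd_awn hW b1 _ _, b4, c5 ▸ dd_awn hW b1 _ _]

theorem H0_max {K : Subgroup (Perm ℕ)} (h1 : H0 < K) (h2 : K ≤ G0) : G0 ≤ K := by
  have hD : ∀ p ∈ D0, dd p ∈ K := fun p hp => h1.le (dd_mem_H0 hp)
  obtain ⟨g, g1, g2⟩ := SetLike.exists_of_lt h1
  rw [mem_H0, not_and] at g2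
  have g3 := g2 (h2 g1)
  push Not at g3
  obtain ⟨p, hp, hq⟩ := g3
  have hq' := G0_lt (h2 g1) (D0_lt hp)
  obtain ⟨k, k1, k2⟩ := H0_orbits hq'
  have k3 := (mem_H0.1 k1).1
  have a1 : dd (k (g p)) ∈ K := by
    rw [← dd_conj k3 hq', ← dd_conj (h2 g1) (D0_lt hp)]
    exact mul_mem (mul_mem (h1.le k1) (mul_mem (mul_mem g1 (hD p hp)) (inv_mem g1))) (inv_mem (h1.le k1))
  have h2D : 2 ∈ D0 := ⟨0, by simp, pt_vals.1⟩
  refine gen_all hD ?_
  rcases (by omega : k (g p) = 0 ∨ k (g p) = 1 ∨ k (g p) = 2) with e | e | e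
  · exact e ▸ a1
  · rw [e] at a1
    rw [← TX_words.2.2.2.2.2]
    refine dd_awn (fun w hw => ?_) (hD 2 h2D) _ _
    rcases List.mem_append.1 hw with hw | hw
    · exact ⟨(WH_mem' w hw).1, h1.le (WH_mem' w hw).2⟩
    · rw [List.mem_singleton.1 hw]
      refine ⟨by decide, ?_⟩
      rw [dd_lab (by norm_num)] at a1
      simpa [ev] using a1
  · have := (mem_H0.1 (inv_mem k1)).2 2 h2D
    rw [← e] at this
    exact absurd (by simpa using this) hq

theorem H0_ne : ¬ G0 ≤ H0 := fun h => by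
  obtain ⟨g, g1, g2⟩ := to_zero (p := 2) (by norm_num)
  obtain ⟨i, hi, e⟩ := (mem_H0.1 (h g1)).2 2 ⟨0, by simp, pt_vals.1⟩
  have := (pt_spec hi).2.1
  omega

def ix (p : ℕ) : ℕ := Function.invFunOn pt {i | i < 324} p

theorem ix_pt {i : ℕ} (hi : i < 324) : ix (pt i) = i :=
  Set.InjOn.leftInvOn_invFunOn (fun _ ha _ hb h => pt_inj ha hb h) hi

theorem uF_ok : wF = tw (0, wF.drop 46) ∧ Vw (wF.drop 46) ∧ aw (wF.drop 46) 0 = 31465 ∧ aw wF 0 = 0 ∧
    ∀ s ∈ lH, A s 0 = 0 := by decide +kernel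

theorem perfect_bot {P : Subgroup (Perm ℕ)} (hle : P ≤ H0) (hP : ⁅P, P⁆ = P) : P = ⊥ := by
  have hG : ∀ g : P, g.1 ∈ G0 := fun g => (mem_H0.1 (hle g.2)).1
  haveI : Finite P := Finite.of_injective (fun g : P => (⟨g.1, hG g⟩ : G0)) fun a b h =>
    Subtype.ext (congrArg (fun x : G0 => x.1) h)
  have hc : commutator P = ⊤ := by
    apply Subgroup.map_injective P.subtype_injective
    rw [commutator, Subgroup.map_commutator, ← MonoidHom.range_eq_map, Subgroup.range_subtype, hP]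
  have hD : ∀ g : P, ∀ y ∈ D0, g • y ∈ D0 := fun g => (mem_H0.1 (hle g.2)).2
  have ho : ∀ g : P, ∀ x, ∀ y ∈ D0, g • dd y x = dd (g • y) (g • x) := fun g x y hy => by
    show g.1 _ = dd (g.1 y) (g.1 x)
    rw [← dd_conj (hG g) (D0_lt hy)]; simp
  have hcm : ∀ g : P, ∀ x, ∀ y ∈ D0, (dd (g • y) (g • x) = g • x ↔ dd y x = x) := fun g x y hy => by
    rw [← ho g x y hy, smul_left_cancel_iff]
  have hblock : ∀ x ∈ D0, ∀ y ∈ D0, (ix x / 36 = ix y / 36 ↔ ∃ z ∈ D0, dd z x = x ∧ dd y z = z) := by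
    rintro _ ⟨i, hi, rfl⟩ _ ⟨j, hj, rfl⟩
    simp only [Set.mem_setOf_eq] at hi hj
    rw [ix_pt hi, ix_pt hj]
    constructor
    · intro e
      by_cases h : i / 9 = j / 9
      · have hk : 36 * (i / 36) + 9 * ((i / 9 + 1) % 4) < 324 := by omega
        exact ⟨_, ⟨_, hk, rfl⟩, (comm_iff hi hk).2 (by omega), (comm_iff hk hj).2 (by omega)⟩
      · exact ⟨_, ⟨_, hi, rfl⟩, (comm_iff hi hi).2 (Or.inl rfl), (comm_iff hi hj).2 (by omega)⟩
    · rintro ⟨_, ⟨k, hk, rfl⟩, h1, h2⟩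
      rw [comm_iff hi hk] at h1
      rw [comm_iff hk hj] at h2
      omega
  have s1 : ∀ g : P, ∀ y ∈ D0, ix (g • y) / 36 = ix y / 36 := fun g y hy =>
    ag hc D0 hD (fun x y => dd y x) (fun x hx y hy => (mem_H0.1 (dd_mem_H0 hy)).2 x hx)
      (fun g x _ y hy => ho g x y hy) (fun y => ix y / 36)
      (by rintro _ ⟨i, hi, rfl⟩; simp only [Set.mem_setOf_eq] at hi; rw [ix_pt hi]; omega)
      (by
        rintro _ ⟨i, hi, rfl⟩ _ ⟨j, hj, rfl⟩
        obtain ⟨k, a1, a2, a3, -⟩ := pair_spec hi hj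
        simp only [a2, ix_pt a1, ix_pt hi, ix_pt hj, a3])
      (fun g x hx y hy e => by
        obtain ⟨z, hz, a1, a2⟩ := (hblock x hx y hy).1 e
        exact (hblock _ (hD g x hx) _ (hD g y hy)).2 ⟨_, hD g z hz, (hcm g x z hz).2 a1, (hcm g z y hy).2 a2⟩)
      g hy
  have hcl : ∀ x ∈ D0, ∀ y ∈ D0, ix x / 36 = ix y / 36 → (ix x / 9 % 4 = ix y / 9 % 4 ↔ x = y ∨ dd y x ≠ x) := by
    rintro _ ⟨i, hi, rfl⟩ _ ⟨j, hj, rfl⟩
    simp only [Set.mem_setOf_eq] at hi hj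
    rw [ix_pt hi, ix_pt hj, Ne, comm_iff hi hj, show pt i = pt j ↔ i = j from ⟨pt_inj hi hj, fun e => e ▸ rfl⟩]
    omega
  have s2 : ∀ g : P, ∀ y ∈ D0, ix (g • y) / 9 = ix y / 9 := fun g y hy => by
    have := small hc {x | x ∈ D0 ∧ ix x / 36 = ix y / 36} (fun g x hx => ⟨hD g x hx.1, (s1 g x hx.1).trans hx.2⟩)
      (fun x => ix x / 9 % 4) (fun _ _ => by omega) (fun g x hx z hz e => by
        rw [hcl x hx.1 z hz.1 (hx.2.trans hz.2.symm)] at e
        rw [hcl _ (hD g x hx.1) _ (hD g z hz.1) (by rw [s1 g x hx.1, s1 g z hz.1, hx.2, hz.2]), Ne,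
          hcm g x z hz.1, smul_left_cancel_iff]
        exact e) g (y := y) ⟨hy, rfl⟩
    have := s1 g y hy
    omega
  have hix : ∀ x ∈ D0, ∀ y ∈ D0, ix x = ix y → x = y := by
    rintro _ ⟨i, hi, rfl⟩ _ ⟨j, hj, rfl⟩ e
    rw [ix_pt hi, ix_pt hj] at e; rw [e]
  have s3 : ∀ g : P, ∀ y ∈ D0, g • y = y := fun g y hy => by
    have hp : ∀ x ∈ D0, ∀ z ∈ D0, ix x / 9 = ix z / 9 →
        ix (dd z x) / 9 = ix x / 9 ∧ ix (dd z x) % 9 = thd (ix x % 9) (ix z % 9) := by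
      rintro _ ⟨i, hi, rfl⟩ _ ⟨j, hj, rfl⟩ e
      obtain ⟨k, a1, a2, -, a3⟩ := pair_spec hi hj
      rw [ix_pt hi, ix_pt hj] at e ⊢
      rw [a2, ix_pt a1]
      have := a3 (by omega)
      rwa [if_pos e] at this
    have := ag hc {x | x ∈ D0 ∧ ix x / 9 = ix y / 9} (fun g x hx => ⟨hD g x hx.1, (s2 g x hx.1).trans hx.2⟩)
      (fun x y => dd y x) (fun x hx z hz => ⟨(mem_H0.1 (dd_mem_H0 hz.1)).2 x hx.1,
        (hp x hx.1 z hz.1 (hx.2.trans hz.2.symm)).1.trans hx.2⟩)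
      (fun g x _ z hz => ho g x z hz.1) (fun x => ix x % 9) (fun _ _ => by omega)
      (fun x hx z hz => (hp x hx.1 z hz.1 (hx.2.trans hz.2.symm)).2)
      (fun g x hx z hz e => by
        have a1 := hx.2
        have a2 := hz.2
        rw [hix x hx.1 z hz.1 (by omega)]) g (y := y) ⟨hy, rfl⟩
    have h2 := s2 g y hy
    exact hix _ (hD g y hy) _ hy (by omega)
  obtain ⟨u1, u2, u3, u4, u5⟩ := uF_ok
  obtain ⟨v1, v2⟩ := ev_tw (x := (0, wF.drop 46)) (by norm_num) u2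
  rw [← u1] at v1 v2
  rw [u3] at v2
  have hF : 31465 ∈ D0 := ⟨274, by simp, pt_vals.2.2.2.2.2.2.2⟩
  have s4 : ∀ g : P, g • 0 = 0 := fun g => by
    have hY : ∀ q, q < 31671 → (∀ d ∈ D0, dd d 0 = 0 → dd d q = q) → q = 0 ∨ q = 107 ∨ q = 783 := fun q hq h => by
      rcases lany_iff.1 (all_parts hq).2.2.2.2.2 with ⟨s, hs, e⟩ | e
      · obtain ⟨a1, a2⟩ := lH_spec s hs
        have := h _ a2 (by rw [← sg_eq_dd a1, sg_apply (by norm_num) a1, u5 s hs])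
        rw [← sg_eq_dd a1, sg_apply hq a1] at this
        rw [this, Nat.beq_refl] at e
        exact absurd e (by simp)
      · have := h _ hF (by rw [← v2, (ev_apply v1 (by norm_num)).1, u4])
        rw [← v2, (ev_apply v1 hq).1] at this
        simpa [this, or_assoc] using e
    have hY' : ∀ g : P, ∀ q ∈ {q | q < 31671 ∧ ∀ d ∈ D0, dd d 0 = 0 → dd d q = q},
        g • q ∈ {q | q < 31671 ∧ ∀ d ∈ D0, dd d 0 = 0 → dd d q = q} := fun g q hq =>
      ⟨G0_lt (hG g) hq.1, fun d hd e => by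
        conv_lhs => rw [← s3 g d hd]
        rw [hcm g q d hd, hq.2 d hd e]⟩
    have h0 : 0 ∈ {q | q < 31671 ∧ ∀ d ∈ D0, dd d 0 = 0 → dd d q = q} := ⟨by norm_num, fun _ _ h => h⟩
    have := small hc _ hY' (fun q => q / 100 % 4) (fun q _ => by omega)
      (fun g x hx z hz e => by
        have a1 := hY x hx.1 hx.2
        have a2 := hY z hz.1 hz.2
        rw [show x = z by omega]) g h0
    have a1 := hY _ (hY' g 0 h0).1 (hY' g 0 h0).2
    omega
  rw [eq_bot_iff]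
  intro g hg
  exact eq_one_of_comm (hG ⟨g, hg⟩) (gen_all (fun p hp => dd_mem_centralizer (hG ⟨g, hg⟩) (D0_lt hp)
    (s3 ⟨g, hg⟩ p hp)) (dd_mem_centralizer (hG ⟨g, hg⟩) (by norm_num) (s4 ⟨g, hg⟩)))

end

end Cfsg.Agent.H1.F23
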