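import Cfsg.Agent.H1.F23G

/-! The ninth derived subgroup of the maximal subgroup is not trivial. -/

set_option autoImplicit false
set_option maxRecDepth 100000

namespace Cfsg.Agent.H1.F23

open Equiv
open scoped commutatorElement

noncomputable section

attribute [local irreducible] row

def HH : Subgroup G0 := H0.subgroupOf G0

def NN (k : ℕ) : Subgroup (Perm ℕ) := (derivedSeries HH k).map (G0.subtype.comp HH.subtype)

theorem NN_le (k : ℕ) : NN k ≤ H0 := by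
  rintro _ ⟨x, -, rfl⟩
  exact x.2

theorem mem_NN_zero {g : Perm ℕ} (hg : g ∈ H0) : g ∈ NN 0 :=
  ⟨⟨⟨g, (mem_H0.1 hg).1⟩, hg⟩, Subgroup.mem_top _, rfl⟩

theorem NN_succ (k : ℕ) : NN (k + 1) = ⁅NN k, NN k⁆ := by
  rw [NN, derivedSeries_succ, Subgroup.map_commutator]; rfl

theorem NN_conj {k : ℕ} {g x : Perm ℕ} (hg : g ∈ NN 0) (hx : x ∈ NN k) : g * x * g⁻¹ ∈ NN k := by
  obtain ⟨g, -, rfl⟩ := hg
  obtain ⟨x, hx, rfl⟩ := hx
  exact ⟨g * x * g⁻¹, (derivedSeries_normal HH k).conj_mem x hx g, by simp⟩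

structure Fn where
  f : ℕ → ℕ
  b : ℕ → ℕ

def Fn.w (g : ℕ) : Fn := ⟨aw (WH.getD g []), aw (WH.getD g []).reverse⟩

def Fn.comm (x y : Fn) : Fn :=
  ⟨fun p => frc (x.f p) fun p => frc (y.f p) fun p => frc (x.b p) y.b,
   fun p => frc (y.f p) fun p => frc (x.f p) fun p => frc (y.b p) x.b⟩

def Fn.conj (g x : Fn) : Fn :=
  ⟨fun p => frc (g.b p) fun p => frc (x.f p) g.f, fun p => frc (g.b p) fun p => frc (x.b p) g.f⟩

def Lv (k : ℕ) (x : Fn) : Prop := ∃ g ∈ NN k, ∀ p < 31671, g p = x.f p ∧ g⁻¹ p = x.b p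

theorem NN_lt {k : ℕ} {g : Perm ℕ} (hg : g ∈ NN k) {p : ℕ} (hp : p < 31671) : g p < 31671 :=
  G0_lt (mem_H0.1 (NN_le k hg)).1 hp

theorem Lv.w' {k g : ℕ} (hg : g < 11) (h : ev (WH.getD g []) ∈ NN k) : Lv k (Fn.w g) :=
  ⟨_, h, fun p hp => ⟨(ev_apply (WH_vw g hg) hp).1, by
    rw [← ev_reverse]; exact (ev_apply (WH_vw g hg).rev hp).1⟩⟩

theorem Lv.w {g : ℕ} (hg : g < 11) : Lv 0 (Fn.w g) := Lv.w' hg (mem_NN_zero (WH_mem hg))

theorem Lv.comm {k : ℕ} {x y : Fn} (hx : Lv k x) (hy : Lv k y) : Lv (k + 1) (x.comm y) := by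
  obtain ⟨g, g1, g2⟩ := hx
  obtain ⟨h, h1, h2⟩ := hy
  refine ⟨⁅h⁻¹, g⁻¹⁆, NN_succ k ▸ Subgroup.commutator_mem_commutator (inv_mem h1) (inv_mem g1), fun p hp => ?_⟩
  simp only [Fn.comm, frc_eq, commutatorElement_def, mul_inv_rev, inv_inv, Perm.mul_apply]
  rw [← (g2 p hp).1, ← (h2 _ (NN_lt g1 hp)).1, ← (g2 _ (NN_lt h1 (NN_lt g1 hp))).2,
    ← (h2 _ (NN_lt (inv_mem g1) (NN_lt h1 (NN_lt g1 hp)))).2, ← (h2 p hp).1, ← (g2 _ (NN_lt h1 hp)).1,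
    ← (h2 _ (NN_lt g1 (NN_lt h1 hp))).2, ← (g2 _ (NN_lt (inv_mem h1) (NN_lt g1 (NN_lt h1 hp)))).2]
  exact ⟨rfl, rfl⟩

theorem Lv.conj {k : ℕ} {x y : Fn} (hx : Lv 0 x) (hy : Lv k y) : Lv k (x.conj y) := by
  obtain ⟨g, g1, g2⟩ := hx
  obtain ⟨h, h1, h2⟩ := hy
  refine ⟨g * h * g⁻¹, NN_conj g1 h1, fun p hp => ?_⟩
  simp only [Fn.conj, frc_eq, mul_inv_rev, inv_inv, Perm.mul_apply]
  have a := NN_lt (inv_mem g1) hp
  rw [← (g2 p hp).2, ← (h2 _ a).1, ← (h2 _ a).2, ← (g2 _ (NN_lt h1 a)).1, ← (g2 _ (NN_lt (inv_mem h1) a)).1]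
  exact ⟨rfl, rfl⟩

theorem Lv.cc {k : ℕ} {g x : Fn} (hg : Lv 0 g) (hx : Lv k x) : Lv (k + 1) (x.comm (g.conj x)) :=
  hx.comm (hg.conj hx)

def z1 : Fn := (Fn.w 4).comm (Fn.w 5)
def z2 : Fn := z1.comm ((Fn.w 9).conj z1)
def z3 : Fn := z2.comm ((Fn.w 6).conj z2)

theorem z3_ok : allR (fun r => Nat.beq (z3.f r) (A 80 r)) 0 10 = true := by decide +kernel

def z4 : Fn := (Fn.w 1).comm ((Fn.w 1).conj ((Fn.w 0).conj (Fn.w 1)))
def z5 : Fn := z4.comm ((Fn.w 9).conj z4)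
def z6 : Fn := z5.comm ((Fn.w 2).conj z5)
def z7 : Fn := z6.comm ((Fn.w 4).conj ((Fn.w 0).conj z6))
def z8 : Fn := z7.comm ((Fn.w 1).conj z7)
def z9 : Fn := z8.comm ((Fn.w 9).conj z8)

theorem z9_ok : z9.f 0 = 783 := by decide +kernel

theorem lv3 : Lv 3 (Fn.w 1) := by
  obtain ⟨g, g1, g2⟩ : Lv 3 z3 := Lv.cc (Lv.w (by norm_num)) (Lv.cc (Lv.w (by norm_num))
    (Lv.comm (Lv.w (by norm_num)) (Lv.w (by norm_num))))
  have : g = sg 80 := eq_of_base (mem_H0.1 (NN_le 3 g1)).1 (sg_mem (by decide)) fun r hr => by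
    rw [(g2 r (by omega)).1, sg_apply (by omega) (by decide)]
    exact Nat.eq_of_beq_eq_true (allR_sound z3_ok (Nat.zero_le r) (by omega))
  refine Lv.w' (by norm_num) ?_
  rw [this] at g1
  simpa [WH, ev] using g1

theorem NN_nine : NN 9 ≠ ⊥ := fun h => by
  have w : ∀ g < 11, Lv 0 (Fn.w g) := fun g hg => Lv.w hg
  have a4 : Lv 4 z4 := lv3.comm ((w 1 (by norm_num)).conj ((w 0 (by norm_num)).conj lv3))
  have a6 : Lv 6 z6 := Lv.cc (w 2 (by norm_num)) (Lv.cc (w 9 (by norm_num)) a4)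
  have a7 : Lv 7 z7 := a6.comm ((w 4 (by norm_num)).conj ((w 0 (by norm_num)).conj a6))
  obtain ⟨g, g1, g2⟩ : Lv 9 z9 := Lv.cc (w 9 (by norm_num)) (Lv.cc (w 1 (by norm_num)) a7)
  have := (g2 0 (by norm_num)).1
  rw [h, Subgroup.mem_bot] at g1
  rw [g1, z9_ok] at this
  exact absurd this (by decide)

theorem HH_coatom : IsCoatom HH := by
  refine ⟨fun h => H0_ne (Subgroup.subgroupOf_eq_top.1 h), fun K hK => ?_⟩
  have h1 : H0 < K.map G0.subtype := by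
    have := (Subgroup.map_lt_map_iff_of_injective G0.subtype_injective).2 hK
    rwa [HH, Subgroup.subgroupOf_map_subtype, inf_eq_left.2 (show H0 ≤ G0 from inf_le_left)] at this
  have h2 := H0_max h1 (Subgroup.map_subtype_le K)
  rw [eq_top_iff]
  intro x _
  obtain ⟨y, hy, e⟩ := h2 x.2
  exact (Subtype.ext e : y = x) ▸ hy

theorem main : ∃ (G : Type) (_ : Group G) (_ : Finite G) (S H : Subgroup G), S.Normal ∧ IsSimpleGroup S ∧
    ¬ IsMulCommutative S ∧ Subgroup.centralizer (S : Set G) = ⊥ ∧ IsCoatom H ∧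
    derivedSeries H 10 ≠ derivedSeries H 9 := by
  refine ⟨G0, inferInstance, inferInstance, ⊤, HH, inferInstance, Subgroup.topEquiv.isSimpleGroup, fun h => ?_,
    ?_, HH_coatom, fun h => NN_nine (perfect_bot (NN_le 9) ?_)⟩
  · exact not_comm (congrArg Subtype.val (h.is_comm.comm ⟨sG 0, trivial⟩ ⟨sG 40, trivial⟩))
  · rw [Subgroup.coe_top, Subgroup.centralizer_univ, center_bot]
  · rw [← NN_succ, NN, h]; rfl

end

end Cfsg.Agent.H1.F23
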