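import Cfsg.Agent.H1.F23A

/-! Kernel checks of the table rows (part 0). -/

set_option autoImplicit false
set_option maxRecDepth 100000
set_option Elab.async false

namespace Cfsg.Agent.H1.F23

theorem ck0 : allR chkP 0 1024 = true := by decide +kernel
theorem ck1 : allR chkP 1024 1024 = true := by decide +kernel
theorem ck2 : allR chkP 2048 1024 = true := by decide +kernel
theorem ck3 : allR chkP 3072 1024 = true := by decide +kernel
theorem ck4 : allR chkP 4096 1024 = true := by decide +kernel
theorem ck5 : allR chkP 5120 1024 = true := by decide +kernel
theorem ck6 : allR chkP 6144 1024 = true := by decide +kernel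
theorem ck7 : allR chkP 7168 1024 = true := by decide +kernel

end Cfsg.Agent.H1.F23
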